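import Cfsg.Agent.H2.Uq1

/-! Solvability of the overgroups of a Sylow 2-subgroup when there is no faithful uniqueness group. -/

set_option autoImplicit false
set_option linter.unusedVariables false
open Subgroup Cfsg Function CfH9 CfH7 CfH8 CfH1 CfFT CfH3.QK
open scoped commutatorElement

namespace CfH2.Uq
universe u
variable {G : Type u} [Group G] [Finite G]

/-- a member of `ℒ(G,T)` with `F* = O₂` outside `ℒ_f(G,T)` centralizes `Ω₁(Z(T))` -/
theorem le_Cz_of_not_Lf (hE : IsOfEvenCharacteristic G) {T : Subgroup G} (hT : SylIn 2 T ⊤) {L : Subgroup G}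
    (hL : L ∈ calL T) (hF : generalizedFittingSubgroup L = pCore 2 L) (hf : L ∉ calLf T) :
    L ≤ Cz(omegaOne 2 (T ⊓ Cz(T))) := by
  obtain ⟨h0, h1, h2⟩ := hL
  have s : SubnIn L (L ⊔ T) := ⟨le_sup_left, h0.2.2.1⟩
  have pL : ⁅L, L⁆ = L := by
    have := congrArg (Subgroup.map (L ⊔ T).subtype) h0.2.1
    rwa [Subgroup.map_commutator, map_subgroupOf_eq_of_le le_sup_left] at this
  have r := pResidualOf_eq_of_perfect (p := 2) pL
  have m : moduleV L = ⊥ := by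
    by_contra n
    refine hf ⟨⟨h0, h1, h2⟩, ⟨fun e => h0.1 (by simp [e]), ?_, hF⟩, n⟩
    rw [pResidualOf_eq_closure] at r
    simpa only [oddGenerated, Nat.coprime_two_right] using r
  set Q := pCoreOf 2 (L ⊔ T)
  have c : Cz(Q) ≤ Q := parabolicChar_Cz_pCoreOf_le (fun R hR hR1 hS => hE _ ⟨R, hR, hR1, rfl⟩ hS) hT le_sup_right
    fun e => h2 (pCoreOf_eq_bot_iff.1 e)
  have QT : Q ≤ T := sylIn_pCoreOf_le (hT.mono le_sup_right le_top)
  have LQ : L ≤ Nm(Q) := le_sup_left.trans (le_normalizer_pCoreOf _)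
  have QL : Q ≤ Nm(L) := r ▸ s.pCoreOf_le_Nm_pResidualOf
  set V := omegaOne 2 (Q ⊓ Cz(Q))
  have VQ : V ≤ Q ⊓ Cz(Q) := CfH7.omegaOne_le _
  have LV : L ≤ Nm(V) := (CfH7.le_normalizer_inf LQ (LQ.trans (CfH7.normalizer_le_normalizer_centralizer _))).trans
    (CfH7.Nm_le_Nm_omegaOne _)
  have k : ⁅⁅V, L⁆, L⁆ = ⊥ := eq_bot_iff.2 ((commutator_mono (fun x hx => ?_) le_rfl).trans m.le)
  · have := commutator_commutator_eq_bot_of_rotate (H₁ := L) (H₂ := L) (H₃ := V) (commutator_comm V L ▸ k) k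
    rw [pL, commutator_eq_bot_iff_le_centralizer] at this
    exact this.trans (centralizer_le (CfH7.omegaOne_mono (le_inf (inf_le_right.trans ((centralizer_le QT).trans c))
      (inf_le_right.trans (centralizer_le QT)))))
  · have xV := comm_le_left LV hx
    have xL := comm_le_right ((VQ.trans inf_le_left).trans QL) hx
    exact CfH7.mem_omegaOne ⟨le_pCoreOf (A := L ⊓ Q) inf_le_left (CfH7.le_normalizer_inf le_normalizer LQ)
      ((isPGroup_pCoreOf _).to_le inf_le_right) ⟨xL, (VQ xV).1⟩, centralizer_le s.pCoreOf_le (VQ xV).2⟩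
      ((CfH7.mem_omegaOne_iff (CfH9.comm_inf_Cz Q)).1 xV).2

theorem noL (hE : IsOfEvenCharacteristic G) (T : Sylow 2 G)
    (h21 : ∀ L ∈ calLMax (T : Subgroup G), generalizedFittingSubgroup L = pCore 2 L ∧
      ∃ M, maxTwoLocalsContaining (L ⊔ (T : Subgroup G)) = {M})
    (hf : calLf (T : Subgroup G) = ∅)
    (hZ : ∃ M₁ M₂ : Subgroup G,
      M₁ ∈ maxTwoLocalsContaining (Cz(omegaOne 2 ((T : Subgroup G) ⊓ Cz((T : Subgroup G))))) ∧
      M₂ ∈ maxTwoLocalsContaining (Cz(omegaOne 2 ((T : Subgroup G) ⊓ Cz((T : Subgroup G))))) ∧ M₁ ≠ M₂) :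
    calL (T : Subgroup G) = ∅ := by
  by_contra n
  obtain ⟨L, hL, hm⟩ := exists_max_card (· ∈ calL (T : Subgroup G)) (Set.nonempty_iff_ne_empty.2 n)
  obtain ⟨a, M, b⟩ := h21 L ⟨hL, fun K hK h => (eq_of_le_of_card_ge h (hm K hK)).symm⟩
  obtain ⟨M₁, M₂, h1, h2, ne⟩ := hZ
  have : L ⊔ (T : Subgroup G) ≤ Cz(omegaOne 2 ((T : Subgroup G) ⊓ Cz((T : Subgroup G)))) :=
    sup_le (le_Cz_of_not_Lf hE (sylIn_top T) hL a (hf ▸ Set.notMem_empty L))
      (le_centralizer_iff.1 ((CfH7.omegaOne_le _).trans inf_le_right))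
  have e : ∀ N ∈ maxTwoLocalsContaining (Cz(omegaOne 2 ((T : Subgroup G) ⊓ Cz((T : Subgroup G))))), N = M :=
    fun N hN => Set.mem_singleton_iff.1 (b ▸ ⟨hN.1, this.trans hN.2⟩)
  exact ne ((e _ h1).trans (e _ h2).symm)

theorem sol (T : Sylow 2 G) (h : calL (T : Subgroup G) = ∅) :
    ∀ H ∈ calHOver (T : Subgroup G), Group.IsSolvable H := by
  rintro H ⟨a, TH⟩
  by_contra n
  have n' : PC (⊤ : Subgroup H) ≠ ⊥ := fun e => n (by
    have := PC_eq_bot_iff.1 e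
    exact Group.isSolvable_of_surjective (f := (topEquiv (G := H)).toMonoidHom) topEquiv.surjective)
  obtain ⟨K, hK, hm⟩ := exists_min_card (fun K : Subgroup H => K ≠ ⊥ ∧ ⁅K, K⁆ = K ∧ K.IsSubnormal)
    ⟨_, n', PC_perfect _, subnormal_PC IsSubnormal.top⟩
  have c : K ∈ calC H := ⟨hK.1, hK.2.1, hK.2.2, fun J hJ hJ' => hJ.ne (eq_of_le_of_card_ge hJ.le (hm J hJ'))⟩
  have hT := sylIn_top T
  have KH : K.map H.subtype ⊔ T ≤ H := sup_le (map_subtype_le K) TH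
  refine (h ▸ Set.notMem_empty (K.map H.subtype)) ⟨cc_sub c le_sup_left KH, ⟨(hT.mono le_sup_right le_top).toSylow, rfl⟩,
    fun e => a (pCoreOf_eq_bot_iff.1 (eq_bot_iff.2 ((pCoreOf_le_pCoreOf_of_le KH
      ((sylIn_pCoreOf_le (hT.mono TH le_top)).trans le_sup_right)).trans (pCoreOf_eq_bot_iff.2 e).le)))⟩

end CfH2.Uq
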