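import Cfsg.Agent.OD.Pre
import Cfsg.Agent.H7.FStar
import Cfsg.Agent.H9.Basic2
import Cfsg.Agent.H5.Burnside

/-! Permutation groups containing a 3-cycle. -/

set_option autoImplicit false

namespace CfH2

open Subgroup Equiv Equiv.Perm CfH7 CfH9 Cfsg

variable {α : Type*} [Fintype α] [DecidableEq α]

/-- the alternating group on a subset -/
def altOn (Y : Finset α) : Subgroup (Perm α) where
  carrier := {σ | sign σ = 1 ∧ ∀ x ∉ Y, σ x = x}
  one_mem' := by simp
  mul_mem' := by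
    rintro a b ⟨h1, h2⟩ ⟨h3, h4⟩
    exact ⟨by simp [h1, h3], fun x hx => by simp [h2 x hx, h4 x hx]⟩
  inv_mem' := by
    rintro a ⟨h1, h2⟩
    exact ⟨by simp [h1], fun x hx => by rw [inv_eq_iff_eq, h2 x hx]⟩

variable {Y Z : Finset α} {H : Subgroup (Perm α)} {σ : Perm α}

theorem mem_altOn : σ ∈ altOn Y ↔ sign σ = 1 ∧ ∀ x ∉ Y, σ x = x := Iff.rfl

theorem mem_altOn' : σ ∈ altOn Y ↔ sign σ = 1 ∧ σ.support ⊆ Y :=
  and_congr_right fun _ => forall_congr' fun _ => by rw [mem_support]; tauto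

theorem altOn_mono (h : Y ⊆ Z) : altOn Y ≤ altOn Z := fun _ hx =>
  ⟨hx.1, fun x h' => hx.2 x fun h'' => h' (h h'')⟩

theorem altOn_univ : altOn (Finset.univ : Finset α) = alternatingGroup α := by
  ext; simp [mem_altOn]

theorem altOn_le_alt : altOn Y ≤ alternatingGroup α := fun _ h => h.1

theorem altOn_eq_map (Y : Finset α) : altOn Y = (alternatingGroup Y).map ofSubtype := by
  ext σ
  rw [alternatingGroup.map_ofSubtype, mem_inf, mem_range_ofSubtype_iff, mem_altOn', and_comm]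
  simp

theorem altOn_equiv (Y : Finset α) : Nonempty (altOn Y ≃* alternatingGroup (Fin Y.card)) :=
  ⟨((MulEquiv.subgroupCongr (altOn_eq_map Y)).trans
    (equivMapOfInjective _ _ ofSubtype_injective).symm).trans Y.equivFin.altCongrHom⟩

theorem card_altOn (h : 2 ≤ Y.card) : 2 * Nat.card (altOn Y) = Y.card.factorial := by
  have : Nontrivial (Fin Y.card) := Fin.nontrivial_iff_two_le.2 h
  rw [Nat.card_congr (altOn_equiv Y).some.toEquiv, two_mul_nat_card_alternatingGroup,
    Nat.card_perm, Nat.card_fin]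

theorem simple_altOn (h : 5 ≤ Y.card) : IsSimpleGroup (altOn Y) :=
  have := alternatingGroup.isSimpleGroup (α := Fin Y.card) (by simpa using h)
  have : Nontrivial (altOn Y) := (altOn_equiv Y).some.toEquiv.nontrivial
  (altOn_equiv Y).some.isSimpleGroup

theorem altOn_inf_Cz (h : 4 ≤ Y.card) : altOn Y ⊓ Cz(altOn Y) = ⊥ := by
  rw [← map_center_eq, map_eq_bot_iff_of_injective _ (subtype_injective _), eq_bot_iff]
  intro x hx
  have := map_center_le (f := (altOn_equiv Y).some.toMonoidHom) (altOn_equiv Y).some.surjective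
    (mem_map_of_mem _ hx)
  rw [alternatingGroup.center_eq_bot (by simpa using h), mem_bot] at this
  exact (altOn_equiv Y).some.map_eq_one_iff.1 this

/-- the 3-cycle `a ↦ b ↦ c ↦ a` -/
def cy (a b c : α) : Perm α := swap a b * swap b c

section cy
variable {a b c : α}

theorem cy_three (ab : a ≠ b) (ac : a ≠ c) (bc : b ≠ c) : IsThreeCycle (cy a b c) := by
  rw [cy, swap_comm a b]; exact isThreeCycle_swap_mul_swap_same ab.symm bc ac

omit [Fintype α] in
theorem cy_apply (a b c x : α) : cy a b c x = swap a b (swap b c x) := rfl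

theorem cy_mem (ab : a ≠ b) (bc : b ≠ c) (ha : a ∈ Y) (hb : b ∈ Y) (hc : c ∈ Y) :
    cy a b c ∈ altOn Y :=
  ⟨by simp [cy, ab, bc], fun x hx => by simp only [cy_apply, swap_apply_def]; grind⟩

omit [Fintype α] in
theorem cy_conj (g : Perm α) : g * cy a b c * g⁻¹ = cy (g a) (g b) (g c) := by
  rw [cy, cy, swap_apply_apply, swap_apply_apply]; group

theorem three_eq_cy (h : IsThreeCycle σ) (ha : σ a ≠ a) : σ = cy a (σ a) (σ (σ a)) ∧ a ≠ σ a ∧
    a ≠ σ (σ a) ∧ σ a ≠ σ (σ a) ∧ σ.support = {a, σ a, σ (σ a)} := by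
  have h1 := h.nodup_iff_mem_support.2 (mem_support.2 ha)
  refine ⟨h.eq_swap_mul_swap_iff_mem_support.2 (mem_support.2 ha), ?_, ?_, ?_,
    h.support_eq_iff_mem_support.2 (mem_support.2 ha)⟩ <;> grind

theorem three_conj (h : IsThreeCycle σ) (g : Perm α) : IsThreeCycle (g * σ * g⁻¹) := by
  rw [IsThreeCycle, cycleType_conj]; exact h

theorem three_exists (h : IsThreeCycle σ) : ∃ a, σ a ≠ a := by
  by_contra hn
  push Not at hn
  exact h.ne_one (Equiv.ext hn)

end cy

theorem altOn_eq_closure (Y : Finset α) :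
    altOn Y = closure {σ | IsThreeCycle σ ∧ σ.support ⊆ Y} := by
  refine le_antisymm ?_ ((closure_le _).2 fun σ h => mem_altOn'.2 ⟨h.1.sign, h.2⟩)
  rw [altOn_eq_map, ← closure_three_cycles_eq_alternating, MonoidHom.map_closure]
  refine closure_mono ?_
  rintro _ ⟨σ, hσ, rfl⟩
  exact ⟨by rw [IsThreeCycle, cycleType_ofSubtype]; exact hσ,
    fun x hx => ((mem_support_ofSubtype x σ).1 hx).1⟩

theorem altOn_le_iff : altOn Y ≤ H ↔
    ∀ a ∈ Y, ∀ b ∈ Y, ∀ c ∈ Y, a ≠ b → a ≠ c → b ≠ c → cy a b c ∈ H := by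
  refine ⟨fun h a ha b hb c hc ab _ bc => h (cy_mem ab bc ha hb hc), fun h => ?_⟩
  rw [altOn_eq_closure, closure_le]
  rintro σ ⟨h1, h2⟩
  obtain ⟨a, ha⟩ := three_exists h1
  obtain ⟨e, h3, h4, h5, h6⟩ := three_eq_cy h1 ha
  rw [h6] at h2
  rw [e]
  exact h _ (h2 (by simp)) _ (h2 (by simp)) _ (h2 (by simp)) h3 h4 h5

theorem altOn_insert (hY : altOn Y ≤ H) {x a b : α} (ha : a ∈ Y) (hb : b ∈ Y) (ab : a ≠ b)
    (h : cy x a b ∈ H) : altOn (insert x Y) ≤ H := by
  by_cases hx : x ∈ Y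
  · rwa [Finset.insert_eq_of_mem hx]
  rw [altOn_le_iff] at hY ⊢
  have h1 : ∀ a ∈ Y, ∀ b ∈ Y, a ≠ b → cy x a b ∈ H → ∀ c ∈ Y, a ≠ c → cy x c a ∈ H := by
    intro a ha b hb ab h c hc ac
    have h2 : cy x a c ∈ H := by
      by_cases bc : b = c
      · exact bc ▸ h
      convert mul_mem h (hY a ha c hc b hb ac ab (Ne.symm bc)) using 1
      ext y; simp only [mul_apply, cy_apply, swap_apply_def]; grind
    convert inv_mem h2 using 1
    rw [eq_inv_iff_mul_eq_one]
    ext y; simp only [mul_apply, cy_apply, swap_apply_def, one_apply]; grind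
  have h2 : ∀ u ∈ Y, ∀ v ∈ Y, u ≠ v → cy x u v ∈ H := by
    intro u hu v hv uv
    by_cases hva : a = v
    · exact hva ▸ h1 a ha b hb ab h u hu (hva ▸ uv.symm)
    · exact h1 v hv a ha (Ne.symm hva) (h1 a ha b hb ab h v hv hva) u hu uv.symm
  intro u hu v hv w hw uv uw vw
  rw [Finset.mem_insert] at hu hv hw
  rcases hu with rfl | hu
  · exact h2 v (by tauto) w (by tauto) vw
  rcases hv with rfl | hv
  · convert h2 w (by tauto) u hu uw.symm using 1
    ext y; simp only [cy_apply, swap_apply_def]; grind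
  rcases hw with rfl | hw
  · convert h2 u hu v hv uv using 1
    ext y; simp only [cy_apply, swap_apply_def]; grind
  exact hY u hu v hv w hw uv uw vw

theorem altOn_support_le (h : IsThreeCycle σ) (hσ : σ ∈ H) : altOn σ.support ≤ H := by
  obtain ⟨a, ha⟩ := three_exists h
  obtain ⟨e, h3, h4, h5, h6⟩ := three_eq_cy h ha
  rw [h6]
  refine altOn_insert (altOn_le_iff.2 ?_) (by simp) (by simp) h5 (e ▸ hσ)
  simp only [Finset.mem_insert, Finset.mem_singleton]
  grind

theorem cj_altOn (g : Perm α) (Y : Finset α) : cj g (altOn Y) = altOn (Y.image g) := by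
  ext σ
  rw [mem_cj, mem_altOn, mem_altOn]
  refine and_congr (by simp [mul_right_comm]) ⟨fun h x hx => ?_, fun h x hx => ?_⟩
  · have := h (g⁻¹ x) fun h' => hx (Finset.mem_image.2 ⟨_, h', by simp⟩)
    simpa using this
  · simp [h (g x) (by simpa using hx)]

omit [Fintype α] in
theorem exists_third (h : 3 ≤ Y.card) (a b : α) : ∃ c ∈ Y, c ≠ a ∧ c ≠ b := by
  obtain ⟨c, hc, hc'⟩ := Finset.exists_mem_notMem_of_card_lt_card
    (show ({a, b} : Finset α).card < Y.card from Finset.card_le_two.trans_lt h)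
  exact ⟨c, hc, by simpa using hc'⟩

theorem altOn_le_altOn (h : 3 ≤ Y.card) : altOn Y ≤ altOn Z ↔ Y ⊆ Z := by
  refine ⟨fun h' a ha => ?_, altOn_mono⟩
  obtain ⟨b, hb, ba, -⟩ := exists_third h a a
  obtain ⟨c, hc, ca, cb⟩ := exists_third h a b
  by_contra hn
  have := (h' (cy_mem ba.symm cb.symm ha hb hc)).2 a hn
  simp only [cy_apply, swap_apply_def] at this
  grind

theorem mem_Nm_altOn {g : Perm α} (h : ∀ x ∈ Y, g x ∈ Y) : g ∈ Nm(altOn Y) :=
  mem_normalizer_of_cj_le (cj_altOn g Y ▸ altOn_mono (Finset.image_subset_iff.2 h))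

theorem mem_Cz_altOn {g : Perm α} (h : ∀ x ∈ Y, g x = x) : g ∈ Cz(altOn Y) := fun _ hσ =>
  Perm.Disjoint.commute fun x => (em (x ∈ Y)).elim (fun hx => Or.inr (h x hx)) fun hx =>
    Or.inl (hσ.2 x hx)

/-- `Y` is maximal with `Alt(Y) ≤ H` -/
structure MaxAlt (H : Subgroup (Perm α)) (Y : Finset α) : Prop where
  le : altOn Y ≤ H
  three : 3 ≤ Y.card
  max : ∀ x, altOn (insert x Y) ≤ H → x ∈ Y

theorem exists_maxAlt (h : altOn Z ≤ H) (h3 : 3 ≤ Z.card) : ∃ Y, Z ⊆ Y ∧ MaxAlt H Y := by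
  obtain ⟨Y, ⟨h1, h2⟩, hY⟩ := Set.exists_max_image {Y | Z ⊆ Y ∧ altOn Y ≤ H} Finset.card
    (Set.toFinite _) ⟨Z, subset_rfl, h⟩
  refine ⟨Y, h1, h2, h3.trans (Finset.card_le_card h1), fun x hx => ?_⟩
  by_contra hn
  have := hY _ ⟨h1.trans (Finset.subset_insert x Y), hx⟩
  rw [Finset.card_insert_of_notMem hn] at this
  omega

theorem MaxAlt.support_subset (hY : MaxAlt H Y) (h : IsThreeCycle σ) (hσ : σ ∈ H) {a : α}
    (ha : a ∈ Y) (ha' : σ a ≠ a) : σ.support ⊆ Y := by
  have key : ∀ a ∈ Y, σ a ≠ a → σ a ∈ Y := by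
    intro a ha ha'
    obtain ⟨e, h3, h4, h5, h6⟩ := three_eq_cy h ha'
    by_contra hn
    by_cases h7 : σ (σ a) ∈ Y
    · refine hn (hY.max _ (altOn_insert hY.le h7 ha h4.symm ?_))
      convert hσ using 1
      rw [eq_comm]
      refine e.trans ?_
      ext y; simp only [cy_apply, swap_apply_def]; grind
    · obtain ⟨b, hb, ba, -⟩ := exists_third hY.three a a
      obtain ⟨c, hc, ca, cb⟩ := exists_third hY.three a b
      refine hn (hY.max _ (altOn_insert hY.le hb hc cb.symm ?_))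
      have h8 : ∀ y ∈ Y, y ≠ a → σ y = y := fun y hy ya => notMem_support.1 (by grind)
      have := mul_mem (mul_mem hσ (hY.le (cy_mem ba.symm cb.symm ha hb hc))) (inv_mem hσ)
      rwa [cy_conj, h8 b hb ba, h8 c hc ca] at this
  obtain ⟨-, -, -, h5, h6⟩ := three_eq_cy h ha'
  rw [h6]
  have := key a ha ha'
  have := key _ this h5.symm
  grind

theorem MaxAlt.subset (hY : MaxAlt H Y) (h : altOn Z ≤ H) (h3 : 3 ≤ Z.card) {a : α} (ha : a ∈ Y)
    (ha' : a ∈ Z) : Z ⊆ Y := by
  intro z hz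
  by_cases za : z = a
  · exact za ▸ ha
  obtain ⟨c, hc, ca, cz⟩ := exists_third h3 a z
  refine hY.support_subset (cy_three (Ne.symm za) ca.symm cz.symm)
    (h (cy_mem (Ne.symm za) cz.symm ha' hz hc)) ha ?_ (mem_support.2 ?_) <;>
  · simp only [cy_apply, swap_apply_def]; grind

theorem MaxAlt.apply_mem (hY : MaxAlt H Y) {g : Perm α} (hg : g ∈ H) {a : α} (ha : a ∈ Y)
    (ha' : g a ∈ Y) {x : α} (hx : x ∈ Y) : g x ∈ Y :=
  hY.subset (Z := Y.image g) (cj_altOn g Y ▸ (cj_mono g hY.le).trans (cj_eq_of_mem hg).le)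
    (by rw [Finset.card_image_of_injective _ g.injective]; exact hY.three) ha'
    (Finset.mem_image_of_mem _ ha) (Finset.mem_image_of_mem _ hx)

theorem MaxAlt.mem_Nm (hY : MaxAlt H Y) (h : IsThreeCycle σ) (hσ : σ ∈ H) : σ ∈ Nm(altOn Y) :=
  mem_Nm_altOn fun x hx => (em (σ x = x)).elim (fun h' => h'.symm ▸ hx) fun h' =>
    hY.support_subset h hσ hx h' (apply_mem_support.2 (mem_support.2 h'))

theorem MaxAlt.subnIn (hY : MaxAlt H Y) : SubnIn (altOn Y) H := by
  refine SubnIn.step (B := closure {σ | IsThreeCycle σ ∧ σ ∈ H}) ?_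
    ((closure_le _).2 fun σ h => hY.mem_Nm h.1 h.2)
    (subnIn_of_normal ((closure_le _).2 fun σ h => h.2) fun g hg => mem_normalizer_of_cj_le ?_)
  · rw [altOn_eq_closure]
    exact closure_mono fun σ h => ⟨h.1, hY.le (mem_altOn'.2 ⟨h.1.sign, h.2⟩)⟩
  · rw [cj_closure]
    refine closure_mono ?_
    rintro _ ⟨σ, h, rfl⟩
    exact ⟨three_conj h.1 g, mul_mem (mul_mem hg h.2) (inv_mem hg)⟩

/-- a group containing a 3-cycle whose generalized Fitting subgroup is quasisimple -/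
theorem fstarOf_eq_altOn (hF : IsQuasisimple (generalizedFittingSubgroup H)) (h : IsThreeCycle σ)
    (hσ : σ ∈ H) : ∃ Y, 5 ≤ Y.card ∧ fstarOf H = altOn Y := by
  obtain ⟨Y, hσY, hY⟩ := exists_maxAlt (altOn_support_le h hσ) h.card_support.ge
  have hq : IsQuasisimple (fstarOf H) := qs_map_of_injective hF H.subtype_injective
  have hN : H ≤ Nm(fstarOf H) := le_normalizer.trans (normalizer_le_normalizer_fstarOf H)
  rcases qs_le_or_commutator_eq_bot hq H _ (subnIn_of_normal (fstarOf_le H) hN) hY.subnIn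
    with h1 | h1
  · have h5 : 5 ≤ Y.card := by
      by_contra hn
      refine qs_not_le_of_isSolvable hq ?_ h1
      have h2 := card_altOn (Y := Y) (by have := hY.three; omega)
      have h3 := hY.three
      have h4 : Y.card ≤ 4 := by omega
      interval_cases Y.card
      · exact CfH5.burnside_paqb (a := 0) (b := 1) Nat.prime_two Nat.prime_three
          (by simp [Nat.factorial] at h2; omega)
      · exact CfH5.burnside_paqb (a := 2) (b := 1) Nat.prime_two Nat.prime_three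
          (by simp [Nat.factorial] at h2; omega)
    refine ⟨Y, h5, le_antisymm h1 ?_⟩
    have := simple_altOn h5
    rcases ((normal_subgroupOf_iff_le_normalizer h1).2 (hY.le.trans hN)).eq_bot_or_eq_top
      with h2 | h2
    · exact absurd ((subgroupOf_eq_bot.1 h2).eq_bot_of_le h1) (qs_ne_bot hq)
    · exact subgroupOf_eq_top.1 h2
  · exfalso
    have h2 : σ ∈ Cz(fstarOf H) :=
      commutator_eq_bot_iff_le_centralizer.1 h1 (mem_altOn'.2 ⟨h.sign, hσY⟩)
    have h3 := inf_centralizer_fstarOf_le H (mi hσ h2)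
    obtain ⟨a, ha⟩ := three_exists h
    have h4 : fstarOf H ⊓ MulAction.stabilizer _ a ⊔ zpowers σ = fstarOf H := by
      refine le_antisymm (sup_le inf_le_left (zpowers_le.2 h3)) fun f hf => ?_
      have h5 : σ (f a) ≠ f a := by
        rw [← mul_apply, ← h2 f hf, mul_apply]; exact f.injective.ne ha
      obtain ⟨i, hi⟩ := h.isCycle.exists_zpow_eq h5 ha
      rw [← inv_mul_cancel_left (σ ^ i) f]
      exact mul_mem (mem_sup_right (inv_mem (zpow_mem_zpowers σ i)))
        (mem_sup_left (mi (mul_mem (zpow_mem h3 i) hf) hi))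
    have h5 := commutator_sup_central_le (A := fstarOf H ⊓ MulAction.stabilizer _ a)
      (Z := zpowers σ) (by rw [h4]; exact zpowers_le.2 h2)
    rw [h4, qs_perfect hq] at h5
    exact ha (mi2 ((h5.trans (commutator_le_self _)) h3))

/-- the complement of the support of the generalized Fitting subgroup is small -/
theorem eq_one_of_fstarOf {p : ℕ} [Fact p.Prime] {S A : Subgroup (Perm α)} (hS : SylIn p S A)
    (hSH : S ≤ H) (hF : fstarOf H = altOn Y) (h4 : 4 ≤ Y.card) (hσ : σ ∈ A) (hp : σ ^ p = 1)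
    (hY : ∀ x ∈ Y, σ x = x) : σ = 1 := by
  have hN : S ≤ Nm(Cz(altOn Y)) := hF ▸ hSH.trans ((le_normalizer.trans
    (normalizer_le_normalizer_fstarOf H)).trans (Nm_le_Nm_Cz _))
  have h1 := (hS.mono (le_inf hS.le hN) inf_le_left).inf_normal inf_le_right
  have h2 := mem_Cz_altOn hY
  obtain ⟨g, -, hg⟩ := h1.exists_conj_mem (mi (mi hσ (le_normalizer h2)) h2) (k := 1)
    (by rwa [pow_one])
  have h3 := mi (hF ▸ inf_centralizer_fstarOf_le H (mi (hSH (mi1 hg)) (hF ▸ mi2 hg))) (mi2 hg)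
  rwa [altOn_inf_Cz h4, mem_bot, conj_eq_one_iff] at h3

theorem fstar_equiv (hF : fstarOf H = altOn Y) :
    Nonempty (generalizedFittingSubgroup H ≃* alternatingGroup (Fin Y.card)) :=
  ⟨((equivMapOfInjective _ _ H.subtype_injective).trans (MulEquiv.subgroupCongr hF)).trans
    (altOn_equiv Y).some⟩

end CfH2
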