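import Cfsg.Agent.OD.Pre
import Cfsg.Agent.H2.Alt3

/-! The outer automorphism group of an alternating group has exponent dividing four. -/

set_option autoImplicit false

namespace CfH2

open Subgroup Equiv Equiv.Perm CfH7 CfH9 Cfsg

variable {α : Type*} [Fintype α] [DecidableEq α]

theorem altOn_le_of_Nm {K : Subgroup (Perm α)} {Z : Finset α} (hN : altOn Z ≤ Nm(K)) {c : Perm α}
    (hc : IsThreeCycle c) (hK : c ∈ K) (hZ : c ∈ altOn Z) : altOn Z ≤ K := by
  obtain ⟨Y, hcY, hY⟩ := exists_maxAlt (altOn_support_le hc hK) hc.card_support.ge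
  refine (altOn_mono fun y hy => ?_).trans hY.le
  obtain ⟨a, ha⟩ := three_exists hc
  obtain ⟨e, h3, h4, h5, h6⟩ := three_eq_cy hc ha
  have h7 := (mem_altOn'.1 hZ).2
  rw [h6] at hcY h7
  simp only [Finset.insert_subset_iff, Finset.singleton_subset_iff] at hcY h7
  generalize c (c a) = d at *
  generalize c a = b at *
  by_contra hn
  have h8 : swap a b * swap d y ∈ altOn Z := ⟨by simp [h3, show d ≠ y by grind], fun x hx => by
    simp only [mul_apply, swap_apply_def]; grind⟩
  have h9 := conj_mem_of_mem_normalizer (hN h8) (e ▸ hK)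
  rw [cy_conj, show (swap a b * swap d y) a = b by simp only [mul_apply, swap_apply_def]; grind,
    show (swap a b * swap d y) b = a by simp only [mul_apply, swap_apply_def]; grind,
    show (swap a b * swap d y) d = y by simp only [mul_apply, swap_apply_def]; grind] at h9
  refine hn (hY.support_subset (cy_three h3.symm (by grind) (by grind)) h9 hcY.1 ?_
    (mem_support.2 ?_)) <;>
  · simp only [cy_apply, swap_apply_def]; grind

theorem exists_conj_of_three (hn : 4 ≤ Fintype.card α) (f : alternatingGroup α →* Perm α)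
    (hf : Function.Injective f) (h : ∀ c : alternatingGroup α, IsThreeCycle c.1 → IsThreeCycle (f c)) :
    ∃ π : Perm α, ∀ g, f g = π * g * π⁻¹ := by
  have hc : ∀ i : α, ({i}ᶜ : Finset α).card = Fintype.card α - 1 := fun i => by
    rw [Finset.card_compl, Finset.card_singleton]
  have key : ∀ i : α, ∃ j, ((altOn {i}ᶜ).subgroupOf _).map f = altOn {j}ᶜ := by
    intro i
    obtain ⟨a, ha, b, hb, c, hc', ab, ac, bc⟩ :=
      Finset.two_lt_card.1 (show 2 < ({i}ᶜ : Finset α).card by rw [hc]; omega)
    have h1 := cy_mem ab bc ha hb hc'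
    have h2 := h ⟨_, h1.1⟩ (cy_three ab ac bc)
    obtain ⟨Y, hcY, hY⟩ := exists_maxAlt (H := ((altOn {i}ᶜ).subgroupOf _).map f)
      (altOn_support_le h2 (mem_map_of_mem f (mem_subgroupOf.2 h1))) h2.card_support.ge
    have h3 : altOn {i}ᶜ ≤ ((Nm(altOn Y)).comap f).map (alternatingGroup α).subtype := by
      conv_lhs => rw [altOn_eq_closure]
      refine (closure_le _).2 fun σ hσ => ⟨⟨σ, hσ.1.mem_alternatingGroup⟩, ?_, rfl⟩
      exact hY.mem_Nm (h _ hσ.1) (mem_map_of_mem f (mem_altOn'.2 ⟨hσ.1.sign, hσ.2⟩))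
    have h4 := altOn_le_of_Nm (K := ((altOn Y).comap f).map (alternatingGroup α).subtype)
      (h3.trans ((map_mono (le_normalizer_comap f)).trans (le_normalizer_map _)))
      (cy_three ab ac bc) ⟨⟨_, h1.1⟩, mem_altOn'.2 ⟨h2.sign, hcY⟩, rfl⟩ h1
    have h5 : ((altOn {i}ᶜ).subgroupOf _).map f = altOn Y := le_antisymm (by
      rintro _ ⟨σ, hσ, rfl⟩
      obtain ⟨σ', h5, h6⟩ := h4 hσ
      exact Subtype.ext h6 ▸ h5) hY.le
    have h6 := card_altOn (Y := Y) (by have := hY.three; omega)
    rw [← h5, card_map_of_injective hf, card_subgroupOf altOn_le_alt, card_altOn (by rw [hc]; omega),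
      hc, Nat.factorial_inj (by omega)] at h6
    obtain ⟨j, hj⟩ := Finset.card_eq_one.1 (show Yᶜ.card = 1 by rw [Finset.card_compl]; omega)
    exact ⟨j, by rw [h5, ← hj, compl_compl]⟩
  choose π hπ using key
  have hinj : ∀ i j : α, altOn {i}ᶜ = altOn {j}ᶜ → i = j := fun i j e => by
    have := (altOn_le_altOn (by rw [hc]; omega)).1 e.ge
    simpa using this
  have himg : ∀ (g : Perm α) i, cj g (altOn {i}ᶜ) = altOn {g i}ᶜ := fun g i => by
    rw [cj_altOn]
    congr 1
    ext x
    obtain ⟨y, rfl⟩ := g.surjective x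
    simp
  have h1 : Function.Injective π := fun i j e => hinj _ _ (by
    have := (hπ i).trans (e ▸ (hπ j).symm)
    rw [map_injective hf |>.eq_iff] at this
    rw [← map_subgroupOf_eq_of_le (altOn_le_alt (Y := {i}ᶜ)), this,
      map_subgroupOf_eq_of_le altOn_le_alt])
  refine ⟨Equiv.ofBijective π (Finite.injective_iff_bijective.1 h1), fun g => ?_⟩
  rw [eq_mul_inv_iff_mul_eq]
  ext i
  refine hinj _ _ ?_
  change altOn {f g (π i)}ᶜ = altOn {π (g.1 i)}ᶜ
  rw [← himg, ← hπ, ← hπ, ← himg, cj_subgroupOf, map_cj]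

theorem fact_ineq (k r : ℕ) (hk : 2 ≤ k) (h : 7 ≤ 3 * k + r) :
    2 * (r.factorial * 3 ^ k * k.factorial) < (3 * k + r - 3).factorial * 3 := by
  rcases hk.eq_or_lt with rfl | hk
  · rw [show 3 * 2 + r - 3 = r + 3 by omega]
    have h1 : 4 * (3 * 2) ≤ (r + 2 + 1) * ((r + 1 + 1) * (r + 1)) :=
      Nat.mul_le_mul (by omega) (Nat.mul_le_mul (by omega) (by omega))
    have := r.factorial_pos
    simp only [Nat.factorial_succ, Nat.factorial_zero]
    nlinarith
  · have h1 : ∀ j, 2 * (3 ^ (j + 3) * (j + 3).factorial) < (3 * j + 6).factorial * 3 := by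
      intro j
      induction j with
      | zero => decide
      | succ j ih =>
        rw [show 3 * (j + 1) + 6 = 3 * j + 6 + 1 + 1 + 1 by ring, show j + 1 + 3 = j + 3 + 1 by ring,
          Nat.factorial_succ (j + 3), Nat.factorial_succ (3 * j + 6 + 1 + 1),
          Nat.factorial_succ (3 * j + 6 + 1), pow_succ]
        have h2 : (3 * j + 6).factorial ≤ (3 * j + 6 + 1).factorial := Nat.factorial_le (by omega)
        have h3 := Nat.mul_le_mul (show 3 * (j + 3 + 1) ≤ (3 * j + 6 + 1 + 1 + 1) *
          (3 * j + 6 + 1 + 1) by nlinarith) (Nat.mul_le_mul_right 3 h2)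
        have h4 := Nat.mul_lt_mul_of_pos_left ih (show 0 < 3 * (j + 3 + 1) by omega)
        linarith
    obtain ⟨j, rfl⟩ := Nat.exists_eq_add_of_le' (show 3 ≤ k from hk)
    have h2 := Nat.le_of_dvd (Nat.factorial_pos _)
      (Nat.factorial_mul_factorial_dvd_factorial_add r (3 * j + 6))
    rw [show 3 * (j + 3) + r - 3 = r + (3 * j + 6) by omega]
    have := r.factorial_pos
    have := h1 j
    nlinarith

theorem aut_sq_three (hn : 5 ≤ Fintype.card α) (φ : MulAut (alternatingGroup α))
    (c : alternatingGroup α) (hc : IsThreeCycle c.1) : IsThreeCycle (φ (φ c)).1 := by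
  have h1 : ∀ x : alternatingGroup α, orderOf x = 3 → ∃ k, 3 * (k + 1) ≤ Fintype.card α ∧
      x.1.cycleType = Multiset.replicate (k + 1) 3 := fun x hx => by
    rw [← orderOf_coe] at hx
    obtain ⟨k, hk⟩ := cycleType_prime_order (σ := x.1) (hx ▸ Nat.prime_three)
    rw [hx] at hk
    refine ⟨k, ?_, hk⟩
    have := x.1.sum_cycleType_le
    rw [hk, Multiset.sum_replicate] at this
    simpa [mul_comm] using this
  have h3 : ∀ x : alternatingGroup α, IsThreeCycle x.1 → orderOf x = 3 := fun x hx => by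
    rw [← orderOf_coe, hx.orderOf]
  by_cases h6 : Fintype.card α = 6
  · by_contra hn2
    have h2 : ∀ x : alternatingGroup α, orderOf x = 3 → ¬ IsThreeCycle x.1 →
        x.1.cycleType = {3, 3} := fun x hx hx' => by
      obtain ⟨k, h4, h5⟩ := h1 x hx
      have : k ≤ 1 := by omega
      interval_cases k
      · exact absurd h5 hx'
      · exact h5
    have h4 : ∀ c c' : alternatingGroup α, IsThreeCycle c.1 → IsThreeCycle c'.1 →
        IsThreeCycle (φ c).1 → IsThreeCycle (φ c').1 := fun c c' hc hc' h => by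
      obtain ⟨g, rfl⟩ := isConj_iff.1 (alternatingGroup.isThreeCycle_isConj (by simpa using hn) hc hc')
      rw [map_mul, map_mul, map_inv]
      exact three_conj h _
    have h5 : ¬ IsThreeCycle (φ c).1 := fun h => hn2 (h4 _ _ hc h h)
    have h7 : ∀ m : Multiset ℕ, m = {3} ∨ m = {3, 3} →
        (Finset.univ.filter fun g : Perm α => g.cycleType = m).card = 40 := fun m hm => by
      rw [card_of_cycleType, h6]
      rcases hm with rfl | rfl <;> decide
    obtain ⟨x, hx, e⟩ := Finset.surj_on_of_inj_on_of_card_le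
      (s := Finset.univ.filter fun g : Perm α => g.cycleType = {3})
      (t := Finset.univ.filter fun g : Perm α => g.cycleType = {3, 3})
      (fun g hg => (φ ⟨g, IsThreeCycle.mem_alternatingGroup (Finset.mem_filter.1 hg).2⟩).1)
      (fun g hg => Finset.mem_filter.2 ⟨Finset.mem_univ _, h2 _ (by
        rw [MulEquiv.orderOf_eq]; exact h3 _ (Finset.mem_filter.1 hg).2)
          fun h => h5 (h4 _ _ (by exact (Finset.mem_filter.1 hg).2) hc h)⟩)
      (fun a b _ _ e => congrArg Subtype.val (φ.injective (Subtype.ext e)))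
      (by rw [h7 _ (Or.inl rfl), h7 _ (Or.inr rfl)]) (φ (φ c)).1
      (Finset.mem_filter.2 ⟨Finset.mem_univ _, h2 _ (by
        rw [MulEquiv.orderOf_eq, MulEquiv.orderOf_eq, h3 c hc]) hn2⟩)
    exact h5 (φ.injective (Subtype.ext e) ▸ (Finset.mem_filter.1 hx).2)
  · suffices h : ∀ c : alternatingGroup α, IsThreeCycle c.1 → IsThreeCycle (φ c).1 from h _ (h c hc)
    intro c hc
    obtain ⟨k, h4, h5⟩ := h1 (φ c) (by rw [MulEquiv.orderOf_eq, h3 c hc])
    by_contra hk
    have hk0 : k ≠ 0 := by rintro rfl; exact hk h5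
    have h7 : ∀ x : alternatingGroup α, Cx(x) = (Cx(x.1)).subgroupOf _ := fun x => by
      ext y; simp [mem_subgroupOf, mem_Cx, Subtype.ext_iff]
    have h8 : Nat.card Cx(φ c) = Nat.card Cx(c) := by
      rw [← card_map_of_injective (f := φ.toMonoidHom) (K := Cx(c)) φ.injective]
      congr 2
      ext y
      obtain ⟨y, rfl⟩ := φ.surjective y
      rw [mem_Cx, ← map_mul, ← map_mul, φ.injective.eq_iff, ← mem_Cx]
      exact (mem_map_iff_mem (f := φ.toMonoidHom) φ.injective).symm
    have h9 : Nat.card Cx(φ c) ≤ Nat.card Cx((φ c).1) := by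
      rw [h7, ← CfH9.card_map_subtype, subgroupOf_map_subtype]; exact card_le_of_le inf_le_left
    have h10 : Nat.card Cx(c.1) ≤ 2 * Nat.card Cx(c) := by
      have : Nontrivial α := Fintype.one_lt_card_iff_nontrivial.1 (by omega)
      have h11 := card_mul_card_le (le_top (a := Cx(c.1))) (le_top (a := alternatingGroup α))
      rw [card_top, ← two_mul_nat_card_alternatingGroup] at h11
      rw [h7, ← CfH9.card_map_subtype, subgroupOf_map_subtype]
      exact Nat.le_of_mul_le_mul_right (by linarith) (Nat.card_pos (α := alternatingGroup α))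
    rw [nat_card_centralizer, h5] at h9
    rw [nat_card_centralizer, hc.cycleType] at h10
    obtain ⟨r, hr⟩ := Nat.exists_eq_add_of_le h4
    have h11 := fact_ineq (k + 1) r (by omega) (by omega)
    rw [Multiset.toFinset_replicate, if_neg k.succ_ne_zero, Finset.prod_singleton,
      Multiset.count_replicate_self, Multiset.sum_replicate, Multiset.prod_replicate, smul_eq_mul,
      show Fintype.card α - (k + 1) * 3 = r by omega] at h9
    simp at h10
    rw [← hr] at h11
    omega

theorem aut_pow_four (hn : 5 ≤ Fintype.card α) (φ : MulAut (alternatingGroup α)) :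
    ∃ g, φ ^ 4 = MulAut.conj g := by
  obtain ⟨π, hπ⟩ := exists_conj_of_three (by omega)
    ((alternatingGroup α).subtype.comp (φ ^ 2).toMonoidHom)
    ((subtype_injective _).comp (φ ^ 2).injective) fun c hc => by
      rw [sq]; exact aut_sq_three hn φ c hc
  refine ⟨⟨π * π, by simp⟩, MulEquiv.ext fun x => Subtype.ext ?_⟩
  have := hπ ((φ ^ 2) x)
  rw [show ((φ ^ 2) x).1 = _ from hπ x] at this
  refine Eq.trans this ?_
  simp [mul_assoc]

end CfH2
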