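import Cfsg.Agent.OD.Pre
import Cfsg.Agent.H3.SmallGroups

/-! `GL₄(2)` embeds in `A₈`, through its action on a set of eight alternating forms. -/

set_option autoImplicit false

namespace CfH2

open Matrix

/-- `4 × 4` matrices over the field with two elements -/
abbrev M42 := Matrix (Fin 4) (Fin 4) (ZMod 2)

/-- eight alternating matrices with invertible differences -/
def kB : Fin 8 → M42 :=
  ![0, !![0,0,0,1;0,0,1,0;0,1,0,0;1,0,0,0], !![0,0,1,0;0,0,1,1;1,1,0,0;0,1,0,0],
    !![0,0,1,1;0,0,0,1;1,0,0,1;1,1,1,0], !![0,1,0,0;1,0,1,1;0,1,0,1;0,1,1,0],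
    !![0,1,0,1;1,0,0,0;0,0,0,1;1,0,1,0], !![0,1,1,0;1,0,1,0;1,1,0,1;0,0,1,0],
    !![0,1,1,1;1,0,0,1;1,0,0,0;1,1,0,0]]

/-- `g` induces the permutation `π` -/
def kR (g : M42) (π : Equiv.Perm (Fin 8)) : Prop :=
  ∀ i j, g * (kB i + kB j) * gᵀ = kB (π i) + kB (π j)

instance (g : M42) (π : Equiv.Perm (Fin 8)) : Decidable (kR g π) := by unfold kR; infer_instance

theorem kR_one : kR 1 1 := fun i j => by simp

theorem kR.mul {g h : M42} {π σ : Equiv.Perm (Fin 8)} (h1 : kR g π) (h2 : kR h σ) :
    kR (g * h) (π * σ) := fun i j => by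
  rw [transpose_mul, Equiv.Perm.mul_apply, Equiv.Perm.mul_apply, ← h1, ← h2]
  simp only [Matrix.mul_assoc]

theorem kB_pair : ∀ a b c d : Fin 8, a ≠ b → kB a + kB b = kB c + kB d → a = c ∨ a = d := by
  decide +kernel

theorem kR.unique {g : M42} {π σ : Equiv.Perm (Fin 8)} (h1 : kR g π) (h2 : kR g σ) : π = σ := by
  ext1 i
  obtain ⟨j, k, hij, hik, hjk⟩ : ∃ j k : Fin 8, i ≠ j ∧ i ≠ k ∧ j ≠ k := by
    revert i; decide +kernel
  rcases kB_pair _ _ _ _ (π.injective.ne hij) ((h1 i j).symm.trans (h2 i j)) with h | h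
  · exact h
  rcases kB_pair _ _ _ _ (π.injective.ne hik) ((h1 i k).symm.trans (h2 i k)) with h' | h'
  · exact h'
  exact absurd (σ.injective (h.symm.trans h')) hjk

/-- the permutations induced by the elementary transvections -/
def kT : Fin 4 → Fin 4 → Fin 8 → Fin 8 :=
  ![![id, ![5,6,4,7,2,0,1,3], ![7,2,1,5,6,3,4,0], ![1,0,7,4,3,6,5,2]],
    ![![4,5,6,7,0,1,2,3], id, ![1,0,7,6,5,4,3,2], ![2,7,0,5,6,3,4,1]],
    ![![2,3,0,1,6,7,4,5], ![1,0,3,2,7,6,5,4], id, ![6,5,4,7,2,1,0,3]],
    ![![1,0,3,2,5,4,7,6], ![3,2,1,0,6,7,4,5], ![5,4,6,7,1,0,2,3], id]]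

theorem kT_invol : ∀ i j, Function.Involutive (kT i j) := by
  unfold Function.Involutive; decide +kernel

theorem kT_spec : ∀ i j, i ≠ j → Equiv.Perm.sign (kT_invol i j).toPerm = 1 ∧
    kR (transvection i j 1) (kT_invol i j).toPerm := by
  decide +kernel

theorem exists_kR {g : M42} (hg : g.det ≠ 0) :
    ∃ π : Equiv.Perm (Fin 8), Equiv.Perm.sign π = 1 ∧ kR g π := by
  refine diagonal_transvection_induction_of_det_ne_zero
    (fun g => ∃ π : Equiv.Perm (Fin 8), Equiv.Perm.sign π = 1 ∧ kR g π) g hg ?_ ?_ ?_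
  · intro D hD
    rw [det_diagonal, Finset.prod_ne_zero_iff] at hD
    have : D = 1 := by
      funext i
      have := hD i (Finset.mem_univ i)
      change D i = 1
      revert this; generalize D i = c; revert c; decide
    refine ⟨1, by simp, ?_⟩
    rw [this]
    exact (show diagonal (1 : Fin 4 → ZMod 2) = 1 from diagonal_one) ▸ kR_one
  · rintro ⟨i, j, hij, c⟩
    have hc : c = 0 ∨ c = 1 := by revert c; decide
    rcases hc with rfl | rfl
    · exact ⟨1, by simp, by simpa [TransvectionStruct.toMatrix] using kR_one⟩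
    · exact ⟨_, kT_spec i j hij⟩
  · rintro A B - - ⟨π, h1, h2⟩ ⟨σ, h3, h4⟩
    exact ⟨π * σ, by simp [h1, h3], h2.mul h4⟩

/-- the elementary alternating matrices as sums of four of the `kB` -/
def kJ : Fin 4 → Fin 4 → Fin 4 → Fin 8 :=
  ![![0, ![0,1,2,7], ![0,1,5,6], ![0,3,5,7]], ![![0,1,2,7], 0, ![0,2,4,6], ![0,1,4,5]],
    ![![0,1,5,6], ![0,2,4,6], 0, ![0,1,2,3]], ![![0,3,5,7], ![0,1,4,5], ![0,1,2,3], 0]]

theorem kJ_spec : ∀ i j, i ≠ j → kB (kJ i j 0) + kB (kJ i j 1) + (kB (kJ i j 2) + kB (kJ i j 3)) =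
    single i j 1 + single j i 1 := by
  decide +kernel

theorem kR.eq_one {g : M42} (h : kR g 1) : g = 1 := by
  have key : ∀ i j, i ≠ j → ∀ k l, g k i * g l j + g k j * g l i =
      (single i j 1 + single j i 1 : M42) k l := by
    intro i j hij k l
    have h1 : g * (single i j 1 + single j i 1) * gᵀ = single i j 1 + single j i 1 := by
      rw [← kJ_spec i j hij, Matrix.mul_add, Matrix.add_mul, h, h]; rfl
    rw [← h1, Matrix.mul_add, Matrix.add_mul, Matrix.add_apply]
    simp [Matrix.mul_apply, single, ite_and]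
  have off : ∀ i m, i ≠ m → g m i = 0 := by
    intro i m him
    obtain ⟨j, hij, hmj⟩ : ∃ j : Fin 4, i ≠ j ∧ m ≠ j := by revert i m; decide
    have h1 := key i j hij i j
    have h2 := key i j hij j m
    have h3 := key i j hij m i
    simp [single, hij, hij.symm, him, hmj.symm] at h1 h2 h3
    have h4 : (2 : ZMod 2) = 0 := rfl
    linear_combination (-g m i) * h1 - g i i * h2 - g j i * h3 +
      (g m i * g i i * g j j + g m i * g i j * g j i + g i i * g j i * g m j) * h4
  ext i j
  by_cases hij : i = j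
  · subst hij
    obtain ⟨j, hij⟩ := exists_ne i
    have h1 := key i j hij.symm i j
    simp [single, hij, hij.symm, off i j hij.symm] at h1
    rw [one_apply_eq]
    revert h1; generalize g i i = a; generalize g j j = b; revert a b; decide
  · rw [off j i (Ne.symm hij), one_apply_ne hij]

theorem exists_hom_alt8 {G : Type*} [Group G] (φ : G →* M42) (hφ : Function.Injective φ) :
    ∃ f : G →* alternatingGroup (Fin 8), Function.Injective f := by
  have hdet : ∀ g, (φ g).det ≠ 0 := fun g =>
    ((Matrix.isUnit_iff_isUnit_det _).1 ((Group.isUnit g).map φ)).ne_zero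
  choose π hπ using fun g => exists_kR (hdet g)
  let f : G →* Equiv.Perm (Fin 8) := MonoidHom.mk' π fun a b =>
    (hπ _).2.unique (map_mul φ a b ▸ (hπ a).2.mul (hπ b).2)
  refine ⟨f.codRestrict _ fun g => Equiv.Perm.mem_alternatingGroup.2 (hπ g).1, ?_⟩
  refine (injective_iff_map_eq_one _).2 fun g hg => hφ ?_
  have h1 : π g = 1 := congrArg Subtype.val hg
  rw [map_one]
  exact (h1 ▸ (hπ g).2 : kR (φ g) 1).eq_one

/-- A core-free subgroup of index `n + 1` acts faithfully on `n` points. -/
theorem exists_inj_perm_stab {A : Type*} [Group A] [Finite A] (D : Subgroup A)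
    (hD : D.normalCore = ⊥) {n : ℕ} (hn : D.index = n + 1) :
    ∃ f : D →* Equiv.Perm (Fin n), Function.Injective f := by
  classical
  have hfix : ∀ d : D, (d : A) • ((1 : A) : A ⧸ D) = ((1 : A) : A ⧸ D) := fun d => by
    rw [MulAction.Quotient.smul_mk, QuotientGroup.eq]; simp
  let f : D →* Equiv.Perm {x : A ⧸ D // x ≠ ((1 : A) : A ⧸ D)} := MonoidHom.mk'
    (fun d => (MulAction.toPerm (d : A)).subtypePerm fun x => by
      rw [MulAction.toPerm_apply]
      conv_lhs => rw [← hfix d]
      exact (MulAction.injective (d : A)).ne_iff)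
    fun a b => by ext x; exact mul_smul (a : A) (b : A) x.1
  have hc : Nat.card {x : A ⧸ D // x ≠ ((1 : A) : A ⧸ D)} = n := by
    have := Fintype.ofFinite (A ⧸ D)
    rw [Nat.card_eq_fintype_card, Fintype.card_subtype_compl, Fintype.card_subtype_eq,
      ← Nat.card_eq_fintype_card, ← Subgroup.index_eq_card, hn, Nat.add_sub_cancel]
  have e := Finite.equivFinOfCardEq hc
  refine ⟨e.permCongrHom.toMonoidHom.comp f, e.permCongrHom.injective.comp ?_⟩
  refine (injective_iff_map_eq_one _).2 fun d hd => Subtype.ext ?_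
  have : (d : A) ∈ D.normalCore := by
    rw [Subgroup.normalCore_eq_ker, MonoidHom.mem_ker]
    ext1 x
    by_cases hx : x = ((1 : A) : A ⧸ D)
    · rw [hx]; exact hfix d
    · exact congrArg Subtype.val (DFunLike.congr_fun hd ⟨x, hx⟩)
  rwa [hD, Subgroup.mem_bot] at this

/-- A subgroup of order `2520` of `A₈` is isomorphic to `A₇`. -/
theorem equiv_alt7_of_inj_alt8 {G : Type*} [Group G] (f : G →* alternatingGroup (Fin 8))
    (hf : Function.Injective f) (hc : Nat.card G = 2520) :
    Nonempty (G ≃* alternatingGroup (Fin 7)) := by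
  have h1 : Nat.card f.range = 2520 :=
    (Nat.card_congr (MonoidHom.ofInjective hf).toEquiv).symm.trans hc
  have hA : Nat.card (alternatingGroup (Fin 8)) = 20160 := by
    have := two_mul_nat_card_alternatingGroup (α := Fin 8)
    rw [Nat.card_perm, Nat.card_fin, show Nat.factorial 8 = 40320 from rfl] at this
    omega
  have h2 : f.range.index = 7 + 1 := by
    have := f.range.card_mul_index
    rw [h1, hA] at this
    omega
  have := alternatingGroup.isSimpleGroup (α := Fin 8) (by simp)
  have h3 : f.range.normalCore = ⊥ := by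
    refine (f.range.normalCore_normal.eq_bot_or_eq_top).resolve_right fun h => ?_
    have h4 := f.range.normalCore_le
    rw [h, top_le_iff] at h4
    rw [h4, Subgroup.index_top] at h2
    omega
  obtain ⟨φ, hφ⟩ := exists_inj_perm_stab f.range h3 h2
  obtain ⟨e⟩ := CfH3.equiv_alt_of_inj φ hφ (by rw [h1]; rfl)
  exact ⟨(MonoidHom.ofInjective hf).trans e⟩

/-- `S₇` has no subgroup of order `840`. -/
theorem not_inj_perm7 {G : Type*} [Group G] (f : G →* Equiv.Perm (Fin 7))
    (hf : Function.Injective f) : Nat.card G ≠ 840 := by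
  intro hc
  have h1 : Nat.card f.range = 840 :=
    (Nat.card_congr (MonoidHom.ofInjective hf).toEquiv).symm.trans hc
  have hS : Nat.card (Equiv.Perm (Fin 7)) = 5040 := by rw [Nat.card_perm, Nat.card_fin]; rfl
  have h2 : f.range.index = 6 := by
    have := f.range.card_mul_index
    rw [h1, hS] at this
    omega
  by_cases h3 : f.range.normalCore = ⊥
  · obtain ⟨φ, hφ⟩ := CfH3.exists_inj_perm f.range h3 h2
    have := Nat.card_le_card_of_injective φ hφ
    rw [hS, Nat.card_perm, Nat.card_fin] at this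
    norm_num [Nat.factorial] at this
  · have : Nontrivial f.range.normalCore := (Subgroup.nontrivial_iff_ne_bot _).2 h3
    have h4 := (Equiv.Perm.alternatingGroup_le_of_normal (α := Fin 7) (by simp)
      (N := f.range.normalCore) this).trans f.range.normalCore_le
    have h5 := Nat.le_of_dvd Nat.card_pos (Subgroup.card_dvd_of_le h4)
    have := two_mul_nat_card_alternatingGroup (α := Fin 7)
    omega

end CfH2
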