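import Cfsg.Agent.OD.Pre
import Cfsg.Agent.H3.SL2Basic

/-! Higman: representations of `SL₂(2ⁿ)` in which elements of order three are fixed-point-free. -/

set_option autoImplicit false
set_option linter.unusedVariables false
set_option linter.unusedSimpArgs false

namespace CfH2.Hig

open Matrix
open scoped MatrixGroups

section ring
variable {R : Type*} [Ring R] {E F : R}

/-- matrix units in characteristic two -/
structure EF (E F : R) : Prop where
  h2 : (2 : R) = 0
  hE : E * E = 0
  hF : F * F = 0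
  hEF : E * F + F * E = 1

theorem rE (h : EF E F) {X : R} (hX : X * E = E * X) :
    (X * F + F * X) * E = E * (X * F + F * X) := by
  obtain ⟨h2, hE, hF, hEF⟩ := h
  linear_combination (norm := noncomm_ring) hEF * X + X * hEF + hX * F + F * hX + h2 * (-E * F *
      X + X - X * E * F)

theorem rF (h : EF E F) {X : R}  :
    (X * F + F * X) * F = F * (X * F + F * X) := by
  obtain ⟨h2, hE, hF, hEF⟩ := h
  linear_combination (norm := noncomm_ring) hF * X + X * hF + h2 * (-F * F * X)

theorem pE (h : EF E F) {X r : R} (hX : X * E = E * X) (rE : r * E = E * r) (rF : r * F = F * r) :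
    (X + r * E) * E = E * (X + r * E) := by
  obtain ⟨h2, hE, hF, hEF⟩ := h
  linear_combination (norm := noncomm_ring) hX + rE * E

theorem pF (h : EF E F) {X r : R} (hr : r = X * F + F * X) (rE : r * E = E * r) (rF : r * F =
    F * r) :
    (X + r * E) * F = F * (X + r * E) := by
  obtain ⟨h2, hE, hF, hEF⟩ := h
  linear_combination (norm := noncomm_ring) r * hEF + hr + rF * E + h2 * (X * F - r * F * E)

theorem dec (h : EF E F) {X r : R}  :
    X = X + r * E + r * E := by
  obtain ⟨h2, hE, hF, hEF⟩ := h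
  linear_combination (norm := noncomm_ring) h2 * (-r * E)

theorem coef (h : EF E F) {a b X : R} (aE : a * E = E * a) (aF : a * F = F * a) (bE : b * E =
    E * b) (bF : b * F = F * b) (hX : X = a + b * E) :
    X * F + F * X = b := by
  obtain ⟨h2, hE, hF, hEF⟩ := h
  linear_combination (norm := noncomm_ring) b * hEF + aF + bF * E + hX * F + F * hX + h2 * (-b *
      F * E + F * a + F * b * E)

theorem coefF (h : EF E F) {a b : R} (aE : a * E = E * a) (bE : b * E = E * b) (e : a * F = b * F) :
    a = b := by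
  obtain ⟨h2, hE, hF, hEF⟩ := h
  linear_combination (norm := noncomm_ring) a * hEF + b * hEF + aE * F + bE * F + e * E + E * e
      + h2 * (a - a * E * F - a * F * E - b * E * F + E * b * F)

theorem coefE (h : EF E F) {a b : R} (aF : a * F = F * a) (bF : b * F = F * b) (e : a * E = b * E) :
    a = b := by
  obtain ⟨h2, hE, hF, hEF⟩ := h
  linear_combination (norm := noncomm_ring) a * hEF + b * hEF + aF * E + bF * E + e * F + F * e
      + h2 * (a - a * E * F - a * F * E - b * F * E + F * b * E)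

theorem sq1 (h : EF E F) {p r : R} (pE : p * E = E * p) (pF : p * F = F * p) (rE : r * E = E *
    r) (rF : r * F = F * r) (e : (p + r * E) * (p + r * E) = 0) :
    p * r = r * p := by
  obtain ⟨h2, hE, hF, hEF⟩ := h
  linear_combination (norm := noncomm_ring) r * r * hE * F + F * r * r * hE + p * r * hEF + r *
      p * hEF + r * pE * F + r * F * pE + pF * p + p * pF + pF * r * E + r * pF * E + r * rE * E * F
      + F * r * rE * E + rF * E * p + p * rF * E + e * F + F * e + h2 * (p * r - r * r * E * E * F -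
      F * r * r * E * E - p * r * E * F - p * r * F * E - r * p * E * F - r * p * F * E - p * p * F)

theorem sq2 (h : EF E F) {p r : R} (pE : p * E = E * p) (pF : p * F = F * p) (rE : r * E = E *
    r) (rF : r * F = F * r) (e : (p + r * E) * (p + r * E) = 0) (e1 : p * r = r * p) :
    p * p = 0 := by
  obtain ⟨h2, hE, hF, hEF⟩ := h
  linear_combination (norm := noncomm_ring) r * r * hE + r * pE + r * rE * E + e + e1 * E + h2 *
      (-r * r * E * E - p * r * E)

theorem cm1 (h : EF E F) {p r P S : R} (pE : p * E = E * p) (pF : p * F = F * p) (rE : r * E =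
    E * r) (rF : r * F = F * r) (PE : P * E = E * P) (PF : P * F = F * P) (SE : S * E = E * S) (SF
    : S * F = F * S) (e : (p + r * E) * (P + S * E) = (P + S * E) * (p + r * E)) :
    p * P * E = P * p * E := by
  obtain ⟨h2, hE, hF, hEF⟩ := h
  linear_combination (norm := noncomm_ring) p * S * hE + r * P * hE + P * r * hE + S * p * hE +
      r * E * S * hE + S * E * r * hE + S * pE * E + r * PE * E + e * E + h2 * (-p * S * E * E - r *
      P * E * E - S * p * E * E - r * E * S * E * E + S * E * p * E)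

theorem cm2 (h : EF E F) {p r P S : R} (pE : p * E = E * p) (pF : p * F = F * p) (rE : r * E =
    E * r) (rF : r * F = F * r) (PE : P * E = E * P) (PF : P * F = F * P) (SE : S * E = E * S) (SF
    : S * F = F * S) (e : (p + r * E) * (P + S * F) + (P + S * F) * (p + r * E) = 1) :
    r * P * F = P * r * F := by
  obtain ⟨h2, hE, hF, hEF⟩ := h
  linear_combination (norm := noncomm_ring) hF + P * hF * p + S * hF * r + p * P * hF + P * E *
      hF * r + F * p * S * hF + F * S * p * hF + r * P * E * hF + F * r * E * S * hF + F * S * r * E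
      * hF + P * hEF * F * r + F * P * hEF * r + r * P * hEF * F + F * P * r * hEF + F * S * r * hEF
      * F + pF * P * F + F * P * pF + F * S * pF * F + F * P * F * rE + P * rF + F * S * rF + rF * P
      * E * F + F * P * rF * E + F * S * rF * E * F + F * r * PE * F + PF * F * p + p * PF * F + PF
      * E * F * r + r * PF * E * F + SF * F * r + F * e * F + h2 * (r * P * F - P * r * F - P * F *
      F * p - S * F * F * r - p * P * F * F - P * E * F * F * r - F * p * S * F * F - F * S * p * F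
      * F - r * P * E * F * F - F * r * E * S * F * F - F * S * r * E * F * F - P * F * E * F * r +
      P * F * r + F * P * r - r * P * F * E * F - F * P * r * E * F - F * P * r * F * E - F * S * r
      * F * E * F - F * P * p * F + F * P * F * p + F * S * F * r)

theorem cj (h : EF E F) {p r : R} (pE : p * E = E * p) (pF : p * F = F * p) (rE : r * E = E *
    r) (rF : r * F = F * r) :
    (E + F) * (p + r * E) * (E + F) = p + r * F := by
  obtain ⟨h2, hE, hF, hEF⟩ := h
  linear_combination (norm := noncomm_ring) p * hE + r * hE * F + E * r * hE + F * r * hE + p *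
      hF + r * E * hF + p * hEF + r * hEF * F + pE * E + pE * F + pF * E + pF * F + rE * E * F + rF
      * E * F + h2 * (E * p * E + E * p * F + E * r * E * F + F * p * E + F * p * F + F * r * E * F
      - p * E * E - r * E * E * F - p * F * F - r * E * F * F - p * E * F - p * F * E - r * F * E *
      F)

theorem nfn (h : EF E F) {q r S : R} (qE : q * E = E * q) (qF : q * F = F * q) (rE : r * E = E
    * r) (rF : r * F = F * r) (SE : S * E = E * S) (SF : S * F = F * S) (q2 : q * q = 0) (qr : q *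
    r = r * q) :
    (q + r * E + S * F) * F * (q + r * E + S * F) = q * r + r * r * E := by
  obtain ⟨h2, hE, hF, hEF⟩ := h
  linear_combination (norm := noncomm_ring) r * F * r * hE + S * hF * q + q * S * hF + S * hF *
      r * E + S * hF * S * F + r * S * E * hF + r * hEF * q + q * r * hEF + r * q * hEF + r * hEF *
      r * E + r * hEF * S * F + r * S * hEF * F + r * F * qE + q * qF + r * qF * E + r * F * rE * E
      + q * rF * E + rF * E * S * F + rF * S * E * F + F * r * SE * F + q * SF * F + r * SF * E * F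
      + q2 * F + qr * E * F + h2 * (q * F * q + q * F * r * E + q * F * S * F - r * F * r * E * E -
      q * S * F * F - r * S * E * F * F + r * q - q * r * E * F - q * r * F * E - r * q * F * E - r
      * F * E * S * F + r * S * F - r * S * F * E * F - q * q * F + F * r * E * S * F)

theorem qq (h2 : (2 : R) = 0) {p P : R} (a : p * p = 0) (b : P * P = 0) (c : p * P = P * p) :
    (p + P) * (p + P) = 0 := by
  linear_combination (norm := noncomm_ring) a + b + c + h2 * (P * p)

theorem add1 (h : EF E F) {p r : R} (pE : p * E = E * p) (pF : p * F = F * p) (rE : r * E = E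
    * r) (rF : r * F = F * r) :
    p + r * E + E + (p + r * E) * E = p + (r + 1 + p) * E := by
  obtain ⟨h2, hE, hF, hEF⟩ := h
  linear_combination (norm := noncomm_ring) r * hE

theorem fin (h2 : (2 : R) = 0) {p r P : R} (a : p * p = 0) (b : p * r = r * p) (c : (r + 1 +
    p) * (r + 1 + p) = r * r + 1 + P) :
    P = 0 := by
  linear_combination (norm := noncomm_ring) a + b + c + h2 * (P - p * p - p * r - r - p)

theorem addr (h : EF E F) {r s : R} (rE : r * E = E * r) (rF : r * F = F * r) (sE : s * E = E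
    * s) (sF : s * F = F * s) :
    r * E + s * E + r * E * (s * E) = (r + s) * E := by
  obtain ⟨h2, hE, hF, hEF⟩ := h
  linear_combination (norm := noncomm_ring) r * s * hE + r * sE * E + h2 * (r * E * s * E - r *
      s * E * E)

theorem mul1 (h : EF E F) {r s x y : R} (rE : r * E = E * r) (rF : r * F = F * r) (sE : s * E
    = E * s) (sF : s * F = F * s) (xE : x * E = E * x) (xF : x * F = F * x) (yE : y * E = E * y)
    (yF : y * F = F * y) :
    (r * E + x * F) * (E + F) * (s * E + y * F) = r * s * E + x * y * F := by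
  obtain ⟨h2, hE, hF, hEF⟩ := h
  linear_combination (norm := noncomm_ring) r * hE * s * E + r * hE * y * F + F * r * s * hE + x
      * F * s * hE + x * hF * s * E + x * hF * y * F + r * y * E * hF + x * y * E * hF + r * hEF * s
      * E + r * hEF * y * F + r * y * hEF * F + x * y * hEF * F + rF * E * s * E + rF * E * y * F +
      rF * y * E * F + F * r * sE * E + x * F * sE * E + xF * E * y * F + xF * y * E * F + F * r *
      yE * F + F * x * yE * F + r * yF * E * F + x * yF * E * F + h2 * (x * F * E * s * E - F * r *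
      s * E * E - x * F * s * E * E - r * y * E * F * F - x * y * E * F * F - r * F * E * s * E - r
      * F * E * y * F + r * y * F - r * y * F * E * F - x * y * F * E * F + F * r * E * s * E + F *
      r * E * y * F + F * x * E * y * F)

theorem mul2 (h : EF E F) {a b z w : R} (aE : a * E = E * a) (aF : a * F = F * a) (zE : z * E
    = E * z) (zF : z * F = F * z) (e : a * E + b * F = z * E + w * F) (bF : b * F = F * b) (wF : w
    * F = F * w) :
    a * F = z * F := by
  obtain ⟨h2, hE, hF, hEF⟩ := h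
  linear_combination (norm := noncomm_ring) F * b * hF + F * w * hF + a * E * hF + z * E * hF +
      a * hEF * F + z * hEF * F + aF * E * F + zF * E * F + F * e * F + h2 * (a * F - F * b * F * F
      - a * E * F * F - z * E * F * F - a * F * E * F - z * F * E * F + F * z * E * F)

theorem a0 (h2 : (2 : R) = 0) {a : R} (e : a * a = 1) :
    (a + 1) * (a + 1) = 0 := by
  linear_combination (norm := noncomm_ring) e + h2 * (a + 1)

theorem a1 (h2 : (2 : R) = 0) {a b : R}  :
    a * b + 1 = a + 1 + (b + 1) + (a + 1) * (b + 1) := by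
  linear_combination (norm := noncomm_ring) h2 * (-1 - a - b)

theorem a2 (h2 : (2 : R) = 0) {a b : R} (e : a * b + b * a + 1 = 0) :
    (a + 1) * (b + 1) + (b + 1) * (a + 1) = 1 := by
  linear_combination (norm := noncomm_ring) e + h2 * (a + b)

theorem a3 (h2 : (2 : R) = 0) {a b : R} (e : a * b + b * a + 1 = 0) (e1 : a * a = 1) :
    a * b * a = a + 1 + (b + 1) := by
  linear_combination (norm := noncomm_ring) a * e + e1 * b + h2 * (-a - 1 - a * a * b)

theorem a4 (h2 : (2 : R) = 0) {a n c : R} (e : n * a * n = c) (e1 : n * n = 1) :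
    n * (a + 1) * n = c + 1 := by
  linear_combination (norm := noncomm_ring) e + e1

theorem m1 (h : EF E F) {a b c d : R} (aE : a * E = E * a) (aF : a * F = F * a) (bE : b * E =
    E * b) (bF : b * F = F * b) (cE : c * E = E * c) (cF : c * F = F * c) (dE : d * E = E * d) (dF
    : d * F = F * d) :
    E * F * (a * (E * F) + b * E + c * F + d * (F * E)) = a * (E * F) + b * E := by
  obtain ⟨h2, hE, hF, hEF⟩ := h
  linear_combination (norm := noncomm_ring) F * b * hE + F * a * hE * F + F * d * hE * F + c * E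
      * hF + hEF * d + d * hEF + hEF * b * E + hEF * c * F + c * hEF * F + hEF * a * E * F + hEF * d
      * E * F + E * F * d * hEF + F * aE * E * F + F * bE * E + F * cE * F + cF * E * F + F * dE + F
      * dE * E * F + dF * E + h2 * (-F * b * E * E - F * a * E * E * F - F * d * E * E * F - c * E *
      F * F + d - d * F * E + c * F - c * F * E * F - E * F * d * E * F)

theorem m2 (h : EF E F) {a b c d : R} (aE : a * E = E * a) (aF : a * F = F * a) (bE : b * E =
    E * b) (bF : b * F = F * b) (cE : c * E = E * c) (cF : c * F = F * c) (dE : d * E = E * d) (dF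
    : d * F = F * d) :
    E * (a * (E * F) + b * E + c * F + d * (F * E)) = c * (E * F) + d * E := by
  obtain ⟨h2, hE, hF, hEF⟩ := h
  linear_combination (norm := noncomm_ring) b * hE + a * hE * F + d * hE * F + E * d * hEF + aE
      * E * F + bE * E + cE * F + dE + dE * E * F + h2 * (E * a * E * F + E * b * E + E * c * F - c
      * E * F - d * E - b * E * E - a * E * E * F - d * E * E * F + E * d)

theorem m3 (h : EF E F) {a b c d : R} (aE : a * E = E * a) (aF : a * F = F * a) (bE : b * E =
    E * b) (bF : b * F = F * b) (cE : c * E = E * c) (cF : c * F = F * c) (dE : d * E = E * d) (dF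
    : d * F = F * d) :
    F * (a * (E * F) + b * E + c * F + d * (F * E)) = a * F + b * (F * E) := by
  obtain ⟨h2, hE, hF, hEF⟩ := h
  linear_combination (norm := noncomm_ring) c * hF + a * E * hF + d * E * hF + a * hEF * F + d *
      hEF * F + F * d * hEF + aF * E * F + bF * E + cF * F + dF + dF * E * F + h2 * (F * a * E * F +
      F * b * E + F * c * F - b * F * E - c * F * F - a * E * F * F - d * E * F * F - a * F * E * F
      - d * F * E * F + F * d)

theorem m4 (h : EF E F) {a b c d : R} (aE : a * E = E * a) (aF : a * F = F * a) (bE : b * E =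
    E * b) (bF : b * F = F * b) (cE : c * E = E * c) (cF : c * F = F * c) (dE : d * E = E * d) (dF
    : d * F = F * d) :
    F * E * (a * (E * F) + b * E + c * F + d * (F * E)) = c * F + d * (F * E) := by
  obtain ⟨h2, hE, hF, hEF⟩ := h
  linear_combination (norm := noncomm_ring) F * b * hE + F * a * hE * F + F * d * hE * F + c * E
      * hF + hEF * d + d * hEF + c * hEF * F + hEF * d * E * F + hEF * d * F * E + E * F * d * hEF +
      F * aE * E * F + F * bE * E + F * cE * F + cF * E * F + F * dE + F * dE * E * F + dF * E + h2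
      * (F * E * a * E * F + F * E * b * E + F * E * c * F - d * F * E - F * b * E * E - F * a * E *
      E * F - F * d * E * E * F - c * E * F * F + d - c * F * E * F - E * F * d * E * F - E * F * d
      * F * E)

end ring

variable {K : Type*} [Field K]

/-- upper unipotent -/
def u (t : K) : SL(2, K) := ⟨!![1, t; 0, 1], by simp [det_fin_two]⟩

/-- lower unipotent -/
def v (t : K) : SL(2, K) := ⟨!![1, 0; t, 1], by simp [det_fin_two]⟩

theorem u_coe (t : K) : ((u t : SL(2, K)) : Matrix (Fin 2) (Fin 2) K) = !![1, t; 0, 1] := rfl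

theorem v_coe (t : K) : ((v t : SL(2, K)) : Matrix (Fin 2) (Fin 2) K) = !![1, 0; t, 1] := rfl

theorem u_mul (s t : K) : u s * u t = u (s + t) := by
  ext i j; fin_cases i <;> fin_cases j <;> simp [u_coe, Matrix.mul_apply, Fin.sum_univ_two, add_comm]

theorem u_zero : u (0 : K) = 1 := by
  ext i j; fin_cases i <;> fin_cases j <;> simp [u]

/-- Weyl elements -/
def nn (t : K) : SL(2, K) := u t * v t⁻¹ * u t

variable [CharP K 2]

theorem nn_coe {t : K} (ht : t ≠ 0) :
    ((nn t : SL(2, K)) : Matrix (Fin 2) (Fin 2) K) = !![0, t; t⁻¹, 0] := by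
  ext i j; fin_cases i <;> fin_cases j <;>
    simp [nn, u_coe, v_coe, Matrix.mul_apply, Fin.sum_univ_two, ht, CharTwo.add_self_eq_zero]

theorem u_sq (t : K) : u t * u t = 1 := by rw [u_mul, CharTwo.add_self_eq_zero, u_zero]

theorem nn_sq : nn (1 : K) * nn 1 = 1 := by
  ext i j; fin_cases i <;> fin_cases j <;> simp [nn_coe, Matrix.mul_apply, Fin.sum_univ_two]

theorem nn_u (t : K) : nn (1 : K) * u t * nn 1 = v t := by
  ext i j; fin_cases i <;> fin_cases j <;> simp [nn_coe, u_coe, v_coe, Matrix.mul_apply, Fin.sum_univ_two]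

theorem nn_v {t : K} (ht : t ≠ 0) : nn t * v 1 * nn t = u (t * t) := by
  ext i j; fin_cases i <;> fin_cases j <;>
    simp [nn_coe, ht, u_coe, v_coe, Matrix.mul_apply, Fin.sum_univ_two]

theorem nn_sq' {t : K} (ht : t ≠ 0) : nn t * nn t = 1 := by
  ext i j; fin_cases i <;> fin_cases j <;> simp [nn_coe, ht, Matrix.mul_apply, Fin.sum_univ_two]

theorem nn_mul {s t : K} (hs : s ≠ 0) (ht : t ≠ 0) : nn s * nn 1 * nn t = nn (s * t) := by
  ext i j; fin_cases i <;> fin_cases j <;>
    simp [nn_coe, hs, ht, Matrix.mul_apply, Fin.sum_univ_two, mul_comm]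

theorem v_sq (t : K) : v t * v t = 1 := by
  ext i j; fin_cases i <;> fin_cases j <;>
    simp [v_coe, Matrix.mul_apply, Fin.sum_univ_two, CharTwo.add_self_eq_zero]

variable {R : Type*} [Ring R]

/-- the order-three relation -/
def Hy (φ : SL(2, K) →* R) : Prop :=
  ∀ t : K, t ≠ 0 → φ (u t) * φ (v t⁻¹) + φ (v t⁻¹) * φ (u t) + 1 = 0

theorem partA [Finite K] (h2 : (2 : R) = 0) {φ : SL(2, K) →* R} (hy : Hy φ) {E F : R}
    (eE : E = φ (u 1) + 1) (eF : F = φ (v 1) + 1) :
    EF E F ∧ ∃ r : K →+* R, (∀ t, r t * E = E * r t) ∧ (∀ t, r t * F = F * r t) ∧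
      (∀ t, φ (u t) + 1 = r t * E) ∧
      (∀ t, r t = (φ (u t) + 1) * F + F * (φ (u t) + 1)) ∧
      ∀ g : SL(2, K), φ g = r (g 0 0) * (E * F) + r (g 0 1) * E + r (g 1 0) * F +
        r (g 1 1) * (F * E) := by
  set A : K → R := fun t => φ (u t) + 1 with hA
  set B : K → R := fun t => φ (v t) + 1 with hB
  have A1 : A 1 = E := eE.symm
  have B1 : B 1 = F := eF.symm
  have A2 : ∀ t, A t * A t = 0 := fun t => a0 h2 (by rw [← map_mul, u_sq, map_one])
  have B2 : ∀ t, B t * B t = 0 := fun t => a0 h2 (by rw [← map_mul, v_sq, map_one])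
  have Aadd : ∀ s t, A (s + t) = A s + A t + A s * A t := fun s t => by
    simp only [hA]; rw [← u_mul, map_mul]; exact a1 h2
  have Acm : ∀ s t, A s * A t = A t * A s := fun s t => by
    have := Aadd s t
    rw [add_comm s t, Aadd, add_comm (A t)] at this
    exact (add_left_cancel this).symm
  have AB : ∀ t, t ≠ 0 → A t * B t⁻¹ + B t⁻¹ * A t = 1 := fun t ht => a2 h2 (hy t ht)
  have hN : ∀ t, t ≠ 0 → φ (nn t) = A t + B t⁻¹ := fun t ht => by
    rw [nn, map_mul, map_mul]; exact a3 h2 (hy t ht) (by rw [← map_mul, u_sq, map_one])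
  have h : EF E F := ⟨h2, A1 ▸ A2 1, B1 ▸ B2 1, by simpa [A1, B1] using AB 1 one_ne_zero⟩
  have N1 : φ (nn 1) = E + F := by rw [hN 1 one_ne_zero, inv_one, A1, B1]
  have AE : ∀ t, A t * E = E * A t := fun t => A1 ▸ Acm t 1
  set r : K → R := fun t => A t * F + F * A t with hr
  set p : K → R := fun t => A t + r t * E with hp
  have rE' : ∀ t, r t * E = E * r t := fun t => rE h (AE t)
  have rF' : ∀ t, r t * F = F * r t := fun t => rF h
  have pE' : ∀ t, p t * E = E * p t := fun t => pE h (AE t) (rE' t) (rF' t)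
  have pF' : ∀ t, p t * F = F * p t := fun t => pF h rfl (rE' t) (rF' t)
  have dA : ∀ t, A t = p t + r t * E := fun t => dec h
  have dB : ∀ t, B t = p t + r t * F := fun t => by
    rw [← cj h (pE' t) (pF' t) (rE' t) (rF' t), ← dA, ← N1]
    exact (a4 h2 (by rw [← map_mul, ← map_mul, nn_u]) (by rw [← map_mul, nn_sq, map_one])).symm
  have pr : ∀ t, p t * r t = r t * p t := fun t =>
    sq1 h (pE' t) (pF' t) (rE' t) (rF' t) (by rw [← dA, A2])
  have pp : ∀ t, p t * p t = 0 := fun t =>
    sq2 h (pE' t) (pF' t) (rE' t) (rF' t) (by rw [← dA, A2]) (pr t)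
  have mE : ∀ {a b : R}, a * E = E * a → b * E = E * b → a * b * E = E * (a * b) :=
    fun ha hb => Commute.mul_left ha hb
  have mF : ∀ {a b : R}, a * F = F * a → b * F = F * b → a * b * F = F * (a * b) :=
    fun ha hb => Commute.mul_left ha hb
  have pc : ∀ s t, p s * p t = p t * p s := fun s t =>
    coefE h (mF (pF' s) (pF' t)) (mF (pF' t) (pF' s)) (cm1 h (pE' s) (pF' s) (rE' s) (rF' s)
      (pE' t) (pF' t) (rE' t) (rF' t) (by rw [← dA, ← dA, Acm]))
  have rsq : ∀ t, t ≠ 0 → r (t * t) = r t * r t := fun t ht => by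
    have e1 : r t * p t⁻¹ = p t⁻¹ * r t :=
      coefF h (mE (rE' _) (pE' _)) (mE (pE' _) (rE' _)) (cm2 h (pE' t) (pF' t) (rE' t) (rF' t)
        (pE' _) (pF' _) (rE' _) (rF' _) (by rw [← dA, ← dB, AB t ht]))
    have qE : (p t + p t⁻¹) * E = E * (p t + p t⁻¹) := Commute.add_left (pE' _) (pE' _)
    have qF : (p t + p t⁻¹) * F = F * (p t + p t⁻¹) := Commute.add_left (pF' _) (pF' _)
    have e2 := nfn h qE qF (rE' t) (rF' t) (rE' t⁻¹) (rF' t⁻¹) (qq h2 (pp _) (pp _) (pc _ _))
      (Commute.add_left (pr t) e1.symm)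
    have e3 : φ (nn t) = p t + p t⁻¹ + r t * E + r t⁻¹ * F := by rw [hN t ht, dA, dB]; abel
    have e4 : φ (nn t) * B 1 * φ (nn t) = A (t * t) :=
      a4 h2 (by rw [← map_mul, ← map_mul, nn_v ht]) (by rw [← map_mul, nn_sq' ht, map_one])
    rw [← e3, ← B1, e4] at e2
    exact coef h (mE qE (rE' _)) (mF qF (rF' _)) (mE (rE' _) (rE' _)) (mF (rF' _) (rF' _)) e2
  have r1 : ∀ t, r (t + 1) = r t + 1 + p t := fun t => by
    refine coef h (pE' t) (pF' t) (Commute.add_left (Commute.add_left (rE' t) (Commute.one_left _))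
      (pE' t)) (Commute.add_left (Commute.add_left (rF' t) (Commute.one_left _)) (pF' t)) ?_
    rw [Aadd, A1, dA t]
    exact add1 h (pE' t) (pF' t) (rE' t) (rF' t)
  have A0 : A 0 = 0 := by simp only [hA]; rw [u_zero, map_one, one_add_one_eq_two, h2]
  have r0 : r 0 = 0 := by simp [hr, A0]
  have rone : r 1 = 1 := by simp only [hr]; rw [A1, h.hEF]
  have rsq' : ∀ t, r (t * t) = r t * r t := fun t => by
    by_cases ht : t = 0
    · simp [ht, r0]
    · exact rsq t ht
  have p0 : ∀ t, p t = 0 := fun t => by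
    obtain ⟨s, rfl⟩ : ∃ s, s * s = t := by
      obtain ⟨s, hs⟩ := surjective_frobenius K 2 t
      exact ⟨s, by rw [← hs, frobenius_def, sq]⟩
    refine fin h2 (pp s) (pr s) ?_
    rw [← r1, ← rsq', ← rsq', ← r1]
    congr 1
    linear_combination (s : K) * (CharTwo.two_eq_zero : (2 : K) = 0)
  have dA' : ∀ t, A t = r t * E := fun t => by rw [dA, p0, zero_add]
  have dB' : ∀ t, B t = r t * F := fun t => by rw [dB, p0, zero_add]
  have radd : ∀ s t, r (s + t) = r s + r t := fun s t =>
    coefE h (rF' _) (Commute.add_left (rF' _) (rF' _)) (by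
      rw [← dA', Aadd, dA', dA']; exact addr h (rE' _) (rF' _) (rE' _) (rF' _))
  have rmul : ∀ s t, r (s * t) = r s * r t := fun s t => by
    by_cases hs : s = 0
    · simp [hs, r0]
    by_cases ht : t = 0
    · simp [ht, r0]
    have e1 := congrArg φ (nn_mul hs ht)
    rw [map_mul, map_mul, N1, hN s hs, hN t ht, hN _ (mul_ne_zero hs ht), dA', dA', dA', dB', dB',
      dB', mul1 h (rE' _) (rF' _) (rE' _) (rF' _) (rE' _) (rF' _) (rE' _) (rF' _)] at e1
    exact (coefF h (mE (rE' _) (rE' _)) (rE' _) (mul2 h (mE (rE' _) (rE' _)) (mF (rF' _) (rF' _))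
      (rE' _) (rF' _) e1 (mF (rF' _) (rF' _)) (rF' _))).symm
  let ρ : K →+* R :=
    { toFun := r, map_one' := rone, map_mul' := rmul, map_zero' := r0, map_add' := radd }
  refine ⟨h, ρ, rE', rF', dA', fun _ => rfl, fun g => ?_⟩
  have k1 : ∀ a : R, a = a + 1 + 1 := fun a => by rw [add_assoc, one_add_one_eq_two, h2, add_zero]
  induction g using SL2.transvection_induction with
  | htransvec i j hij c =>
    fin_cases i <;> fin_cases j
    · exact absurd rfl hij
    · have : SpecialLinearGroup.transvection hij c = u c := by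
        ext a b; fin_cases a <;> fin_cases b <;> simp [u, SpecialLinearGroup.transvection_coe]
      rw [this, k1 (φ _)]
      change A c + _ = _
      rw [dA', ← h.hEF]
      simp [u_coe, ρ, r0, rone]; abel
    · have : SpecialLinearGroup.transvection hij c = v c := by
        ext a b; fin_cases a <;> fin_cases b <;> simp [v, SpecialLinearGroup.transvection_coe]
      rw [this, k1 (φ _)]
      change B c + _ = _
      rw [dB', ← h.hEF]
      simp [v_coe, ρ, r0, rone]; abel
    · exact absurd rfl hij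
  | hmul g g' hg hg' =>
    rw [map_mul, hg, add_mul, add_mul, add_mul, mul_assoc (ρ _), mul_assoc (ρ _), mul_assoc (ρ _),
      mul_assoc (ρ _), hg', m1 h, m2 h, m3 h, m4 h]
    · have e : ∀ i j, (g * g') i j = g i 0 * g' 0 j + g i 1 * g' 1 j := fun i j => by
        rw [← Fin.sum_univ_two (fun k => g i k * g' k j)]; exact Matrix.mul_apply
      simp only [e, map_add, map_mul]
      noncomm_ring
    all_goals first | exact rE' _ | exact rF' _

omit [CharP K 2] in
theorem Hy.map {S : Type*} [Ring S] {φ : SL(2, K) →* R} (hy : Hy φ) (π : R →+* S) :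
    Hy (π.toMonoidHom.comp φ) := fun t ht => by
  simpa using congrArg π (hy t ht)

theorem twoSided (n : ℕ) : (Ideal.span {(n : R)}).IsTwoSided := ⟨fun b ha => by
  obtain ⟨w, rfl⟩ := Ideal.mem_span_singleton'.1 ha
  exact Ideal.mem_span_singleton'.2 ⟨w * b, by rw [mul_assoc, mul_assoc, Nat.cast_comm]⟩⟩

theorem partB4 [Finite K] (h4 : (4 : R) = 0) {c : K} (c0 : c ≠ 0) (c1 : c ≠ 1)
    {φ : SL(2, K) →* R} (hy : Hy φ) : (2 : R) = 0 := by
  have := twoSided (R := R) 2
  let π := Ideal.Quotient.mk (Ideal.span {((2 : ℕ) : R)})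
  have hπ : ∀ {a b : R}, π a = π b → ∃ w, a = b + 2 * w := fun {a b} e => by
    obtain ⟨w, hw⟩ := Ideal.mem_span_singleton'.1 (Ideal.Quotient.eq.1 e)
    exact ⟨w, by rw [← Nat.cast_comm, Nat.cast_ofNat] at hw; rw [hw]; abel⟩
  have h2 : (2 : R ⧸ Ideal.span {((2 : ℕ) : R)}) = 0 := by
    rw [← map_ofNat π 2]
    exact Ideal.Quotient.eq_zero_iff_mem.2 (Ideal.subset_span (by simp))
  obtain ⟨-, r, rE, -, rA, rd, -⟩ := partA h2 (hy.map π) rfl rfl
  set A := φ (u 1) + 1 with hA
  set A' := φ (v 1) + 1 with hA'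
  set B := φ (u c) + 1 with hB
  set ρ := B * A' + A' * B with hρ
  have eρ : π ρ = r c := by simp [rd, hρ, hB, hA']
  have eA : π A = (π.toMonoidHom.comp φ) (u 1) + 1 := by simp [hA]
  obtain ⟨x, hx⟩ : ∃ x, B = ρ * A + 2 * x := hπ (by rw [map_mul, eρ, eA, ← rA]; simp [hB])
  obtain ⟨y, hy'⟩ : ∃ y, A * ρ = ρ * A + 2 * y := hπ (by rw [map_mul, map_mul, eρ, eA, rE])
  have := Fintype.ofFinite K
  obtain ⟨j, hj⟩ : ∃ j, Fintype.card K - 1 = 2 * j + 1 := by
    have h1 := FiniteField.even_card_of_char_two (F := K) (ringChar.eq K 2)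
    have h3 := Fintype.card_pos (α := K)
    exact ⟨(Fintype.card K - 2) / 2, by omega⟩
  obtain ⟨w, hw⟩ : ∃ w, ρ ^ (2 * j + 1) = 1 + 2 * w := hπ (by
    rw [map_pow, eρ, ← map_pow, ← hj, FiniteField.pow_card_sub_one_eq_one c c0, map_one, map_one])
  obtain ⟨w', hw'⟩ : ∃ w, (ρ + 1) ^ (2 * j + 1) = 1 + 2 * w := hπ (by
    rw [map_pow, map_add, eρ, map_one, ← map_one r, ← map_add, ← map_pow, ← hj,
      FiniteField.pow_card_sub_one_eq_one (c + 1) (by rwa [Ne, CharTwo.add_eq_zero])])
  have sq : ∀ t, (φ (u t) + 1) * (φ (u t) + 1) = 2 * (φ (u t) + 1) := fun t => by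
    have : φ (u t) * φ (u t) = 1 := by rw [← map_mul, u_sq, map_one]
    linear_combination (norm := noncomm_ring) this
  have kA : A * A = 2 * A := sq 1
  have kB : B * B = 2 * B := sq c
  have kAB : A * B = B * A := by
    have : φ (u 1) * φ (u c) = φ (u c) * φ (u 1) := by rw [← map_mul, ← map_mul, u_mul, u_mul, add_comm]
    rw [hA, hB]
    linear_combination (norm := noncomm_ring) this
  have eA' : A' = φ (nn 1) * A * φ (nn 1) := by
    rw [hA, mul_add, add_mul, mul_one, ← map_mul, ← map_mul, ← map_mul, nn_u, nn_sq, map_one]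
  have hr := hy 1 one_ne_zero
  rw [inv_one, show φ (u 1) = A - 1 by simp [hA], show φ (v 1) = A' - 1 by simp [hA']] at hr
  clear_value ρ A A' B
  subst hx
  have k1 : 2 * y * A + 2 * A * x = 2 * x * A := by
    linear_combination (norm := noncomm_ring) kAB - hy' * A
  have k2 : ρ * (2 * x * A) = (2 * x * A + 2 * (ρ + 1) * A) * ρ := by
    linear_combination (norm := noncomm_ring) kB - ρ * hy' * A - ρ * ρ * kA - ρ * k1 -
      2 * x * hy' - 2 * ρ * hy' - 2 * hy' +
      h4 * (-(x * ρ * A) - x * y - ρ * ρ * A - ρ * y - y - x * x + x)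
  have k3 : ρ * (2 * (ρ + 1) * A) = 2 * (ρ + 1) * A * ρ := by
    linear_combination (norm := noncomm_ring) -(2 * (ρ + 1) * hy') - h4 * ((ρ + 1) * y)
  have k4 : ∀ k : ℕ, ρ ^ k * (2 * x * A) = (2 * x * A + k * (2 * (ρ + 1) * A)) * ρ ^ k := by
    intro k
    induction k with
    | zero => simp
    | succ k ih =>
      rw [pow_succ', mul_assoc, ih, ← mul_assoc, mul_add, k2, ← mul_assoc ρ (k : R),
        ← Nat.cast_comm, mul_assoc (k : R), k3, Nat.cast_succ]
      generalize ρ ^ k = P
      noncomm_ring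
  have k5 : 2 * (ρ + 1) * A = 0 := by
    have := k4 (2 * j + 1)
    rw [hw, Nat.cast_succ, Nat.cast_mul, Nat.cast_ofNat] at this
    generalize (j : R) = J at this
    linear_combination (norm := noncomm_ring) -this + h4 * (w * x * A - x * A * w -
      J * (ρ + 1) * A - (2 * J + 1) * (ρ + 1) * A * w)
  have k6 : 2 * A = 0 := by
    rw [pow_succ] at hw'
    generalize (ρ + 1) ^ (2 * j) = P at hw'
    linear_combination (norm := noncomm_ring) P * k5 - hw' * (2 * A) - h4 * (w' * A)
  have k7 : 2 * A' = 0 := by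
    rw [eA']
    linear_combination (norm := noncomm_ring) φ (nn 1) * k6 * φ (nn 1)
  have k8 : (2 : R) * 1 + 4 * 1 = 0 := by
    linear_combination (norm := noncomm_ring) 2 * hr - k6 * A' - k7 * A + 2 * k6 + 2 * k7
  simpa [h4] using k8

theorem partB [Finite K] {k : ℕ} (hk : (2 : R) ^ k = 0) {c : K} (c0 : c ≠ 0) (c1 : c ≠ 1)
    {φ : SL(2, K) →* R} (hy : Hy φ) : (2 : R) = 0 := by
  have := twoSided (R := R) 4
  let π := Ideal.Quotient.mk (Ideal.span {((4 : ℕ) : R)})
  have h4 : (4 : R ⧸ Ideal.span {((4 : ℕ) : R)}) = 0 := by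
    rw [← map_ofNat π 4]
    exact Ideal.Quotient.eq_zero_iff_mem.2 (Ideal.subset_span (by simp))
  have h2 := partB4 h4 c0 c1 (hy.map π)
  rw [← map_ofNat π 2] at h2
  obtain ⟨w, hw⟩ := Ideal.mem_span_singleton'.1 (Ideal.Quotient.eq_zero_iff_mem.1 h2)
  have key : ∀ n : ℕ, (2 : R) = w ^ n * 2 ^ n * 2 := by
    intro n
    induction n with
    | zero => simp
    | succ n ih =>
      have e : (2 : R) ^ n * w = w * 2 ^ n := ((Commute.ofNat_left 2 w).pow_left n).eq
      calc (2 : R) = w ^ n * 2 ^ n * (w * 4) := by rw [Nat.cast_ofNat] at hw; rw [hw, ← ih]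
        _ = w ^ n * (2 ^ n * w) * (2 * 2) := by norm_num [mul_assoc]
        _ = _ := by rw [e, pow_succ, pow_succ]; simp only [mul_assoc]
  rw [key k, hk]; simp

/-- elements of trace one are conjugate -/
theorem isConj_of_trace [Finite K] (s : SL(2, K)) (h : s 0 0 + s 1 1 = 1) :
    IsConj (u 1 * v 1 : SL(2, K)) s := by
  have h2 : (2 : K) = 0 := CharTwo.two_eq_zero
  have hd : s 0 0 * s 1 1 - s 0 1 * s 1 0 = 1 := by rw [← det_fin_two]; exact s.2
  have key : ∀ x y : K, x * (s 1 0 * x + s 1 1 * y) - (s 0 0 * x + s 0 1 * y) * y ≠ 0 →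
      IsConj (u 1 * v 1 : SL(2, K)) s := by
    intro x y hxy
    obtain ⟨l, hl⟩ := surjective_frobenius K 2 (x * (s 1 0 * x + s 1 1 * y) -
      (s 0 0 * x + s 0 1 * y) * y)⁻¹
    rw [frobenius_def] at hl
    refine isConj_iff.2 ⟨⟨!![l * x, l * (s 0 0 * x + s 0 1 * y); l * y, l * (s 1 0 * x + s 1 1 * y)],
      by rw [det_fin_two_of]; linear_combination inv_mul_cancel₀ hxy + (x * (s 1 0 * x + s 1 1 * y) -
        (s 0 0 * x + s 0 1 * y) * y) * hl⟩, mul_inv_eq_iff_eq_mul.2 (Subtype.ext ?_)⟩
    change !![l * x, l * (s 0 0 * x + s 0 1 * y); l * y, l * (s 1 0 * x + s 1 1 * y)] *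
      (!![1, 1; 0, 1] * !![1, 0; 1, 1]) = (s : Matrix (Fin 2) (Fin 2) K) *
        !![l * x, l * (s 0 0 * x + s 0 1 * y); l * y, l * (s 1 0 * x + s 1 1 * y)]
    ext i j
    fin_cases i <;> fin_cases j <;> simp [Matrix.mul_apply, Fin.sum_univ_two]
    · linear_combination (l * x) * h2
    · linear_combination (-(l * (s 0 0 * x + s 0 1 * y))) * h + (l * x) * hd + (l * x) * h2
    · linear_combination (l * y) * h2
    · linear_combination (-(l * (s 1 0 * x + s 1 1 * y))) * h + (l * y) * hd + (l * y) * h2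
  by_cases h1 : s 1 0 = 0
  · by_cases h3 : s 0 1 = 0
    · refine key 1 1 ?_
      rw [h1, h3]
      intro e
      exact one_ne_zero (α := K) (by linear_combination e - h + s 0 0 * h2)
    · exact key 0 1 (by simpa using h3)
  · exact key 1 0 (by simpa using h1)

theorem trace_of_order (s : SL(2, K)) (h : orderOf s = 3) : s 0 0 + s 1 1 = 1 := by
  have h2 : (2 : K) = 0 := CharTwo.two_eq_zero
  have hd : s 0 0 * s 1 1 - s 0 1 * s 1 0 = 1 := by rw [← det_fin_two]; exact s.2
  have h3 : s * s = s⁻¹ := by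
    rw [eq_inv_iff_mul_eq_one, ← pow_three', ← h, pow_orderOf_eq_one]
  have e : ∀ i j, (s * s) i j = s i 0 * s 0 j + s i 1 * s 1 j := fun i j => by
    rw [← Fin.sum_univ_two (fun k => s i k * s k j)]; exact Matrix.mul_apply
  rw [SpecialLinearGroup.SL2_inv_expl] at h3
  have a00 : s 0 0 * s 0 0 + s 0 1 * s 1 0 = s 1 1 := by rw [← e, h3]; rfl
  have a01 : s 0 0 * s 0 1 + s 0 1 * s 1 1 = -s 0 1 := by rw [← e, h3]; rfl
  have a10 : s 1 0 * s 0 0 + s 1 1 * s 1 0 = -s 1 0 := by rw [← e, h3]; rfl
  have a11 : s 1 0 * s 0 1 + s 1 1 * s 1 1 = s 0 0 := by rw [← e, h3]; rfl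
  by_contra hne
  have hne' : s 0 0 + s 1 1 + 1 ≠ 0 := fun e => hne (by linear_combination e - h2)
  have b01 : s 0 1 = 0 := (mul_eq_zero.1 (by linear_combination a01)).resolve_right hne'
  have b10 : s 1 0 = 0 := (mul_eq_zero.1 (by linear_combination a10)).resolve_right hne'
  rw [b01] at a00 a11 hd
  have b0 : s 0 0 + s 1 1 = 0 := (mul_eq_zero.1 (by
    linear_combination a00 + a11 + (s 0 0 * s 1 1 + s 0 0 + s 1 1) * h2)).resolve_right hne'
  have b1 : s 1 1 = s 0 0 := by linear_combination b0 - s 0 0 * h2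
  rw [b1] at a00 hd
  have b2 : s 0 0 = 1 := by linear_combination hd - a00
  have : s = 1 := by
    ext i j; fin_cases i <;> fin_cases j <;> simp [b01, b10, b1, b2]
  rw [this, orderOf_one] at h
  exact absurd h (by decide)

theorem trace_uv {t : K} (ht : t ≠ 0) : (u t * v t⁻¹ : SL(2, K)) 0 0 + (u t * v t⁻¹ : SL(2, K)) 1 1 = 1 := by
  simp [u_coe, v_coe, Matrix.mul_apply, Fin.sum_univ_two, ht, CharTwo.add_self_eq_zero]

theorem uv_sq {t : K} (ht : t ≠ 0) : (u t * v t⁻¹ : SL(2, K)) * (u t * v t⁻¹) = v t⁻¹ * u t := by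
  ext i j; fin_cases i <;> fin_cases j <;>
    simp [u_coe, v_coe, Matrix.mul_apply, Fin.sum_univ_two, ht, CharTwo.add_self_eq_zero]

theorem uv_ne {c : K} (c0 : c ≠ 0) (c1 : c ≠ 1) :
    ¬ Commute (v 1⁻¹ * u 1 : SL(2, K)) (v c⁻¹ * u c) := by
  intro h
  have := congrArg (fun g : SL(2, K) => g 0 0) h.eq
  simp [u_coe, v_coe, Matrix.mul_apply, Fin.sum_univ_two, c0] at this
  have h1 : (c + 1) ^ 2 = 0 := by
    linear_combination mul_inv_cancel₀ c0 - c * this + (c + 1) * (CharTwo.two_eq_zero : (2 : K) = 0)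
  exact c1 (CharTwo.add_eq_zero.1 (pow_eq_zero_iff two_ne_zero |>.1 h1))

theorem normal_eq_top (hK : 4 ≤ Nat.card K) (N : Subgroup SL(2, K)) [N.Normal] (hN : N ≠ ⊥) :
    N = ⊤ := by
  have hc : Subgroup.center SL(2, K) = ⊥ := by
    rw [eq_bot_iff]
    intro g hg
    rcases CfH3.psl2_mk_eq_one_iff.1 ((QuotientGroup.eq_one_iff g).2 hg) with rfl | rfl
    · exact Subgroup.one_mem _
    · exact Subgroup.mem_bot.2 (by ext i j; simp [CharTwo.neg_eq])
  have := Matrix.ProjectiveSpecialLinearGroup.rank_two_simple hK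
  have e : PSL(2, K) ≃* SL(2, K) :=
    (QuotientGroup.quotientMulEquivOfEq hc).trans QuotientGroup.quotientBot
  have : IsSimpleGroup SL(2, K) := e.symm.isSimpleGroup
  exact (IsSimpleGroup.eq_bot_or_eq_top_of_normal N inferInstance).resolve_left hN

/-- the decomposition of a module into natural modules -/
theorem decomp [Finite K] {W : Type*} [AddCommGroup W] [Finite W] (h2 : ∀ w : W, w + w = 0)
    {φ : SL(2, K) →* AddMonoid.End W} (hy : Hy φ) :
    ∃ (k : ℕ) (π : Fin k → W →+ (Fin 2 → K)) (θ : Fin k → (Fin 2 → K) →+ W),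
      (∀ i x, π i (θ i x) = x) ∧ (∀ i j x, i ≠ j → π i (θ j x) = 0) ∧
      (∀ w, ∑ i, θ i (π i w) = w) ∧ ∀ i (g : SL(2, K)) w, π i (φ g w) = g.1.mulVec (π i w) := by
  have h2' : (2 : AddMonoid.End W) = 0 := by
    ext w; rw [← one_add_one_eq_two]; exact h2 w
  obtain ⟨h, r, rE, rF, -, -, hg⟩ := partA h2' hy rfl rfl
  generalize φ (u 1) + 1 = E at h rE rF hg
  generalize φ (v 1) + 1 = F at h rE rF hg
  let _ : Module K W := Module.compHom W r
  have sm : ∀ (t : K) (w : W), t • w = r t w := fun _ _ => rfl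
  let El : W →ₗ[K] W := { E with map_smul' := fun t w => (DFunLike.congr_fun (rE t) w).symm }
  let Fl : W →ₗ[K] W := { F with map_smul' := fun t w => (DFunLike.congr_fun (rF t) w).symm }
  have EE : ∀ w, El (El w) = 0 := fun w => DFunLike.congr_fun h.hE w
  have FF : ∀ w, Fl (Fl w) = 0 := fun w => DFunLike.congr_fun h.hF w
  have EF' : ∀ w, El (Fl w) + Fl (El w) = w := fun w => DFunLike.congr_fun h.hEF w
  have EFE : ∀ w, El (Fl (El w)) = El w := fun w => by simpa [EE] using EF' (El w)
  let b := Module.finBasis K (LinearMap.range El)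
  let P := El.rangeRestrict
  have hb : ∀ i, El (b i) = 0 ∧ El (Fl (b i)) = b i := fun i => by
    obtain ⟨w, hw⟩ := (b i).2
    rw [← hw]; exact ⟨EE w, EFE w⟩
  have P1 : ∀ i, P (b i) = 0 := fun i => Subtype.ext (hb i).1
  have P2 : ∀ i, P (Fl (b i)) = b i := fun i => Subtype.ext (hb i).2
  let π : Fin _ → W →ₗ[K] (Fin 2 → K) := fun i =>
    LinearMap.pi ![(b.coord i ∘ₗ P) ∘ₗ Fl, b.coord i ∘ₗ P]
  let θ : Fin _ → (Fin 2 → K) →ₗ[K] W := fun i =>
    (LinearMap.proj 0).smulRight (b i : W) + (LinearMap.proj 1).smulRight (Fl (b i))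
  refine ⟨_, fun i => (π i).toAddMonoidHom, fun i => (θ i).toAddMonoidHom, fun i x => ?_,
    fun i j x hij => ?_, fun w => ?_, fun i g w => ?_⟩
  · ext a; fin_cases a <;> simp [π, θ, P1, P2, FF]
  · ext a; fin_cases a <;> simp [π, θ, P1, P2, FF, Finsupp.single_apply, hij.symm]
  · have e1 := congrArg Subtype.val (b.sum_repr (P (Fl w)))
    have e2 := congrArg (fun z : LinearMap.range El => Fl z) (b.sum_repr (P w))
    simp only [Submodule.coe_sum, Submodule.coe_smul, map_sum, map_smul] at e1 e2
    simp [π, θ, Finset.sum_add_distrib, e1, e2, P, EF']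
  · have e1 : P (Fl (φ g w)) = g 0 0 • P (Fl w) + g 0 1 • P w := Subtype.ext (by
      rw [hg]
      exact DFunLike.congr_fun (m1 h (rE _) (rF _) (rE _) (rF _) (rE _) (rF _) (rE _) (rF _)) w)
    have e2 : P (φ g w) = g 1 0 • P (Fl w) + g 1 1 • P w := Subtype.ext (by
      rw [hg]
      exact DFunLike.congr_fun (m2 h (rE _) (rF _) (rE _) (rF _) (rE _) (rF _) (rE _) (rF _)) w)
    ext a; fin_cases a <;> simp [π, e1, e2, Matrix.mulVec, dotProduct, Fin.sum_univ_two]

end CfH2.Hig
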