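import Cfsg.Agent.OD.Pre
import Cfsg.Agent.H8.QdO

/-! Elements normalizing a natural `SL₂(F)`-module and the acting group are semilinear. -/

set_option autoImplicit false

namespace CfH2

open Subgroup Cfsg CfH9 CfH8 Matrix
open scoped commutatorElement MatrixGroups

section Field
variable {F : Type*} [Field F]

theorem ringHom_invol_unique [Finite F] {σ τ : F →+* F} (h1 : σ.comp σ = .id F)
    (h2 : τ.comp τ = .id F) (h3 : σ ≠ .id F) (h4 : τ ≠ .id F) : σ = τ := by
  classical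
  obtain ⟨p, hp⟩ := CharP.exists F
  let := ZMod.algebra F p
  have hp' : Fact p.Prime := ⟨CharP.char_is_prime F p⟩
  let e : (F →+* F) → (F ≃ₐ[ZMod p] F) := fun σ => AlgEquiv.ofBijective
    { σ with commutes' := fun c => DFunLike.congr_fun (RingHom.ext_zmod (σ.comp (algebraMap _ _))
      (algebraMap _ _)) c } (Finite.injective_iff_bijective.1 σ.injective)
  have he : ∀ σ x, e σ x = σ x := fun _ _ => rfl
  have hsq : ∀ σ : F →+* F, σ.comp σ = .id F → e σ ^ 2 = 1 := fun σ h => by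
    ext x; exact DFunLike.congr_fun h x
  have hne : ∀ σ : F →+* F, σ ≠ .id F → e σ ≠ 1 := fun σ h h' =>
    h (RingHom.ext fun x => DFunLike.congr_fun h' x)
  have := Fintype.ofFinite (F ≃ₐ[ZMod p] F)
  have hc := IsCyclic.card_pow_eq_one_le (α := F ≃ₐ[ZMod p] F) (n := 2) two_pos
  by_contra hne'
  have h5 : e σ ≠ e τ := fun h => hne' (RingHom.ext fun x => DFunLike.congr_fun h x)
  have h6 : ({1, e σ, e τ} : Finset (F ≃ₐ[ZMod p] F)) ⊆ Finset.univ.filter (· ^ 2 = 1) := by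
    intro a ha
    simp only [Finset.mem_insert, Finset.mem_singleton] at ha
    rcases ha with rfl | rfl | rfl <;> simp [hsq, h1, h2]
  have h7 := Finset.card_le_card h6
  rw [Finset.card_eq_three.2 ⟨_, _, _, (hne σ h3).symm, (hne τ h4).symm, h5, rfl⟩] at h7
  omega

theorem ringHom_eq_id_of_sq {σ : F →+* F} (h2 : (2 : F) ≠ 0)
    (h : ∀ c, σ (σ c - c) = σ c - c) : σ = .id F := by
  ext c
  have h1 := h (c ^ 2)
  have h3 := h c
  simp only [map_sub, map_pow] at h1 h3
  have h4 : 2 * (σ c - c) ^ 2 = 0 := by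
    linear_combination h1 - (σ (σ c) + 2 * σ c - c) * h3
  simpa [h2, sub_eq_zero] using h4

theorem ringHom_eq_id_of_card_two [Fintype F] (hF : Fintype.card F = 2) (σ : F →+* F) :
    σ = .id F := by
  ext c
  have h1 := FiniteField.pow_card c
  rw [hF] at h1
  have : c * (c - 1) = 0 := by linear_combination h1
  rcases mul_eq_zero.1 this with h | h
  · simp [h]
  · simp [sub_eq_zero.1 h]

theorem ringHom_sq_of_card_four [Fintype F] [CharP F 2] (hF : Fintype.card F = 4) (σ : F →+* F) :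
    σ.comp σ = .id F := by
  ext c
  have h1 := FiniteField.pow_card c
  rw [hF] at h1
  have h2 : (2 : F) = 0 := CharP.cast_eq_zero F 2
  have h3 : (c ^ 2 + c) * (c ^ 2 + c - 1) = 0 := by linear_combination h1 + c ^ 3 * h2
  have h4 : σ c ^ 2 + σ c = c ^ 2 + c := by
    rw [← map_pow, ← map_add]
    rcases mul_eq_zero.1 h3 with h | h
    · simp [h]
    · simp [sub_eq_zero.1 h]
  have h5 : (σ c - c) * (σ c - (c + 1)) = 0 := by
    linear_combination h4 + (c ^ 2 + c - σ c - σ c * c) * h2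
  rcases mul_eq_zero.1 h5 with h | h
  · simp [sub_eq_zero.1 h]
  · have h6 := sub_eq_zero.1 h
    simp only [RingHom.comp_apply, h6, map_add, map_one, RingHom.id_apply]
    linear_combination h2

theorem eq_one_of_pow_char_pow {p : ℕ} [Fact p.Prime] [CharP F p] {a : F} {k : ℕ}
    (h : a ^ p ^ k = 1) : a = 1 := by
  have := sub_pow_char_pow a 1 k
  rw [h, one_pow, sub_self] at this
  exact sub_eq_zero.1 (pow_eq_zero_iff (pow_pos (Fact.out : p.Prime).pos k).ne' |>.1 this)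

/-- an additive map commuting with `SL₂(F)` is a scalar -/
theorem scalar_of_comm (b : (Fin 2 → F) → Fin 2 → F) (hb : ∀ x y, b (x + y) = b x + b y)
    (h : ∀ (s : SL(2, F)) x, b (s.1 *ᵥ x) = s.1 *ᵥ b x) : ∃ α : F, ∀ x, b x = α • x := by
  let w : SL(2, F) := ⟨!![0, -1; 1, 0], by simp [det_fin_two]⟩
  have hw : ∀ x, w.1 *ᵥ x = ![-x 1, x 0] := fun x => by
    rw [sl_mulVec]; simp [w]
  have h1 : b ![1, 0] 1 = 0 := by
    have := congrFun (h (slT 1) ![1, 0]) 0
    rw [slT_mulVec, slT_mulVec] at this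
    simpa using this
  have h2 : b ![0, 1] = ![0, b ![1, 0] 0] := by
    have := h w ![1, 0]
    simpa [hw, h1] using this
  have h3 : ∀ t, b ![t, 0] = ![b ![1, 0] 0 * t, 0] := fun t => by
    have h4 := h (slT t) ![0, 1]
    rw [slT_mulVec, slT_mulVec, h2, show (![![(0 : F), 1] 0 + t * ![(0 : F), 1] 1, ![(0 : F), 1] 1]) =
      ![t, 0] + ![0, 1] by simp, hb, h2] at h4
    ext i
    have := congrFun h4 i
    fin_cases i
    · simpa [mul_comm] using this
    · simpa using this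
  have h5 : ∀ t, b ![0, t] = ![0, b ![1, 0] 0 * t] := fun t => by
    have := h w ![t, 0]
    rw [hw, hw, h3 t] at this
    simpa using this
  refine ⟨b ![1, 0] 0, fun x => ?_⟩
  rw [show x = ![x 0, 0] + ![0, x 1] by ext i; fin_cases i <;> simp, hb, h3 (x 0), h5]
  ext i; fin_cases i <;> simp

end Field

variable {X : Type*} [Group X] {F : Type*} [Field F] {V L : Subgroup X} (D : NatD F V L)

/-- the action of an element normalizing `V`, in coordinates -/
noncomputable def aut (g : X) (x : Fin 2 → F) : Fin 2 → F :=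
  Function.invFun D.v (g * D.v x * g⁻¹)

variable {D} {g h : X}

theorem v_aut (hg : g ∈ Nm(V)) (x : Fin 2 → F) : D.v (aut D g x) = g * D.v x * g⁻¹ :=
  Function.invFun_eq ((D.mem _).1 (conj_mem_of_mem_normalizer hg (D.v_mem x)))

theorem aut_add (hg : g ∈ Nm(V)) (x y : Fin 2 → F) : aut D g (x + y) = aut D g x + aut D g y :=
  D.inj (by rw [D.v_add, v_aut hg, v_aut hg, v_aut hg, D.v_add]; group)

theorem aut_sub (hg : g ∈ Nm(V)) (x y : Fin 2 → F) : aut D g (x - y) = aut D g x - aut D g y :=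
  D.inj (by rw [D.v_sub, v_aut hg, v_aut hg, v_aut hg, D.v_sub]; group)

theorem aut_mul (hg : g ∈ Nm(V)) (hh : h ∈ Nm(V)) (x : Fin 2 → F) :
    aut D (g * h) x = aut D g (aut D h x) :=
  D.inj (by rw [v_aut (mul_mem hg hh), v_aut hg, v_aut hh]; group)

theorem aut_one (x : Fin 2 → F) : aut D 1 x = x := D.inj (by rw [v_aut (one_mem _)]; group)

theorem aut_L (l : L) (x : Fin 2 → F) : aut D l x = (D.ρ l).1 *ᵥ x :=
  D.inj (by rw [v_aut (D.le_Nm l.2), D.act])

theorem aut_inv_aut (hg : g ∈ Nm(V)) (x : Fin 2 → F) : aut D g⁻¹ (aut D g x) = x := by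
  rw [← aut_mul (inv_mem hg) hg, inv_mul_cancel, aut_one]

theorem aut_aut_inv (hg : g ∈ Nm(V)) (x : Fin 2 → F) : aut D g (aut D g⁻¹ x) = x := by
  rw [← aut_mul hg (inv_mem hg), mul_inv_cancel, aut_one]

theorem aut_eq_self_iff (hg : g ∈ Nm(V)) (x : Fin 2 → F) : aut D g x = x ↔ D.v x ∈ Cx(g) := by
  rw [← D.inj.eq_iff, v_aut hg, mem_Cx, mul_inv_eq_iff_eq_mul, eq_comm]

theorem aut_eq_zero (hg : g ∈ Nm(V)) {x : Fin 2 → F} : aut D g x = 0 ↔ x = 0 := by
  rw [← D.v_eq_one, ← D.v_eq_one, v_aut hg, conj_eq_one_iff]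

theorem mem_Cz_of_aut (hg : g ∈ Nm(V)) (h : ∀ x, aut D g x = x) : g ∈ Cz(V) :=
  mem_centralizer_of_conj_eq fun y hy => by
    obtain ⟨x, rfl⟩ := (D.mem y).1 hy
    rw [← v_aut hg, h]

variable (D) in
/-- `g` acts `σ`-semilinearly -/
def Semi (g : X) (σ : F →+* F) : Prop := ∀ (c : F) x, aut D g (c • x) = σ c • aut D g x

theorem exists_semi (hg : g ∈ Nm(V)) (hL : g ∈ Nm(L)) : ∃ σ, Semi D g σ := by
  have key : ∀ c : F, ∃ α : F, ∀ x, aut D g (c • aut D g⁻¹ x) = α • x := fun c => by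
    refine scalar_of_comm _ (fun x y => by rw [aut_add (inv_mem hg), smul_add, aut_add hg]) ?_
    intro s x
    obtain ⟨l, rfl⟩ := D.surj s
    have hl := D.le_Nm l.2
    have hl' : g⁻¹ * l * g ∈ L := conj_mem_of_mem_normalizer' hL l.2
    have h1 : ∀ y, aut D g⁻¹ (aut D l y) = (D.ρ ⟨_, hl'⟩).1 *ᵥ aut D g⁻¹ y := fun y => by
      rw [← aut_L, ← aut_mul (inv_mem hg) hl, ← aut_mul (D.le_Nm hl') (inv_mem hg)]
      simp
    rw [← aut_L, ← aut_L, h1, ← mulVec_smul, ← aut_L, ← aut_mul hg (D.le_Nm hl'),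
      ← aut_mul hl hg]
    simp [mul_assoc]
  choose α hα using key
  have h1 : ∀ c x, aut D g (c • x) = α c • aut D g x := fun c x => by
    rw [← hα, aut_inv_aut hg]
  have h2 : aut D g 1 ≠ 0 := (aut_eq_zero hg).not.2 one_ne_zero
  have h3 : ∀ {a b : F}, a • aut D g 1 = b • aut D g 1 → a = b := fun h =>
    smul_left_injective F h2 h
  refine ⟨⟨⟨⟨α, h3 ?_⟩, fun a b => h3 ?_⟩, h3 ?_, fun a b => h3 ?_⟩, h1⟩
  · rw [← h1, one_smul, one_smul]
  · simp only [← h1, mul_smul]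
  · change α 0 • _ = _
    rw [← h1, zero_smul, zero_smul, aut_eq_zero hg]
  · change α (a + b) • _ = (α a + α b) • _
    rw [← h1, add_smul, add_smul, aut_add hg, h1, h1]

theorem Semi.unique (hg : g ∈ Nm(V)) {σ τ : F →+* F} (h1 : Semi D g σ) (h2 : Semi D g τ) :
    σ = τ := RingHom.ext fun c =>
  smul_left_injective F ((aut_eq_zero hg).not.2 one_ne_zero) ((h1 c 1).symm.trans (h2 c 1))

theorem Semi.mul (hg : g ∈ Nm(V)) (hh : h ∈ Nm(V)) {σ τ : F →+* F} (h1 : Semi D g σ)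
    (h2 : Semi D h τ) : Semi D (g * h) (σ.comp τ) := fun c x => by
  rw [aut_mul hg hh, aut_mul hg hh, h2, h1]; rfl

theorem semi_L (l : L) : Semi D l (.id F) := fun c x => by
  rw [aut_L, aut_L, mulVec_smul]; rfl

variable (D) in
open Classical in
/-- the field automorphism induced by `g` -/
noncomputable def sig (g : X) : F →+* F := if h : ∃ σ, Semi D g σ then h.choose else .id F

theorem semi_sig (hg : g ∈ Nm(V)) (hL : g ∈ Nm(L)) : Semi D g (sig D g) := by
  rw [sig, dif_pos (exists_semi hg hL)]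
  exact (exists_semi hg hL).choose_spec

theorem sig_mul (hg : g ∈ Nm(V)) (hL : g ∈ Nm(L)) (hh : h ∈ Nm(V)) (hL' : h ∈ Nm(L)) :
    sig D (g * h) = (sig D g).comp (sig D h) :=
  (semi_sig (mul_mem hg hh) (mul_mem hL hL')).unique (mul_mem hg hh)
    ((semi_sig hg hL).mul hg hh (semi_sig hh hL'))

theorem sig_L (hg : g ∈ L) : sig D g = .id F :=
  (semi_sig (D.le_Nm hg) (le_normalizer hg)).unique (D.le_Nm hg) (semi_L ⟨g, hg⟩)

/-- a semilinear element fixing a line pointwise is linear -/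
theorem sig_eq_id_of_fix (hg : g ∈ Nm(V)) (hL : g ∈ Nm(L)) (h : ∀ b, D.v ![b, 0] ∈ Cx(g)) :
    sig D g = .id F := by
  ext c
  have h1 := semi_sig (D := D) hg hL c ![1, 0]
  rw [(aut_eq_self_iff hg _).2 (h 1), show c • ![(1 : F), 0] = ![c, 0] by simp,
    (aut_eq_self_iff hg _).2 (h c)] at h1
  simpa using (congrFun h1 0).symm

/-- a linear `p`-element normalizing the standard line is a transvection -/
theorem exists_slT_of_linear {p : ℕ} [Fact p.Prime] [CharP F p] (hg : g ∈ Nm(V))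
    (hs : Semi D g (.id F)) (h1 : aut D g ![1, 0] 1 = 0) {k : ℕ} (hk : g ^ p ^ k = 1) :
    ∃ ν, ∀ x, aut D g x = (slT ν).1 *ᵥ x := by
  have hx : ∀ x, aut D g x = ![aut D g ![1, 0] 0 * x 0 + aut D g ![0, 1] 0 * x 1,
      aut D g ![0, 1] 1 * x 1] := fun x => by
    conv_lhs => rw [show x = x 0 • ![1, 0] + x 1 • ![0, 1] by ext i; fin_cases i <;> simp,
      aut_add hg, hs, hs]
    ext i; fin_cases i
    · simp; ring
    · simp [h1, mul_comm]
  have h2 : ∀ n : ℕ, aut D (g ^ n) ![1, 0] = ![aut D g ![1, 0] 0 ^ n, 0] ∧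
      aut D (g ^ n) ![0, 1] 1 = aut D g ![0, 1] 1 ^ n := by
    intro n
    induction n with
    | zero => simp [aut_one]
    | succ n ih =>
      rw [pow_succ', aut_mul hg (pow_mem hg n), aut_mul hg (pow_mem hg n), ih.1, hx ![_, 0],
        hx (aut D (g ^ n) _)]
      simp [ih.2, pow_succ']
  have h3 := h2 (p ^ k)
  rw [hk, aut_one, aut_one] at h3
  have h4 := eq_one_of_pow_char_pow (by simpa using (congrFun h3.1 0).symm :
    aut D g ![1, 0] 0 ^ p ^ k = 1)
  have h5 := eq_one_of_pow_char_pow (by simpa using h3.2.symm : aut D g ![0, 1] 1 ^ p ^ k = 1)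
  refine ⟨aut D g ![0, 1] 0, fun x => ?_⟩
  rw [hx x, h4, h5, slT_mulVec, one_mul, one_mul]

end CfH2
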