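import Cfsg.Agent.OD.Pre
import Cfsg.Agent.H2.NatSemi

/-! A natural `SL₂(F)`-module whose acting group is normalized by a Sylow subgroup. -/

set_option autoImplicit false

namespace CfH2

open Subgroup Cfsg CfH9 CfH8 Matrix
open scoped commutatorElement MatrixGroups

variable {X : Type*} [Group X] {F : Type*} [Field F] {V L : Subgroup X}

/-- the setting -/
structure NCtx (p : ℕ) (D : NatD F V L) (G S U : Subgroup X) : Prop where
  hGV : G ≤ Nm(V)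
  hf : G ⊓ Cz(V) = ⊥
  hLG : L ≤ G
  syl : SylIn p S G
  hSL : S ≤ Nm(L)
  hU : S ⊓ L = U
  std : D.Std U

/-- the stability group of the chain `V ≥ W ≥ 1` -/
def chainStab (V W : Subgroup X) : Subgroup X where
  carrier := {t | t ∈ Cz(W) ∧ ∀ y ∈ V, t * y * t⁻¹ * y⁻¹ ∈ W}
  one_mem' := ⟨one_mem _, fun y _ => by simp⟩
  mul_mem' := by
    rintro s t ⟨hs, hs'⟩ ⟨ht, ht'⟩
    refine ⟨mul_mem hs ht, fun y hy => ?_⟩
    have := mul_mem (conj_mem_of_mem_normalizer (Cz_le_Nm _ hs) (ht' y hy)) (hs' y hy)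
    convert this using 1; group
  inv_mem' := by
    rintro t ⟨ht, ht'⟩
    refine ⟨inv_mem ht, fun y hy => ?_⟩
    have := conj_mem_of_mem_normalizer' (Cz_le_Nm _ ht) (inv_mem (ht' y hy))
    convert this using 1; group

theorem mem_chainStab {W : Subgroup X} {t : X} :
    t ∈ chainStab V W ↔ t ∈ Cz(W) ∧ ∀ y ∈ V, t * y * t⁻¹ * y⁻¹ ∈ W := Iff.rfl

theorem mem_Nm_chainStab [Finite X] {W : Subgroup X} {g : X} (h1 : g ∈ Nm(V)) (h2 : g ∈ Nm(W)) :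
    g ∈ Nm(chainStab V W) := by
  refine mem_normalizer_of_conj_mem fun t ht =>
    ⟨conj_mem_of_mem_normalizer (mem_Nm_Cz h2) ht.1, fun y hy => ?_⟩
  have := conj_mem_of_mem_normalizer h2 (ht.2 _ (conj_mem_of_mem_normalizer' h1 hy))
  convert this using 1; group

theorem pow_mem_Cz_of_chainStab {W : Subgroup X} {t : X} {n : ℕ} (ht : t ∈ chainStab V W)
    (hW : ∀ w ∈ W, w ^ n = 1) : t ^ n ∈ Cz(V) := by
  refine mem_centralizer_of_conj_eq fun y hy => ?_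
  have h1 : ∀ k : ℕ, t ^ k * y * (t ^ k)⁻¹ = (t * y * t⁻¹ * y⁻¹) ^ k * y := by
    intro k
    induction k with
    | zero => simp
    | succ k ih =>
      have h2 := conj_eq_of_mem_centralizer ht.1 (pow_mem (ht.2 y hy) k)
      rw [pow_succ', pow_succ, ← h2, show t * t ^ k * y * (t * t ^ k)⁻¹ =
        t * (t ^ k * y * (t ^ k)⁻¹) * t⁻¹ by group, ih]
      group
  rw [h1, hW _ (ht.2 y hy), one_mul]

/-- strong closure of `U` in `S` -/
def StCl (G S U : Subgroup X) : Prop := ∀ g ∈ G, ∀ u ∈ U, g * u * g⁻¹ ∈ S → g * u * g⁻¹ ∈ U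

namespace NCtx

variable {p : ℕ} {D : NatD F V L} {G S U : Subgroup X} (c : NCtx p D G S U)
include c

theorem eq_one {g : X} (hg : g ∈ G) (h : g ∈ Cz(V)) : g = 1 := by
  have := mi hg h
  rwa [c.hf, mem_bot] at this

theorem eq_of_aut {g h : X} (hg : g ∈ G) (hh : h ∈ G) (e : ∀ x, aut D g x = aut D h x) : g = h := by
  have hh' := c.hGV hh
  refine (inv_mul_eq_one.1 (c.eq_one (mul_mem (inv_mem hh) hg) (mem_Cz_of_aut (D := D)
    (c.hGV (mul_mem (inv_mem hh) hg)) fun x => ?_))).symm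
  rw [aut_mul (inv_mem hh') (c.hGV hg), e, aut_inv_aut hh']

theorem hUS : U ≤ S := c.hU ▸ inf_le_left
theorem hUG : U ≤ G := c.hUS.trans c.syl.le
theorem hSV : S ≤ Nm(V) := c.syl.le.trans c.hGV

theorem S_le_NmU : S ≤ Nm(U) := fun _ hs => c.hU ▸ mem_Nm_inf (le_normalizer hs) (c.hSL hs)

theorem mem_NmW {g : X} (hg : g ∈ G) (h : g ∈ Nm(U)) : g ∈ Nm(V ⊓ Cz(U)) :=
  mem_Nm_inf (c.hGV hg) (mem_Nm_Cz h)

theorem S_le_NmW : S ≤ Nm(V ⊓ Cz(U)) := fun _ hs => c.mem_NmW (c.syl.le hs) (c.S_le_NmU hs)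

theorem hLf : L ⊓ Cz(V) = ⊥ := eq_bot_iff.2 ((inf_le_inf_right _ c.hLG).trans c.hf.le)

theorem card_U : Nat.card U = Nat.card F := by
  have h1 : Nat.card (slTs F) = Nat.card F :=
    (Nat.card_congr (Equiv.ofBijective (fun a : F => (⟨slT a, a, rfl⟩ : slTs F))
      ⟨fun a b h => slT_inj (congrArg Subtype.val h), fun a => a.2.imp fun _ h =>
        Subtype.ext h.symm⟩)).symm
  rw [← h1, ← c.std.2, card_map_of_injective (D.ρ_injective c.hLf), card_subgroupOf c.std.1]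

theorem comm_U {a b : X} (ha : a ∈ U) (hb : b ∈ U) : a * b = b * a := by
  obtain ⟨x, hx⟩ := c.std.exists_eq (l := ⟨a, c.std.1 ha⟩) ha
  obtain ⟨y, hy⟩ := c.std.exists_eq (l := ⟨b, c.std.1 hb⟩) hb
  refine congrArg Subtype.val (D.ρ_injective c.hLf (a₁ := ⟨a, c.std.1 ha⟩ * ⟨b, c.std.1 hb⟩)
    (a₂ := ⟨b, c.std.1 hb⟩ * ⟨a, c.std.1 ha⟩) ?_)
  rw [map_mul, map_mul, hx, hy, slT_mul, slT_mul, add_comm]

theorem pow_U [CharP F p] {a : X} (ha : a ∈ U) : a ^ p = 1 := by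
  refine congrArg Subtype.val (D.ρ_injective c.hLf (a₁ := ⟨a, c.std.1 ha⟩ ^ p) (a₂ := 1) ?_)
  rw [map_pow, map_one]
  exact pow_char_of_mem_slTs p (c.std.exists_eq (l := ⟨a, c.std.1 ha⟩) ha)

theorem inf_Cx_cj {g t : X} (hg : g ∈ G) (ht : t ∈ cj g U) (h1 : t ≠ 1) :
    V ⊓ Cx(t) = cj g (V ⊓ Cz(U)) := by
  obtain ⟨u, hu, rfl⟩ := mem_cj'.1 ht
  rw [← c.std.inf_Cx hu fun h => h1 (by rw [c.eq_one (c.hUG hu) h]; simp), cj_inf, cj_Cx,
    cj_eq_of_mem_normalizer (c.hGV hg)]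

theorem inf_Cx {t : X} (ht : t ∈ U) (h1 : t ≠ 1) : V ⊓ Cx(t) = V ⊓ Cz(U) :=
  c.std.inf_Cx ht fun h => h1 (c.eq_one (c.hUG ht) h)

variable [Fact p.Prime] [CharP F p]

theorem mem_U_of_sig {s : X} (hs : s ∈ S) (h : sig D s = .id F) : s ∈ U := by
  have hV := c.hSV hs
  obtain ⟨k, hk⟩ := isPGroup_iff_mem.1 c.syl.pgrp s hs
  obtain ⟨ν, hν⟩ := exists_slT_of_linear hV (h ▸ semi_sig hV (c.hSL hs)) (by
    rw [← c.std.v_mem_Cz, v_aut hV]
    exact mi2 (conj_mem_of_mem_normalizer (c.S_le_NmW hs) (c.std.mem_W.2 ⟨1, rfl⟩))) hk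
  obtain ⟨u, hu, e⟩ := c.std.exists_mem ν
  rwa [c.eq_of_aut (c.syl.le hs) (c.hUG hu) fun x => by rw [hν, aut_L, e]]

theorem mem_U_of_Cz {s : X} (hs : s ∈ S) (h : s ∈ Cz(V ⊓ Cz(U))) : s ∈ U :=
  c.mem_U_of_sig hs (sig_eq_id_of_fix (c.hSV hs) (c.hSL hs) fun b =>
    mem_Cx.2 (h _ (c.std.mem_W.2 ⟨b, rfl⟩)))

theorem stCl_of_two_ne (h2 : (2 : F) ≠ 0) : StCl G S U := by
  intro g hg u hu ht
  have hg' := c.hGV hg
  have htV := c.hSV ht
  obtain ⟨a, ha⟩ := c.std.exists_eq (l := ⟨u, c.std.1 hu⟩) hu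
  have h1 : ∀ x, aut D (g * u * g⁻¹) (aut D g x) = aut D g ((slT a).1 *ᵥ x) := fun x => by
    rw [← ha, ← aut_L, ← aut_mul htV hg', ← aut_mul hg' (c.hGV (c.hUG hu))]
    simp
  have h3 : aut D (g * u * g⁻¹) (aut D g ![1, 0]) = aut D g ![1, 0] := by
    rw [h1, slT_mulVec]; simp
  have h4 : ∀ y, aut D (g * u * g⁻¹) (aut D (g * u * g⁻¹) y - y) = aut D (g * u * g⁻¹) y - y := by
    intro y
    rw [← aut_aut_inv (D := D) hg' y, h1, ← aut_sub hg', h1, slT_mulVec, slT_mulVec]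
    congr 1
    ext i; fin_cases i <;> simp
  refine c.mem_U_of_sig ht (ringHom_eq_id_of_sq h2 fun b => ?_)
  have h5 := semi_sig (D := D) htV (c.hSL ht)
  have h6 := h4 (b • aut D g ![1, 0])
  rw [h5, h3, ← sub_smul, h5, h3] at h6
  exact smul_left_injective F ((aut_eq_zero hg').not.2 (by simp)) h6

variable [Finite X]

theorem NmW_le {g : X} (hg : g ∈ G) (h : g ∈ Nm(V ⊓ Cz(U))) : g ∈ Nm(U) := by
  have key : ∀ g ∈ G, g ∈ Nm(V ⊓ Cz(U)) → g ∈ Nm(G ⊓ chainStab V (V ⊓ Cz(U))) := fun g hg h =>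
    mem_Nm_inf (le_normalizer hg) (mem_Nm_chainStab (c.hGV hg) h)
  have h1 : G ⊓ chainStab V (V ⊓ Cz(U)) = U := by
    refine le_antisymm (fun t ht => c.mem_U_of_Cz (c.syl.le_of_le_Nm ?_ inf_le_left
      (fun s hs => key s (c.syl.le hs) (c.S_le_NmW hs)) ht) (mi2 ht).1) fun u hu =>
      mi (c.hUG hu) ⟨fun w hw => (mi2 hw u hu).symm, fun y hy => ?_⟩
    · refine isPGroup_iff_mem.2 fun t ht => ⟨1, c.eq_one (pow_mem (mi1 ht) _) ?_⟩
      exact pow_mem_Cz_of_chainStab (mi2 ht) fun w hw => by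
        rw [pow_one]; exact (D.elemAb p).2 w (mi1 hw)
    · exact c.std.commutator_le (Subgroup.commutator_comm U V ▸ commutator_mem_commutator hu hy)
  exact h1 ▸ key g hg h

omit [Fact p.Prime] [CharP F p] [Finite X] in
theorem sylM : SylIn p S (G ⊓ Nm(V ⊓ Cz(U))) :=
  c.syl.mono (le_inf c.syl.le c.S_le_NmW) inf_le_left

theorem cj_eq_of_stCl (h : StCl G S U) {g u : X} (hg : g ∈ G) (hu : u ∈ U) (h1 : u ≠ 1)
    (hn : u ∈ Nm(cj g (V ⊓ Cz(U)))) : cj g (V ⊓ Cz(U)) = V ⊓ Cz(U) := by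
  rw [← cj_normalizer, mem_cj] at hn
  obtain ⟨a, ha, e⟩ := c.sylM.exists_conj_mem (x := g⁻¹ * u * g) (k := 1)
    (mi (mul_mem (mul_mem (inv_mem hg) (c.hUG hu)) hg) hn) (by
      rw [pow_one, show g⁻¹ * u * g = g⁻¹ * u * g⁻¹⁻¹ by simp, conj_pow, c.pow_U hu]; simp)
  have h2 := h (a * g⁻¹) (mul_mem (mi1 ha) (inv_mem hg)) u hu (by convert e using 1; group)
  have h3 := conj_mem_of_mem_normalizer' (c.NmW_le (mi1 ha) (mi2 ha)) h2
  rw [← c.inf_Cx_cj hg (mem_cj.2 (by convert h3 using 1; group)) h1, c.inf_Cx hu h1]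

theorem ti_of_stCl (h : StCl G S U) {g : X} (hg : g ∈ G)
    (hne : V ⊓ Cz(U) ⊓ cj g (V ⊓ Cz(U)) ≠ ⊥) : cj g (V ⊓ Cz(U)) = V ⊓ Cz(U) := by
  set W := V ⊓ Cz(U) with hW
  by_contra hg'
  obtain ⟨I, ⟨g, hg, hg', rfl, hne⟩, hmax⟩ := exists_max_card
    (fun I => ∃ g ∈ G, cj g W ≠ W ∧ I = W ⊓ cj g W ∧ I ≠ ⊥) ⟨_, g, hg, hg', rfl, hne⟩
  have hle : cj g W ≤ V := by
    rw [← cj_eq_of_mem_normalizer (c.hGV hg)]; exact cj_mono g inf_le_left
  obtain ⟨x, hx, hxW⟩ : ∃ x ∈ cj g W, x ∉ W := by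
    by_contra hn
    push Not at hn
    exact hg' (eq_of_le_of_card_ge hn (card_cj g W).ge)
  obtain ⟨y, hy, hy1⟩ := exists_ne_one_of_ne_bot hne
  obtain ⟨t, ht, e⟩ := c.std.exists_commutator (hle hx) (fun h => hxW (mi (hle hx) h)) (mi1 hy)
  have ht1 : t ≠ 1 := by rintro rfl; exact hy1 (by simpa using e)
  refine hg' (c.cj_eq_of_stCl h hg ht ht1 ?_)
  by_contra htn
  have h1 : x ∈ cj t⁻¹ (cj g W) := by
    rw [mem_cj_inv]
    have := inv_mem (mul_mem (inv_mem hx) (mi2 hy))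
    convert this using 1
    rw [e, commutatorElement_def]; group
  have h2 : W ⊓ cj g W ≤ cj t⁻¹ (cj g W) := fun z hz => by
    rw [mem_cj_inv, ← mem_Cx.1 (Cz_le_Cx ht (mi2 (mi1 hz))), mul_inv_cancel_right]
    exact mi2 hz
  have h3 : W ⊓ cj g W < cj g W ⊓ cj t⁻¹ (cj g W) :=
    lt_of_le_of_ne (le_inf inf_le_right h2) fun h => hxW (mi1 (h.ge (mi hx h1)))
  have h4 := hmax (W ⊓ cj (g⁻¹ * t⁻¹ * g) W) ⟨_, mul_mem (mul_mem (inv_mem hg)
    (inv_mem (c.hUG ht))) hg, fun h => htn ?_, rfl, fun h => ?_⟩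
  · rw [← card_cj g, cj_inf, ← cj_mul, show g * (g⁻¹ * t⁻¹ * g) = t⁻¹ * g by group, cj_mul] at h4
    exact absurd (CfH9.card_lt_of_lt h3) (not_lt.2 h4)
  · rw [← inv_mem_iff, mem_normalizer_iff_cj, ← cj_mul,
      show t⁻¹ * g = g * (g⁻¹ * t⁻¹ * g) by group, cj_mul, h]
  · rw [← cj_eq_bot_iff (g := g), cj_inf, ← cj_mul, show g * (g⁻¹ * t⁻¹ * g) = t⁻¹ * g by group,
      cj_mul] at h
    exact not_lt_bot (h ▸ h3)

theorem le_Nm_of_stCl (h : StCl G S U) : G ≤ Nm(L) := by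
  have hW : ∀ g, cj g (V ⊓ Cz(U)) ≠ ⊥ := fun g => cj_ne_bot (ne_bot_of_mem
    (c.std.mem_W.2 ⟨1, rfl⟩) (by rw [Ne, D.v_eq_one]; simp))
  have key : ∀ g ∈ G, cj g U ≤ L := fun g hg => by
    obtain ⟨y, hy, hy1⟩ := exists_ne_one_of_ne_bot (hW g)
    obtain ⟨w, hw, hw1⟩ := exists_ne_one_of_ne_bot (hW 1)
    rw [cj_one] at hw
    have hle : cj g (V ⊓ Cz(U)) ≤ V :=
      (cj_mono g inf_le_left).trans (cj_eq_of_mem_normalizer (c.hGV hg)).le
    obtain ⟨l, hl, e⟩ := D.exists_conj (hle hy) (mi1 hw) hy1 hw1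
    have hlg := mul_mem (c.hLG hl) hg
    have h1 := c.ti_of_stCl h hlg (ne_bot_of_mem (mi hw (by
      rw [cj_mul, ← e]; exact conj_mem_cj l hy)) hw1)
    have h2 := cj_eq_of_mem_normalizer (c.NmW_le hlg (mem_normalizer_iff_cj.2 h1))
    rw [cj_mul, cj_eq_iff] at h2
    rw [h2, ← cj_eq_of_mem (inv_mem hl)]
    exact cj_mono _ c.std.1
  intro g hg
  refine mem_normalizer_of_conj_mem fun l hl => ?_
  have hT : ∀ (s : SL(2, F)) (a : F) (l : L), D.ρ l = s * slT a * s⁻¹ → g * l * g⁻¹ ∈ L := by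
    intro s a l e
    obtain ⟨m, rfl⟩ := D.surj s
    obtain ⟨u, hu, e'⟩ := c.std.exists_mem a
    rw [← e', ← map_inv, ← map_mul, ← map_mul] at e
    rw [D.ρ_injective c.hLf e]
    have := key (g * m) (mul_mem hg (c.hLG m.2)) (conj_mem_cj _ hu)
    convert this using 1
    simp [mul_assoc]
  refine Matrix.SL2.transvection_induction (fun s => ∀ l : L, D.ρ l = s → g * l * g⁻¹ ∈ L)
    ?_ ?_ _ ⟨l, hl⟩ rfl
  · intro i j hij a l e
    fin_cases i <;> fin_cases j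
    · exact absurd rfl hij
    · refine hT 1 a l (e.trans ?_)
      ext i j
      fin_cases i <;> fin_cases j <;> simp [SpecialLinearGroup.transvection_coe, slT_val]
    · refine hT ⟨!![0, -1; 1, 0], by simp [det_fin_two]⟩ (-a) l
        (e.trans (eq_mul_inv_of_mul_eq (Subtype.ext ?_)))
      change ((1 : Matrix (Fin 2) (Fin 2) F) + single 1 0 a) * !![0, -1; 1, 0] =
        !![0, -1; 1, 0] * !![1, -a; 0, 1]
      ext i j
      fin_cases i <;> fin_cases j <;> simp [Matrix.mul_apply, Fin.sum_univ_two]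
    · exact absurd rfl hij
  · intro A B hA hB l e
    obtain ⟨a, rfl⟩ := D.surj A
    obtain ⟨b, rfl⟩ := D.surj B
    rw [D.ρ_injective c.hLf (e.trans (map_mul _ _ _).symm)]
    have := mul_mem (hA a rfl) (hB b rfl)
    convert this using 1
    simp [mul_assoc]

end NCtx

namespace NCtx

variable {D : NatD F V L} {G S U : Subgroup X} (c : NCtx 2 D G S U) [CharP F 2] [Finite X]
include c

theorem mul_mem_U {a b : X} (ha : a ∈ S) (hb : b ∈ S) (haU : a ∉ U) (hbU : b ∉ U)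
    (ha2 : (sig D a).comp (sig D a) = .id F) (hb2 : (sig D b).comp (sig D b) = .id F) :
    a * b ∈ U := by
  have : Finite (Fin 2 → F) := Finite.of_injective _ D.inj
  have : Finite F := Finite.of_injective (fun a : F => (fun _ => a : Fin 2 → F))
    fun a b h => congrFun h 0
  refine c.mem_U_of_sig (mul_mem ha hb) ?_
  rw [sig_mul (c.hSV ha) (c.hSL ha) (c.hSV hb) (c.hSL hb), ringHom_invol_unique ha2 hb2
    (fun h => haU (c.mem_U_of_sig ha h)) (fun h => hbU (c.mem_U_of_sig hb h)), hb2]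

theorem card_le_two {T : Subgroup X} (hT : T ≤ S) (hTU : T ⊓ U = ⊥) (h2 : ∀ a ∈ T, a ^ 2 = 1) :
    Nat.card T ≤ 2 := by
  have key : ∀ a ∈ T, (sig D a).comp (sig D a) = .id F := fun a ha => by
    rw [← sig_mul (c.hSV (hT ha)) (c.hSL (hT ha)) (c.hSV (hT ha)) (c.hSL (hT ha)), ← sq, h2 a ha,
      sig_L (one_mem _)]
  have h3 : ∀ a ∈ T, a ∈ U → a = 1 := fun a ha hU => by
    have := mi ha hU
    rwa [hTU, mem_bot] at this
  by_contra hn
  have := Fintype.ofFinite T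
  rw [Nat.card_eq_fintype_card, not_le] at hn
  obtain ⟨a, b, hab, ha, hb⟩ : ∃ a b : T, a ≠ b ∧ a ≠ 1 ∧ b ≠ 1 := by
    obtain ⟨x, y, z, h1, h2, h3⟩ := Fintype.two_lt_card_iff.1 hn
    by_cases hx : x = 1
    · exact ⟨y, z, h3, hx ▸ h1.symm, hx ▸ h2.symm⟩
    by_cases hy : y = 1
    · exact ⟨x, z, h2, hx, hy ▸ h3.symm⟩
    exact ⟨x, y, h1, hx, hy⟩
  have h4 := h3 _ (mul_mem a.2 b.2) (c.mul_mem_U (hT a.2) (hT b.2)
    (fun h => ha (Subtype.ext (h3 _ a.2 h))) (fun h => hb (Subtype.ext (h3 _ b.2 h)))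
    (key _ a.2) (key _ b.2))
  refine hab (Subtype.ext (mul_right_cancel (h4.trans ?_)))
  rw [← sq, h2 _ b.2]

theorem stCl_or [Fintype F] : StCl G S U ∨ (Fintype.card F = 4 ∧ Nat.card S = 8) := by
  refine or_iff_not_imp_left.2 fun hn => ?_
  simp only [StCl, not_forall] at hn
  obtain ⟨g, hg, u, hu, ht, htU⟩ := hn
  set t := g * u * g⁻¹ with htd
  have ht1 : t ≠ 1 := fun h => htU (h ▸ one_mem _)
  have ht2 : t * t = 1 := by rw [← sq, htd, conj_pow, c.pow_U hu]; simp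
  have hW := c.inf_Cx_cj hg (conj_mem_cj g hu) ht1
  have hT : cj g⁻¹ (U ⊓ Cx(t)) ≤ G ⊓ Nm(V ⊓ Cz(U)) := by
    rw [cj_le_iff, inv_inv, cj_inf, cj_normalizer, ← hW, cj_eq_of_mem hg]
    refine fun x hx => mi (c.hUG (mi1 hx)) (mem_Nm_inf (c.hGV (c.hUG (mi1 hx))) ?_)
    rw [mem_normalizer_iff_cj, cj_Cx, mem_Cx'.1 (mi2 hx)]
  have hTU : cj g⁻¹ (U ⊓ Cx(t)) ⊓ U = ⊥ := by
    rw [← cj_eq_bot_iff (g := g), cj_inf, cj_cj_inv, eq_bot_iff]
    intro y hy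
    by_contra hy1
    have h1 := (c.inf_Cx_cj hg (mi2 hy) hy1).symm.trans (c.inf_Cx (mi1 (mi1 hy)) hy1)
    refine htU (c.mem_U_of_Cz ht ?_)
    rw [← h1, ← hW]
    exact le_Cx_iff.1 inf_le_right
  obtain ⟨a, ha, haS⟩ := c.sylM.exists_cj_le (isPGroup_cj ((c.syl.pgrp.to_le c.hUS).to_inf_left) _) hT
  have h2 : Nat.card (U ⊓ Cx(t) : Subgroup X) ≤ 2 := by
    rw [← card_cj g⁻¹, ← card_cj a]
    refine c.card_le_two haS ?_ fun x hx => ?_
    · rw [← cj_eq_of_mem_normalizer (c.NmW_le (mi1 ha) (mi2 ha)), ← cj_inf]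
      rw [cj_eq_of_mem_normalizer (c.NmW_le (mi1 ha) (mi2 ha)), hTU, cj_bot]
    · rw [← cj_mul, mem_cj'] at hx
      obtain ⟨y, hy, rfl⟩ := hx
      rw [conj_pow, c.pow_U (mi1 hy)]; simp
  have htN := c.S_le_NmU ht
  let f : U →* X := MonoidHom.mk' (fun x => t * x * t⁻¹ * x) fun x y => by
    have := c.comm_U x.2 (conj_mem_of_mem_normalizer htN y.2)
    simp only [coe_mul]
    rw [show t * x * t⁻¹ * x * (t * y * t⁻¹ * y) = t * x * t⁻¹ * (x * (t * y * t⁻¹)) * y by group,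
      this]
    group
  have hinv : ∀ x ∈ U, x * x = 1 := fun x hx => by rw [← sq, c.pow_U hx]
  have h3 : f.range ≤ U ⊓ Cx(t) := by
    rintro _ ⟨x, rfl⟩
    refine mi (mul_mem (conj_mem_of_mem_normalizer htN x.2) x.2) (mem_Cx.2 ?_)
    change t * x * t⁻¹ * x * t = t * (t * x * t⁻¹ * x)
    have h5 := c.comm_U x.2 (conj_mem_of_mem_normalizer htN x.2)
    rw [← h5]
    conv_rhs => rw [h5]
    have h6 : t⁻¹ = t := inv_eq_of_mul_eq_one_right ht2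
    rw [h6]
    calc x * (t * x * t) * t = x * t * x * (t * t) := by group
      _ = (t * t) * (x * t * x) := by rw [ht2]; group
      _ = _ := by group
  have h4 : f.ker.map U.subtype ≤ U ⊓ Cx(t) := by
    rintro _ ⟨x, hx, rfl⟩
    refine mi x.2 (mem_Cx.2 ?_)
    have h5 : t * x * t⁻¹ * x = 1 := hx
    rw [← hinv x x.2, mul_right_cancel_iff, mul_inv_eq_iff_eq_mul] at h5
    exact h5.symm
  have h5 : Fintype.card F ≤ 4 := by
    have h6 := f.ker.card_mul_index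
    rw [index_ker, c.card_U, Nat.card_eq_fintype_card (α := F), ← card_map_subtype] at h6
    have h7 := (card_le_of_le h3).trans h2
    have h8 := (card_le_of_le h4).trans h2
    exact h6 ▸ Nat.mul_le_mul h8 h7
  obtain ⟨n, -, hn⟩ := FiniteField.card F 2
  have h6 : Fintype.card F = 4 := by
    have h7 : Fintype.card F ≠ 2 := fun h => htU (c.mem_U_of_sig ht (ringHom_eq_id_of_card_two h _))
    obtain ⟨n, hn0⟩ := n
    have h8 : n < 3 := (Nat.pow_lt_pow_iff_right one_lt_two).1 ((hn.symm.le.trans h5).trans_lt (by norm_num))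
    interval_cases n <;> simp_all
  refine ⟨h6, ?_⟩
  have h7 : U.relIndex S = 2 := relIndex_eq_two_iff_exists_notMem_and.2 ⟨t, ht, htU, fun b hb =>
    or_iff_not_imp_right.2 fun hbU => c.mul_mem_U hb ht hbU htU (ringHom_sq_of_card_four h6 _)
      (ringHom_sq_of_card_four h6 _)⟩
  rw [← card_mul_relIndex c.hUS, h7, c.card_U, Nat.card_eq_fintype_card, h6]

end NCtx

end CfH2
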