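import Cfsg.Agent.H3.QK0
import Cfsg.Agent.H2.Iv2
import Cfsg.Agent.H4.GlAut
import Cfsg.Agent.H8.Coprime2

/-! Abstract tools for the rank witnesses; `Out` of a rank two group in characteristic two. -/

set_option autoImplicit false
set_option linter.unusedVariables false
set_option linter.unusedSectionVars false
open Cfsg Subgroup CfH9 CfH3.QK
open scoped Pointwise commutatorElement

namespace CfH2
namespace Qc

variable {G : Type*} [Group G] {p : ℕ}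

theorem dvd_of_inv (hp : p.Prime) (h2 : p ≠ 2) {g : G} {a : ℕ} (h1 : g ^ p = 1) (hn : g ≠ 1)
    (e : g ^ a * g ^ a = 1) : p ∣ a := by
  have : Fact p.Prime := ⟨hp⟩
  rw [← pow_add, ← two_mul] at e
  have := orderOf_dvd_of_pow_eq_one e
  rw [orderOf_eq_prime h1 hn] at this
  exact ((Nat.Prime.dvd_mul hp).1 this).resolve_left fun h =>
    h2 ((Nat.prime_dvd_prime_iff_eq hp Nat.prime_two).1 h)

theorem rt_es (hp : p.Prime) (h2 : p ≠ 2) {x y z s t : G} (a1 : x ^ p = 1) (a2 : y ^ p = 1)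
    (a3 : z ^ p = 1) (n1 : x ≠ 1) (n2 : y ≠ 1) (n3 : z ≠ 1) (b1 : Commute x y) (b2 : Commute x z)
    (b3 : Commute y z) (sx : s * x * s⁻¹ = x⁻¹) (sy : s * y * s⁻¹ = y⁻¹) (sz : s * z * s⁻¹ = z)
    (tx : t * x * t⁻¹ = x⁻¹) (ty : t * y * t⁻¹ = y) (tz : t * z * t⁻¹ = z⁻¹) : RT p G := by
  have : Fact p.Prime := ⟨hp⟩
  refine ⟨x, y, z, a1, a2, a3, b1, b2, b3, isConj_iff.2 ⟨s, sx⟩, isConj_iff.2 ⟨s, sy⟩,
    isConj_iff.2 ⟨t, tz⟩, fun a b c e => ?_⟩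
  have k : ∀ {g u w : G}, u * w = 1 → g * u * g⁻¹ = u⁻¹ → g * w * g⁻¹ = w → w * w = 1 := by
    intro g u w h1 h2 h3
    obtain rfl : u = w⁻¹ := eq_inv_of_mul_eq_one_left h1
    rw [← conj_inv, h3] at h2
    exact mul_eq_one_iff_eq_inv.2 (inv_injective h2)
  have hc : p ∣ c := dvd_of_inv hp h2 a3 n3 (k (g := s) e (by
    rw [← conj_mul, ← conj_pow, ← conj_pow, sx, sy, inv_pow, inv_pow, ← mul_inv_rev,
      (b1.pow_pow a b).eq]) (by rw [← conj_pow, sz]))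
  have zc : z ^ c = 1 := by obtain ⟨k, rfl⟩ := hc; rw [pow_mul, a3, one_pow]
  rw [zc, mul_one] at e
  have hb : p ∣ b := dvd_of_inv hp h2 a2 n2 (k (g := t) e (by rw [← conj_pow, tx, inv_pow])
    (by rw [← conj_pow, ty]))
  have yb : y ^ b = 1 := by obtain ⟨k, rfl⟩ := hb; rw [pow_mul, a2, one_pow]
  rw [yb, mul_one] at e
  exact ⟨by have := orderOf_dvd_of_pow_eq_one e; rwa [orderOf_eq_prime a1 n1] at this, hb, hc⟩

/-- the standard generators of an image of `SL₂(ℤ)` killing the sixth power -/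
structure BP (a b : G) : Prop where
  br : a * b * a = b * a * b
  six : (a * b * a * b) ^ 3 = 1
  ne : a ≠ b

def Cm (a b c d : G) : Prop := Commute a c ∧ Commute a d ∧ Commute b c ∧ Commute b d

theorem Cm.l {a b c d : G} (h : Cm a b c d) : Commute a (c * d * c * d) :=
  ((h.1.mul_right h.2.1).mul_right h.1).mul_right h.2.1

theorem Cm.symm {a b c d : G} (h : Cm a b c d) : Cm c d a b :=
  ⟨h.1.symm, h.2.2.1.symm, h.2.1.symm, h.2.2.2.symm⟩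

theorem Cm.c {a b c d : G} (h : Cm a b c d) : Commute (a * b * a * b) (c * d * c * d) := by
  have k : Commute b (c * d * c * d) := Cm.l (b := a) ⟨h.2.2.1, h.2.2.2, h.1, h.2.1⟩
  exact ((h.l.mul_left k).mul_left h.l).mul_left k

theorem BP.nc {a b : G} (h : BP a b) (e : Commute a (a * b * a * b)) : False := by
  refine h.ne (mul_left_cancel (a := a * b * a * b) ?_)
  rw [← e.eq]
  have k : a * b * a * b * b = a * (b * a * b) * b := by group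
  rw [k, ← h.br]; group

theorem BP.dvd {a b : G} (h : BP a b) {n : ℕ} (e : Commute a ((a * b * a * b) ^ n)) : 3 ∣ n := by
  rw [← Nat.div_add_mod n 3, pow_add, pow_mul, h.six, one_pow, one_mul] at e
  have : n % 3 = 0 ∨ n % 3 = 1 ∨ n % 3 = 2 := by omega
  rcases this with k | k | k
  · omega
  · rw [k, pow_one] at e; exact (h.nc e).elim
  · rw [k] at e
    refine (h.nc ?_).elim
    have := e.pow_right 2
    rwa [← pow_mul, show 2 * 2 = 3 + 1 from rfl, pow_add, h.six, one_mul, pow_one] at this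

theorem BP.conj {a b h : G} (h1 : h * a * h⁻¹ = a⁻¹) (h2 : h * b * h⁻¹ = b⁻¹) :
    IsConj (a * b * a * b) (a * b * a * b)⁻¹ := by
  refine isConj_iff.2 ⟨a * h, ?_⟩
  have : a * h * (a * b * a * b) * (a * h)⁻¹ = a * ((h * a * h⁻¹) * (h * b * h⁻¹) * (h * a * h⁻¹) *
    (h * b * h⁻¹)) * a⁻¹ := by group
  rw [this, h1, h2]; group

theorem rt_braid {a b c d e f : G} (h1 : BP a b) (h2 : BP c d) (h3 : BP e f) (k1 : Cm a b c d)
    (k2 : Cm a b e f) (k3 : Cm c d e f) (i1 : ∃ h, h * a * h⁻¹ = a⁻¹ ∧ h * b * h⁻¹ = b⁻¹)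
    (i2 : ∃ h, h * c * h⁻¹ = c⁻¹ ∧ h * d * h⁻¹ = d⁻¹)
    (i3 : ∃ h, h * e * h⁻¹ = e⁻¹ ∧ h * f * h⁻¹ = f⁻¹) : RT 3 G := by
  obtain ⟨_, i1, j1⟩ := i1
  obtain ⟨_, i2, j2⟩ := i2
  obtain ⟨_, i3, j3⟩ := i3
  refine ⟨_, _, _, h1.six, h2.six, h3.six, k1.c, k2.c, k3.c, BP.conj i1 j1, BP.conj i2 j2,
    BP.conj i3 j3, fun l m n q => ⟨h1.dvd ?_, h2.dvd ?_, h3.dvd ?_⟩⟩
  · rw [mul_assoc, mul_eq_one_iff_eq_inv] at q
    rw [q]; exact ((k1.l.pow_right m).mul_right (k2.l.pow_right n)).inv_right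
  · rw [(k1.c.pow_pow l m).eq, mul_assoc, mul_eq_one_iff_eq_inv] at q
    rw [q]; exact ((k1.symm.l.pow_right l).mul_right (k3.l.pow_right n)).inv_right
  · rw [mul_eq_one_iff_inv_eq] at q
    rw [← q]; exact ((k2.symm.l.pow_right l).mul_right (k3.symm.l.pow_right m)).inv_right

theorem BP.ne1 {a b : G} (h : BP a b) : a * b * a * b ≠ 1 := fun e => h.nc (e ▸ Commute.one_right a)

theorem r2_braid [Finite G] {a b c d : G} (h1 : BP a b) (h2 : BP c d) (k : Cm a b c d) :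
    PRankAtLeast 3 2 G :=
  rank2_of Nat.prime_three h1.six h2.six h1.ne1 k.c fun ⟨n, hn⟩ =>
    h2.nc (by rw [← hn]; exact k.symm.l.zpow_right n)

theorem r2_dih [Finite G] (hp : p.Prime) (h2 : p ≠ 2) {a b c d : G} (a2 : a * a = 1) (b2 : b * b = 1)
    (c2 : c * c = 1) (d2 : d * d = 1) (h1 : (a * b) ^ p = 1) (h3 : (c * d) ^ p = 1) (n1 : a * b ≠ 1)
    (n2 : c * d ≠ 1) (k : Cm a b c d) : PRankAtLeast p 2 (commutator G) := by
  have k1 := k.1.mul_right k.2.1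
  have m : ∀ {a b : G}, a * a = 1 → b * b = 1 → (a * b) ^ p = 1 → a * b ∈ commutator G := by
    intro a b a2 b2 h
    obtain ⟨j, hj⟩ := hp.odd_of_ne_two h2
    have : (a * b) ^ 2 ∈ commutator G := by
      have := commutator_mem_commutator (mem_top a) (mem_top b)
      rwa [commutatorElement_def, inv_eq_of_mul_eq_one_right a2, inv_eq_of_mul_eq_one_right b2,
        mul_assoc, ← sq] at this
    rw [hj, pow_succ, pow_mul] at h
    rw [eq_inv_of_mul_eq_one_right h]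
    exact inv_mem (pow_mem this j)
  refine rank2_of hp (x := ⟨_, m a2 b2 h1⟩) (y := ⟨_, m c2 d2 h3⟩) (Subtype.ext h1) (Subtype.ext h3)
    (fun e => n1 (congrArg Subtype.val e)) (Subtype.ext (k1.mul_left (k.2.2.1.mul_right k.2.2.2)))
    fun ⟨n, hn⟩ => ?_
  replace hn : (a * b) ^ n = c * d := congrArg Subtype.val hn
  have i : a * (a * b) * a⁻¹ = (a * b)⁻¹ := by
    rw [← mul_assoc, a2, one_mul, mul_inv_rev, inv_eq_of_mul_eq_one_right b2]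
  have e : a * (c * d) * a⁻¹ = (c * d)⁻¹ := by rw [← hn, ← conj_zpow, i, inv_zpow]
  rw [k1.eq, mul_inv_cancel_right] at e
  have := dvd_of_inv hp h2 (a := 1) h3 n2 (by rw [pow_one]; exact mul_eq_one_iff_eq_inv.2 e)
  exact hp.one_lt.ne' (Nat.dvd_one.1 this)

end Qc

namespace Rg
namespace RGD
open RS
variable {G : Type*} [Group G] [Finite G] {Φ : Type} {p : ℕ} [Fact p.Prime] {R : RS Φ} {D : RGD p G R}

theorem B1 {a : Φ} (ha : R.sim a) {k x : G} (hk : k ∈ D.P a ha) (hx : x ∈ D.U) (hx' : x ∉ D.Up a)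
    (h : k * x * k⁻¹ ∈ D.U) : D.C 1 k := by
  refine hk.resolve_right fun c => hx' ?_
  obtain ⟨n, hn⟩ := D.exists_n ha
  obtain ⟨y, hy, b, hb, rfl⟩ := c.exists_xnb ha hn
  have h1 : b * x * b⁻¹ ∈ D.U := hb.cj_U ▸ conj_mem_cj b hx
  have h2 := inf_le_Up hn ha (by rw [R.s_self a ha]; exact not_pos_neg (R.sim_pos a ha)) h1 (by
    have hy' := D.X_le_U (R.sim_pos a ha) hy
    convert mul_mem (mul_mem (inv_mem hy') h) hy' using 1; group)
  rw [← C.cj_Up ha (.inl hb), mem_cj] at h2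
  simpa [mul_assoc] using h2

theorem mem_U_of {z : G} (h : D.C 1 z) {k : ℕ} (e : z ^ k ∈ D.U) (hk : k ∣ p) : z ∈ D.U := by
  obtain ⟨j, hj⟩ := D.pU ⟨_, e⟩
  obtain ⟨c, rfl⟩ := hk
  refine D.sylow.le_of_le_Nm' (isPGroup_zpowers (k := j + 1) ?_) le_top
    (zpowers_le.2 (mem_normalizer_iff_cj.2 h.cj_U)) (mem_zpowers z)
  rw [pow_succ', pow_mul, pow_mul, ← pow_mul _ c, mul_comm c, pow_mul]
  have := congrArg Subtype.val hj
  simp only [coe_pow, coe_one] at this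
  rw [this, one_pow]

section two
variable {D : RGD 2 G R} (hX : ∀ a, R.sim a → ∀ x ∈ D.X a, x * x = 1) {a : Φ} (ha : R.sim a)
include hX ha

theorem xcomm {x y : G} (hx : x ∈ D.X a) (hy : y ∈ D.X a) : x * y = y * x := by
  have h := hX a ha _ (mul_mem hx hy)
  rw [mul_eq_one_iff_eq_inv.1 h, mul_inv_rev, inv_eq_of_mul_eq_one_right (hX a ha _ hx),
    inv_eq_of_mul_eq_one_right (hX a ha _ hy)]

omit hX in
theorem nUp {x : G} (hx : x ∈ D.X a) (h1 : x ≠ 1) : x ∉ D.Up a := fun h =>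
  h1 (mem_bot.1 (X_inf_Up' (D := D) ha ▸ (⟨hx, h⟩ : x ∈ D.X a ⊓ D.Up a)))

theorem conj_xv {x v : G} (hx : x ∈ D.X a) (h1 : x ≠ 1) (hv : v ∈ D.X (R.neg a)) (h2 : v ≠ 1) :
    ∃ g ∈ D.P a ha, g * v * g⁻¹ * x⁻¹ ∈ D.Up a := by
  classical
  obtain ⟨n, hn⟩ := D.exists_n ha
  have hn' := N_inv_s ha hn
  have nP : n ∈ D.P a ha := .inr (C.of_N hn)
  have hv' : n⁻¹ * v * n ∈ D.X a := by
    simpa [s_neg_self ha] using D.conj _ _ hn' _ v hv
  have v2 : v * v = 1 := by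
    have := hX a ha _ hv'
    rwa [show n⁻¹ * v * n * (n⁻¹ * v * n) = n⁻¹ * (v * v) * n⁻¹⁻¹ by group, conj_eq_one_iff] at this
  have x2 := hX a ha x hx
  have xU := D.X_le_U (R.sim_pos a ha) hx
  have hP : x * v ∈ D.P a ha := mul_mem (U_le_P ha xU) (Xn_le_P ha hv)
  have nm : ∀ g ∈ D.P a ha, ∀ y ∈ D.Up a, g * y * g⁻¹ ∈ D.Up a := fun g hg y hy =>
    conj_mem_of_mem_normalizer (Nm_Up (D := D) ha ▸ hg) hy
  have ex : ∃ k, 0 < k ∧ (x * v) ^ k ∈ D.Up a :=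
    ⟨_, orderOf_pos (x * v), by rw [pow_orderOf_eq_one]; exact one_mem _⟩
  have iv : ∀ j : ℕ, v * ((x * v) ^ j)⁻¹ = (x * v) ^ j * v := fun j => by
    have : v * (x * v)⁻¹ * v⁻¹ = x * v := by
      rw [mul_inv_rev, inv_eq_of_mul_eq_one_right x2, inv_eq_of_mul_eq_one_right v2, ← mul_assoc, v2,
        one_mul]
    rw [← inv_pow, ← mul_inv_eq_iff_eq_mul, ← conj_pow, this]
  have ix : ∀ j : ℕ, x * ((x * v) ^ j)⁻¹ = (x * v) ^ j * x := fun j => by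
    have : x * (x * v)⁻¹ * x⁻¹ = x * v := by
      rw [mul_inv_rev, inv_eq_of_mul_eq_one_right x2, inv_eq_of_mul_eq_one_right v2, mul_assoc,
        mul_assoc, x2, mul_one]
    rw [← inv_pow, ← mul_inv_eq_iff_eq_mul, ← conj_pow, this]
  obtain ⟨k0, k1⟩ := Nat.find_spec ex
  obtain ⟨j, e | e⟩ := Nat.even_or_odd' (Nat.find ex)
  · refine absurd ⟨by omega, ?_⟩ (Nat.find_min ex (m := j) (by omega))
    rw [e, two_mul, pow_add] at k1
    have zP := pow_mem hP j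
    generalize hz : (x * v) ^ j = z at *
    replace iv := hz ▸ iv j
    replace ix := hz ▸ ix j
    have c1 : z ∈ D.U := mem_U_of (B1 ha zP xU (nUp ha hx h1) (by
      rw [mul_assoc, ix, ← mul_assoc]; exact mul_mem (D.Up_le_U a k1) xU))
      (k := 2) (by rw [sq]; exact D.Up_le_U a k1) dvd_rfl
    have k2 := nm _ (inv_mem nP) _ k1
    have c2 : n⁻¹ * z * n ∈ D.U := mem_U_of (B1 ha (mul_mem (mul_mem (inv_mem nP) zP) nP)
      (D.X_le_U (R.sim_pos a ha) hv') (nUp ha hv' (by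
        rw [← inv_inv n, inv_inv n⁻¹, ne_eq, conj_eq_one_iff]; exact h2)) (by
        convert mul_mem (D.Up_le_U a k2) (D.X_le_U (R.sim_pos a ha) hv') using 1
        rw [show n⁻¹ * z * n * (n⁻¹ * v * n) * (n⁻¹ * z * n)⁻¹ = n⁻¹ * z * (v * z⁻¹) * n by group, iv]
        group)) (k := 2) (by convert D.Up_le_U a k2 using 1; rw [sq]; group) dvd_rfl
    rw [Up_eq ha hn]
    exact ⟨c1, mem_cj.2 c2⟩
  · refine ⟨_, pow_mem hP (j + 1), ?_⟩
    convert k1 using 1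
    rw [mul_assoc _ v, iv, e, ← mul_assoc, ← pow_add, show j + 1 + (j + 1) = 2 * j + 1 + 1 by omega,
      pow_succ _ (2 * j + 1), mul_assoc _ _ v, mul_assoc x, v2, mul_one, mul_inv_cancel_right]

theorem trans_H {x y : G} (hx : x ∈ D.X a) (h1 : x ≠ 1) (hy : y ∈ D.X a) (h2 : y ≠ 1) :
    ∃ h, (h, 1) ∈ D.N ∧ h * x * h⁻¹ = y := by
  obtain ⟨v, hv, h3⟩ := exists_ne_one_of_ne_bot (D.ne (R.neg a))
  obtain ⟨g, hg, e⟩ := conj_xv hX ha hx h1 hv h3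
  obtain ⟨g', hg', e'⟩ := conj_xv hX ha hy h2 hv h3
  have nm : ∀ g ∈ D.P a ha, ∀ y ∈ D.Up a, g * y * g⁻¹ ∈ D.Up a := fun g hg y hy =>
    conj_mem_of_mem_normalizer (Nm_Up (D := D) ha ▸ hg) hy
  have kP := mul_mem hg' (inv_mem hg)
  have k1 : g' * g⁻¹ * x * (g' * g⁻¹)⁻¹ * y⁻¹ ∈ D.Up a := by
    convert mul_mem (inv_mem (nm _ kP _ e)) e' using 1; group
  have XU := D.X_le_U (R.sim_pos a ha)
  obtain ⟨u, hu, h, hh, e2⟩ := (B1 ha kP (XU hx) (nUp ha hx h1) (by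
    simpa using mul_mem (D.Up_le_U a k1) (XU hy))).exists_uh
  obtain ⟨w, hw, t, ht, rfl⟩ := exists_yx ha hu
  refine ⟨h, hh, ?_⟩
  have hx' : h * x * h⁻¹ ∈ D.X a := D.conj _ _ hh a x hx
  by_contra c
  refine nUp ha (mul_mem hx' (inv_mem hy)) (fun e => c (mul_inv_eq_one.1 e)) ?_
  have c1 : t * (h * x * h⁻¹) * t⁻¹ = h * x * h⁻¹ := by
    rw [xcomm hX ha ht hx', mul_inv_cancel_right]
  rw [e2, show w * t * h * x * (w * t * h)⁻¹ = w * (t * (h * x * h⁻¹) * t⁻¹) * w⁻¹ by group, c1] at k1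
  convert mul_mem (mul_mem (inv_mem hw) k1) (nm y (U_le_P ha (XU hy)) _ hw) using 1
  group

variable (hH : ∀ h k, (h, 1) ∈ D.N → (k, 1) ∈ D.N → h * k = k * h)
include hH

theorem cyc_H : ∃ g, (g, 1) ∈ D.N ∧ ∀ h, (h, 1) ∈ D.N → ∃ c ∈ Cz(D.X a), ∃ k : ℤ, h = c * g ^ k := by
  let A : Subgroup G := D.N.comap (MonoidHom.inl G (Equiv.Perm Φ))
  have hA : IsMulCommutative A := ⟨⟨fun x y => Subtype.ext (hH _ _ x.2 y.2)⟩⟩
  have hN : A ≤ Nm(D.X a) := fun h hh => mem_normalizer_iff_cj.2 (cj_X (D := D) hh a)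
  by_contra c
  refine D.ne a (eq_bot_iff.2 (CfH8.le_of_noncyclic_rel (K := Cz(D.X a)) hA hN
    (CfH8.coprime_card_of_isPGroup (D.pU.to_le (D.X_le_U (R.sim_pos a ha))) fun d => ?_) le_rfl
    (fun g hg e => c ⟨g, hg, fun h hh => ?_⟩) fun g hg hg' x hx => ?_))
  · obtain ⟨t, ht⟩ := exists_prime_orderOf_dvd_card' 2 d
    have := D.pH t t.2 1 (by rw [pow_one, ← coe_pow, ← ht, pow_orderOf_eq_one, coe_one])
    rw [show t = 1 from Subtype.ext this, orderOf_one] at ht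
    omega
  · obtain ⟨c, hc, _, ⟨k, rfl⟩, rfl⟩ := (mem_sup_of_le_Nm' (zpowers_le.2 (centralizer_le_normalizer
      ((Cz(D.X a) ⊓ A : Subgroup G) : Set G) fun y hy => hH _ _ hy.2 hg))).1 (e hh)
    exact ⟨c, hc.1, k, rfl⟩
  · by_contra x1
    refine hg' fun y hy => ?_
    by_cases y1 : y = 1
    · simp [y1]
    obtain ⟨h, hh, rfl⟩ := trans_H hX ha hx.1 x1 hy y1
    have e1 : Commute g h := hH _ _ hg hh
    exact ((e1.mul_right (mem_Cx.1 hx.2).symm).mul_right e1.inv_right).symm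

theorem fix_X {P : Subgroup (MulAut G)} (hP : ⁅P, P⁆ = P)
    (h : ∀ φ ∈ P, φ • D.U = D.U ∧ φ • D.V = D.V ∧ φ • D.X a = D.X a) :
    ∀ φ ∈ P, ∀ x ∈ D.X a, φ x = x := by
  have mH : ∀ φ ∈ P, ∀ h, (h, 1) ∈ D.N → (φ h, 1) ∈ D.N := fun φ hφ k hk => H_of_norm
    (by rw [← (h φ hφ).1, ← smul_cj, cj_U_H hk]) (by rw [← (h φ hφ).2.1, ← smul_cj, cj_V_H hk])
  have mX : ∀ φ ∈ P, ∀ x ∈ D.X a, φ x ∈ D.X a := fun φ hφ x hx =>
    (h φ hφ).2.2 ▸ apply_mem_smul.2 hx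
  have mK : ∀ φ ∈ P, ∀ c ∈ Cz(D.X a), φ c ∈ Cz(D.X a) := fun φ hφ c hc y hy => by
    simpa using congrArg φ (hc _ (mX _ (inv_mem hφ) y hy))
  have nK : ∀ h, (h, 1) ∈ D.N → ∀ c ∈ Cz(D.X a), h * c * h⁻¹ ∈ Cz(D.X a) := fun k hk c hc y hy => by
    have := hc _ (D.conj _ _ (by simpa using N_inv hk : (k⁻¹, 1) ∈ D.N) a y hy)
    rw [show y * (k * c * k⁻¹) = k * (k⁻¹ * y * k⁻¹⁻¹ * c) * k⁻¹ by group, this]; group
  obtain ⟨g, hg, hg'⟩ := cyc_H hX ha hH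
  have zp : ∀ h, (h, 1) ∈ D.N → ∀ k : ℤ, (h ^ k, 1) ∈ D.N := fun h hh k => by
    simpa using D.N.zpow_mem hh k
  have kH : ∀ {h c : G} {k : ℤ}, (h, 1) ∈ D.N → h = c * g ^ k → (c, 1) ∈ D.N := fun {h c k} hh e => by
    simpa [e] using N_mul hh (N_inv (zp g hg k))
  have k0 : ∀ φ ∈ P, ∃ m : ℤ, ∀ h, (h, 1) ∈ D.N → φ h * (h ^ m)⁻¹ ∈ Cz(D.X a) := fun φ hφ => by
    obtain ⟨d, hd, m, e⟩ := hg' _ (mH φ hφ g hg)
    refine ⟨m, fun k hk => ?_⟩
    obtain ⟨c, hc, i, e'⟩ := hg' k hk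
    have c1 : Commute c g := hH _ _ (kH hk e') hg
    have c2 : Commute d g := hH _ _ (kH (mH φ hφ g hg) e) hg
    rw [e', map_mul, map_zpow, e, (c2.zpow_right m).mul_zpow, (c1.zpow_right i).mul_zpow,
      ← zpow_mul, ← zpow_mul, mul_comm m]
    convert mul_mem (mul_mem (mK φ hφ c hc) (zpow_mem hd i)) (inv_mem (zpow_mem hc m)) using 1
    group
  let S : Subgroup (MulAut G) := subF
    { carrier := {φ | φ ∈ P ∧ ∀ h, (h, 1) ∈ D.N → φ h * h⁻¹ ∈ Cz(D.X a)}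
      one_mem' := ⟨one_mem _, fun h _ => by simp⟩
      mul_mem' := fun {φ ψ} h1 h2 => ⟨mul_mem h1.1 h2.1, fun k hk => by
        simpa [mul_assoc] using mul_mem (h1.2 _ (mH ψ h2.1 k hk)) (h2.2 k hk)⟩ }
  have k1 : P ≤ S := hP.ge.trans (commutator_le.2 fun φ hφ ψ hψ => ⟨mul_mem (mul_mem (mul_mem hφ hψ)
    (inv_mem hφ)) (inv_mem hψ), fun k hk => by
      obtain ⟨m, hm⟩ := k0 φ hφ
      obtain ⟨n, hn⟩ := k0 ψ hψ
      have t : ∀ φ ∈ P, ∀ ψ ∈ P, ∀ m n : ℤ, (∀ h, (h, 1) ∈ D.N → φ h * (h ^ m)⁻¹ ∈ Cz(D.X a)) →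
          (∀ h, (h, 1) ∈ D.N → ψ h * (h ^ n)⁻¹ ∈ Cz(D.X a)) → ∀ h, (h, 1) ∈ D.N →
          φ (ψ h) * (h ^ (n * m))⁻¹ ∈ Cz(D.X a) := fun φ hφ ψ hψ m n hm hn h hh => by
        simpa [mul_assoc, zpow_mul] using mul_mem (mK φ hφ _ (hn h hh)) (hm _ (zp h hh n))
      have hk' := mH _ (inv_mem hφ) _ (mH _ (inv_mem hψ) k hk)
      have t1 := t φ hφ ψ hψ m n hm hn _ hk'
      have t2 := t ψ hψ φ hφ n m hn hm _ hk'
      rw [mul_comm m] at t2
      simpa [commutatorElement_def, mul_assoc] using mul_mem t1 (inv_mem t2)⟩)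
  let T : Subgroup (MulAut G) := subF
    { carrier := {φ | ∀ x ∈ D.X a, φ x = x}
      one_mem' := fun _ _ => rfl
      mul_mem' := fun {φ ψ} h1 h2 x hx => by rw [MulAut.mul_apply, h2 x hx, h1 x hx] }
  refine hP.ge.trans (commutator_le.2 fun φ hφ ψ hψ => (?_ : _ ∈ T))
  have t : ∀ φ ∈ P, ∀ h, (h, 1) ∈ D.N → ∀ x ∈ D.X a, φ (h * x * h⁻¹) = h * φ x * h⁻¹ :=
    fun φ hφ h hh x hx => by
      have := (k1 hφ).2 h hh _ (D.conj _ _ hh a _ (mX φ hφ x hx))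
      rw [map_mul, map_mul, map_inv, show φ h * φ x * (φ h)⁻¹ =
        φ h * h⁻¹ * (h * φ x * h⁻¹) * (φ h * h⁻¹)⁻¹ by group, ← this, mul_inv_cancel_right]
  have t' : ∀ x ∈ D.X a, φ (ψ x) = ψ (φ x) := fun x hx => by
    by_cases x1 : x = 1
    · simp [x1]
    obtain ⟨h, hh, e⟩ := trans_H hX ha hx x1 (mX φ hφ x hx) (by simpa using x1)
    obtain ⟨k, hk, e'⟩ := trans_H hX ha hx x1 (mX ψ hψ x hx) (by simpa using x1)
    conv_lhs => rw [← e', t φ hφ k hk x hx, ← e]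
    conv_rhs => rw [← e, t ψ hψ h hh x hx, ← e']
    rw [← mul_assoc, ← mul_assoc, ← hH h k hh hk, mul_assoc _ h⁻¹, ← mul_inv_rev, ← hH h k hh hk]
    group
  intro x hx
  simpa [commutatorElement_def] using t' _ (mX _ (inv_mem hφ) _ (mX _ (inv_mem hψ) x hx))

end two

theorem eq_one_of_fix {φ : MulAut G} (hU : φ • D.U = D.U) (hV : φ • D.V = D.V)
    (h : ∀ a, R.sim a → ∀ x ∈ D.X a, φ x = x) : φ = 1 := by
  have h' : ∀ a, R.sim a → ∀ v ∈ D.X (R.neg a), φ v = v := fun a ha v hv => by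
    by_cases v1 : v = 1
    · simp [v1]
    obtain ⟨x, hx, y, hy, e⟩ := D.rank1 a ha v hv v1
    obtain ⟨b, hb, k1, -, k2⟩ := stepB hU hV ha
    obtain rfl : a = b := X_inj (D := D) (by
      rw [← k1]; exact (smul_eq_of_le fun z hz => by
        have := mem_smul.1 hz
        rwa [← h a ha _ this, MulAut.apply_inv_self] at this).symm)
    have k3 := C.of_N (N_div e (k2 _ e))
    have XU := D.X_le_U (R.sim_pos a ha)
    have k4 := ((C.of_U (XU hy)).B_mul k3).mul_U (inv_mem (XU hy))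
    have hv' := D.X_le_V (not_pos_neg (R.sim_pos a ha)) hv
    rw [map_mul, map_mul, h a ha x hx, h a ha y hy] at k4
    have := eq_one_of_B_V (v := v⁻¹ * φ v) (by convert k4 using 1; group)
      (mul_mem (inv_mem hv') (hV ▸ apply_mem_smul.2 hv'))
    exact (inv_mul_eq_one.1 this).symm
  have : ⊤ ≤ Fix φ := D.gen.ge.trans (iSup_le fun b => by
    obtain ⟨w, a, hw, ha, rfl⟩ := R.exists_sim b
    obtain ⟨n, hn, hn'⟩ := exists_N' (X := D.X) (N := D.N ⊓ (Fix φ).comap (MonoidHom.fst _ _))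
      (fun a ha v hv k => by
        obtain ⟨x, hx, y, hy, e⟩ := D.rank1 a ha v hv k
        exact ⟨x, hx, y, hy, e, (Fix φ).mul_mem ((Fix φ).mul_mem (h a ha x hx) (h' a ha v hv))
          (h a ha y hy)⟩)
      (fun a _ => D.ne _) hw
    rw [← cj_X hn]
    rintro _ ⟨x, hx, rfl⟩
    exact (Fix φ).mul_mem ((Fix φ).mul_mem hn' (h a ha x hx)) ((Fix φ).inv_mem hn'))
  exact MulEquiv.ext fun x => this (mem_top x)

theorem out_two {G : Type} [Group G] [Finite G] (D : RGD 2 G R)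
    (hX : ∀ a, R.sim a → ∀ x ∈ D.X a, x * x = 1)
    (hH : ∀ h k, (h, 1) ∈ D.N → (k, 1) ∈ D.N → h * k = k * h) {a b : Φ} (ha : R.sim a) (hb : R.sim b)
    (h2 : ∀ c, R.sim c → c = a ∨ c = b) : Group.IsSolvable (Out G) := by
  let A := MulAction.stabilizer (MulAut G) D.U ⊓ MulAction.stabilizer (MulAut G) D.V
  refine CfH4.isSolvable_quotient_of_sup (Y := A) (eq_top_iff.2 fun φ _ => ?_)
    (CfH4.isSolvable_of_forall_perfect _ fun P hP hP' => eq_bot_iff.2 fun φ hφ => ?_)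
  · obtain ⟨g, hg⟩ := exists_ch (D := D) (sylIn_smul D.sylow φ)
    obtain ⟨n, w, hn, hw⟩ := D.exists_n0
    have e1 : ((MulAut.conj g)⁻¹ * φ) • D.U = D.U := by
      rw [mul_smul, hg, ← conj_smul, inv_smul_smul]
    generalize hψ : (MulAut.conj g)⁻¹ * φ = ψ at e1
    have e0 : cj (ψ n) D.U = ψ • D.V := by rw [← cj_U_lg hn hw, smul_cj, e1]
    obtain ⟨u, hu, e2⟩ := of_opp (g := ψ n) hn hw (by
      rw [e0, ← e1, ← smul_inf, D.U_inf_V, smul_eq_bot])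
    rw [e0] at e2
    rw [← mul_inv_cancel_left (MulAut.conj g) φ, hψ, ← mul_inv_cancel_left (MulAut.conj u) ψ]
    refine mul_mem (mem_sup_left ⟨g, rfl⟩) (mul_mem (mem_sup_left ⟨u, rfl⟩) (mem_sup_right ⟨?_, ?_⟩))
    · show _ • D.U = D.U
      rw [mul_smul, e1, inv_smul_eq_iff, conj_smul, (C.of_U hu).cj_U]
    · show _ • D.V = D.V
      rw [mul_smul, e2, ← conj_smul, inv_smul_smul]
  have k : ∀ φ ∈ P, (φ • D.X a = D.X a ∧ φ • D.X b = D.X b) ∨ (φ • D.X a = D.X b ∧ φ • D.X b = D.X a) :=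
    fun φ hφ => by
      obtain ⟨c, hc, k1, -⟩ := stepB (hP hφ).1 (hP hφ).2 ha
      obtain ⟨d, hd, k2, -⟩ := stepB (hP hφ).1 (hP hφ).2 hb
      have i := MulAction.injective φ (β := Subgroup G)
      rcases h2 c hc with rfl | rfl <;> rcases h2 d hd with rfl | rfl
      · exact .inl ⟨k1, i (k1.trans k2.symm) ▸ k1⟩
      · exact .inl ⟨k1, k2⟩
      · exact .inr ⟨k1, k2⟩
      · exact .inl ⟨i (k1.trans k2.symm) ▸ k2, k2⟩
  have k' : P ≤ MulAction.stabilizer _ (D.X a) ⊓ MulAction.stabilizer _ (D.X b) :=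
    hP'.ge.trans (commutator_le.2 fun φ hφ ψ hψ => by
      have q : ∀ {φ : MulAut G} {Y Z : Subgroup G}, φ • Y = Z → φ⁻¹ • Z = Y := fun h =>
        inv_smul_eq_iff.2 h.symm
      rcases k φ hφ with ⟨k1, k2⟩ | ⟨k1, k2⟩ <;> rcases k ψ hψ with ⟨k3, k4⟩ | ⟨k3, k4⟩ <;>
      simp only [mem_inf, MulAction.mem_stabilizer_iff, commutatorElement_def, mul_smul, q k1, q k2,
        q k3, q k4, k1, k2, k3, k4, and_self])
  refine eq_one_of_fix (hP hφ).1 (hP hφ).2 fun c hc => fix_X hX hc hH hP' (fun ψ hψ =>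
    ⟨(hP hψ).1, (hP hψ).2, ?_⟩) φ hφ
  rcases h2 c hc with rfl | rfl
  exacts [(k' hψ).1, (k' hψ).2]

end RGD
end Rg
end CfH2
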