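import Cfsg.Agent.H2.Qk1
import Cfsg.Agent.H5.Iv3

/-! Rank witnesses for the exceptional groups. -/

set_option autoImplicit false
set_option linter.unusedVariables false
set_option linter.unusedSectionVars false
open Cfsg Subgroup CfH9 CfH3.QK CfH2.Qc

namespace CfH2
namespace Ce
open Rg Cfsg.Lie Cert

abbrev IW := List (ℕ × ℤ)
def IW.wd (L : IW) : Wd := L.map fun y => (y.1, y.2, [])
def IW.inv (L : IW) : IW := (L.map fun y => (y.1, -y.2)).reverse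
noncomputable def iE (t : Tab) (m : ℕ) (L L' : IW) : Bool := cWd t m L.wd L'.wd
def evZ (i : ℕ) : Vec → ℤ
  | [] => 0
  | (j, c, _) :: r => (if j = i then c else 0) + evZ i r
def cf (t : Tab) (m : ℕ) (L : IW) (i j : ℕ) : ℤ :=
  evZ i (wrd m (L.wd.map fun y => xl t y.1 y.2.1 y.2.2) (un j))
def iN (t : Tab) (m : ℕ) (L L' : IW) (i j : ℕ) : Bool :=
  decide ((∀ y ∈ L ++ L', y.1 < t.n) ∧ i < t.l + t.n ∧ j < t.l + t.n ∧
    (cf t m L i j - cf t m L' i j) ^ 2 = 1)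
noncomputable def cBP (t : Tab) (m : ℕ) (a b : IW) (i j : ℕ) : Bool :=
  iE t m (a ++ b ++ a) (b ++ a ++ b) &&
  (iE t m (a ++ b ++ a ++ b ++ (a ++ b ++ a ++ b) ++ (a ++ b ++ a ++ b)) [] && iN t m a b i j)
noncomputable def cCM (t : Tab) (m : ℕ) (a b c d : IW) : Bool :=
  iE t m (a ++ c) (c ++ a) && (iE t m (a ++ d) (d ++ a) &&
    (iE t m (b ++ c) (c ++ b) && iE t m (b ++ d) (d ++ b)))
noncomputable def cIV (t : Tab) (m : ℕ) (g a b : IW) : Bool :=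
  iE t m (g ++ a) (a.inv ++ g) && iE t m (g ++ b) (b.inv ++ g)

variable {F : Type} [Field F] {D : ChevalleyDatum} {c : Cert}

theorem ev_evZ (i : ℕ) : ∀ v : Vec, ev ([] : List F) i v = evZ i v
  | [] => by simp [ev, evZ]
  | (j, d, e) :: r => by simp [ev, evZ, evM, ev_evZ i r]

namespace Good
variable (h : Good D c) {m : ℕ} (hm : (m : F) = 0)

variable (F) in
noncomputable def iw (L : IW) : D.group F := h.wE (L.wd.ev [])

theorem iw_eq' (L : IW) : h.iw F L = h.wE (L.map fun y => (y.1, (y.2 : F))) := by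
  simp [iw, IW.wd, Wd.ev, evM, Function.comp_def]

theorem iw_append (L L' : IW) : h.iw F (L ++ L') = h.iw F L * h.iw F L' := by simp [iw_eq', wE]

theorem iw_nil : h.iw F [] = 1 := rfl

theorem iw_inv : ∀ L : IW, h.iw F L.inv = (h.iw F L)⁻¹
  | [] => by simp [IW.inv, iw_nil]
  | y :: L => by
    have := iw_inv L
    rw [IW.inv] at this
    rw [IW.inv, List.map_cons, List.reverse_cons, iw_append, this]
    simp [iw_eq', wE, h.xe_neg]

theorem iw_XL {L : IW} {Z : List ℕ} (k : ∀ y ∈ L, y.1 ∈ Z) : h.iw F L ∈ h.XL F Z := by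
  rw [iw_eq']; exact h.wE_mem fun y hy => by
    obtain ⟨z, hz, rfl⟩ := List.mem_map.1 hy
    exact k z hz

include hm
theorem iw_eq {L L' : IW} (k : iE c.toTab m L L' = true) : h.iw F L = h.iw F L' := h.wE_eq hm k []

theorem iw_ne {L L' : IW} {i j : ℕ} (k : iN c.toTab m L L' i j = true) : h.iw F L ≠ h.iw F L' := by
  obtain ⟨k1, k2, k3, k4⟩ := of_decide_eq_true k
  have q : ∀ L : IW, (∀ y ∈ L, y.1 < c.n) → ρ D F (h.iw F L) ((eI D).symm ⟨i, h.ok.N_eq ▸ k2⟩)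
      ((eI D).symm ⟨j, h.ok.N_eq ▸ k3⟩) = cf c.toTab m L i j := fun L hL => by
    rw [iw, ρ_wE, ChevalleyDatum.wordMat, ev_wrd_un (e := eI D) (xs := []) hm
      (Ls := L.wd.map fun y => xl c.toTab y.1 y.2.1 y.2.2) (by
        rw [Wd.ev, List.map_map, List.forall₂_map_left_iff, List.forall₂_map_right_iff,
          List.forall₂_same]
        intro y hy
        obtain ⟨z, hz, rfl⟩ := List.mem_map.1 hy
        exact h.ok.repx (hL z hz) _ _), ev_evZ]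
    simp [cf]
  intro e
  have := (q L fun y hy => k1 y (List.mem_append_left _ hy)).symm.trans
    (e ▸ q L' fun y hy => k1 y (List.mem_append_right _ hy))
  have k5 := congrArg (Int.cast : ℤ → F) k4
  push_cast at k5
  simp [this] at k5

variable {Y : Subgroup (D.group F)}

theorem iw_conj {g a b : IW} (hg : h.iw F g ∈ Y) (ha : h.iw F a ∈ Y)
    (k : iE c.toTab m (g ++ a) (b ++ g) = true) : h.iw F b ∈ Y := by
  have := h.iw_eq hm k
  rw [iw_append, iw_append] at this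
  rw [eq_mul_inv_of_mul_eq this.symm]
  exact mul_mem (mul_mem hg ha) (inv_mem hg)

omit hm in
theorem iw_app {a b : IW} (ha : h.iw F a ∈ Y) (hb : h.iw F b ∈ Y) : h.iw F (a ++ b) ∈ Y :=
  h.iw_append (F := F) a b ▸ mul_mem ha hb

omit hm in
theorem iw_inv' {a : IW} (ha : h.iw F a ∈ Y) : h.iw F a.inv ∈ Y := h.iw_inv (F := F) a ▸ inv_mem ha

theorem cj {g a b : IW} (hg : h.iw F g ∈ Y) (ha : h.iw F a ∈ Y) (hb : h.iw F b ∈ Y)
    (k : iE c.toTab m (g ++ a) (b ++ g) = true) :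
    (⟨_, hg⟩ * ⟨_, ha⟩ * ⟨_, hg⟩⁻¹ : Y) = ⟨_, hb⟩ := by
  have := h.iw_eq hm k
  rw [iw_append, iw_append] at this
  exact Subtype.ext (mul_inv_eq_of_eq_mul this)

theorem cj' {g a : IW} (hg : h.iw F g ∈ Y) (ha : h.iw F a ∈ Y)
    (k : iE c.toTab m (g ++ a) (a.inv ++ g) = true) :
    (⟨_, hg⟩ * ⟨_, ha⟩ * ⟨_, hg⟩⁻¹ : Y) = ⟨_, ha⟩⁻¹ :=
  (h.cj hm hg ha (h.iw_inv' ha) k).trans (Subtype.ext (h.iw_inv a))

theorem bp {a b : IW} (ha : h.iw F a ∈ Y) (hb : h.iw F b ∈ Y) {i j : ℕ}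
    (k : cBP c.toTab m a b i j = true) : BP (⟨_, ha⟩ : Y) ⟨_, hb⟩ := by
  simp only [cBP, Bool.and_eq_true] at k
  have k1 := h.iw_eq hm k.1
  have k2 := h.iw_eq hm k.2.1
  simp only [iw_append, iw_nil] at k1 k2
  exact ⟨Subtype.ext k1, Subtype.ext (by rw [coe_pow, pow_three']; exact k2),
    fun e => h.iw_ne hm k.2.2 (congrArg Subtype.val e)⟩

theorem cm {a b d e : IW} (ha : h.iw F a ∈ Y) (hb : h.iw F b ∈ Y) (hd : h.iw F d ∈ Y)
    (he : h.iw F e ∈ Y) (k : cCM c.toTab m a b d e = true) :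
    Cm (⟨_, ha⟩ : Y) ⟨_, hb⟩ ⟨_, hd⟩ ⟨_, he⟩ := by
  simp only [cCM, Bool.and_eq_true] at k
  have k1 := h.iw_eq hm k.1
  have k2 := h.iw_eq hm k.2.1
  have k3 := h.iw_eq hm k.2.2.1
  have k4 := h.iw_eq hm k.2.2.2
  simp only [iw_append] at k1 k2 k3 k4
  exact ⟨Subtype.ext k1, Subtype.ext k2, Subtype.ext k3, Subtype.ext k4⟩

omit hm in
theorem rt3 {a b d e f g s : IW} (ha : h.iw F a ∈ Y) (hb : h.iw F b ∈ Y) (hd : h.iw F d ∈ Y)
    (he : h.iw F e ∈ Y) (hf : h.iw F f ∈ Y) (hg : h.iw F g ∈ Y) (hs : h.iw F s ∈ Y)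
    {i j k l m n : ℕ} (k1 : (cBP c.toTab 0 a b i j && (cBP c.toTab 0 d e k l &&
      cBP c.toTab 0 f g m n)) = true)
    (k2 : (cCM c.toTab 0 a b d e && (cCM c.toTab 0 a b f g && cCM c.toTab 0 d e f g)) = true)
    (k3 : (cIV c.toTab 0 s a b && (cIV c.toTab 0 s d e && cIV c.toTab 0 s f g)) = true) : RT 3 Y := by
  simp only [cIV, Bool.and_eq_true] at k1 k2 k3
  have z : ((0 : ℕ) : F) = 0 := Nat.cast_zero
  exact rt_braid (h.bp z ha hb k1.1) (h.bp z hd he k1.2.1) (h.bp z hf hg k1.2.2)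
    (h.cm z ha hb hd he k2.1) (h.cm z ha hb hf hg k2.2.1) (h.cm z hd he hf hg k2.2.2)
    ⟨_, h.cj' z hs ha k3.1.1, h.cj' z hs hb k3.1.2⟩ ⟨_, h.cj' z hs hd k3.2.1.1, h.cj' z hs he k3.2.1.2⟩
    ⟨_, h.cj' z hs hf k3.2.2.1, h.cj' z hs hg k3.2.2.2⟩

omit hm in
theorem rtp [Fintype F] (p : ℕ) [Fact p.Prime] [CharP F p] (hp : p ≠ 2) {x y z s t : IW} {Z : List ℕ}
    (hx : h.iw F x ∈ Y) (hy : h.iw F y ∈ Y) (hz : h.iw F z ∈ Y) (hs : h.iw F s ∈ Y)
    (ht : h.iw F t ∈ Y) {i j k l m n : ℕ}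
    (k1 : cCm c 0 Z Z = true ∧ (∀ u ∈ x, u.1 ∈ Z) ∧ (∀ u ∈ y, u.1 ∈ Z) ∧ (∀ u ∈ z, u.1 ∈ Z) ∧
      iN c.toTab 0 x [] i j = true ∧ iN c.toTab 0 y [] k l = true ∧ iN c.toTab 0 z [] m n = true ∧
      cIV c.toTab 0 s x y = true ∧ cIV c.toTab 0 t x z = true ∧
      iE c.toTab 0 (s ++ z) (z ++ s) = true ∧ iE c.toTab 0 (t ++ y) (y ++ t) = true) : RT p Y := by
  simp only [cIV, Bool.and_eq_true] at k1
  obtain ⟨k1, k2, k3, k4, k5, k6, k7, k8, k9, l1, l2⟩ := k1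
  have z0 : ((0 : ℕ) : F) = 0 := Nat.cast_zero
  have e := CfH5.Iv.exp_ab (F := F) h hp k1
  have m1 := h.iw_XL (F := F) k2
  have m2 := h.iw_XL (F := F) k3
  have m3 := h.iw_XL (F := F) k4
  exact rt_es Fact.out hp (x := ⟨_, hx⟩) (y := ⟨_, hy⟩) (z := ⟨_, hz⟩) (Subtype.ext (e _ m1))
    (Subtype.ext (e _ m2)) (Subtype.ext (e _ m3)) (fun e => h.iw_ne z0 k5 (congrArg Subtype.val e))
    (fun e => h.iw_ne z0 k6 (congrArg Subtype.val e)) (fun e => h.iw_ne z0 k7 (congrArg Subtype.val e))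
    (Subtype.ext (h.comm' z0 k1 m1 m2)) (Subtype.ext (h.comm' z0 k1 m1 m3))
    (Subtype.ext (h.comm' z0 k1 m2 m3)) (h.cj' z0 hs hx k8.1) (h.cj' z0 hs hy k8.2)
    (h.cj z0 hs hz hz l1) (h.cj' z0 ht hx k9.1) (h.cj z0 ht hy hy l2) (h.cj' z0 ht hz k9.2)

theorem dih [Finite F] {p : ℕ} (hp : p.Prime) (h2 : p ≠ 2) {a b d e : IW} (ha : h.iw F a ∈ Y)
    (hb : h.iw F b ∈ Y) (hd : h.iw F d ∈ Y) (he : h.iw F e ∈ Y) {i j k l : ℕ}
    (k1 : iE c.toTab m (a ++ a) [] = true ∧ iE c.toTab m (b ++ b) [] = true ∧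
      iE c.toTab m (d ++ d) [] = true ∧ iE c.toTab m (e ++ e) [] = true ∧
      iE c.toTab m (List.replicate p (a ++ b)).flatten [] = true ∧
      iE c.toTab m (List.replicate p (d ++ e)).flatten [] = true ∧ iN c.toTab m (a ++ b) [] i j = true ∧
      iN c.toTab m (d ++ e) [] k l = true ∧ cCM c.toTab m a b d e = true) :
    PRankAtLeast p 2 (commutator Y) := by
  obtain ⟨k1, k2, k3, k4, k5, k6, k7, k8, k9⟩ := k1
  have r : ∀ (L : IW) n, h.iw F (List.replicate n L).flatten = h.iw F L ^ n := fun L n => by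
    induction n with
    | zero => simp [iw_nil]
    | succ n ih => rw [List.replicate_succ, List.flatten_cons, iw_append, ih, pow_succ']
  replace k1 := h.iw_eq hm k1
  replace k2 := h.iw_eq hm k2
  replace k3 := h.iw_eq hm k3
  replace k4 := h.iw_eq hm k4
  replace k5 := h.iw_eq hm k5
  replace k6 := h.iw_eq hm k6
  replace k7 := h.iw_ne hm k7
  replace k8 := h.iw_ne hm k8
  simp only [r, iw_append, iw_nil] at k1 k2 k3 k4 k5 k6 k7 k8
  exact r2_dih hp h2 (a := ⟨_, ha⟩) (b := ⟨_, hb⟩) (c := ⟨_, hd⟩) (d := ⟨_, he⟩) (Subtype.ext k1)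
    (Subtype.ext k2) (Subtype.ext k3) (Subtype.ext k4) (Subtype.ext k5) (Subtype.ext k6)
    (fun e => k7 (congrArg Subtype.val e)) (fun e => k8 (congrArg Subtype.val e))
    (h.cm hm ha hb hd he k9)

omit hm in
theorem H_comm [Finite F] {g k : D.group F} (hg : (g, 1) ∈ h.N F) (hk : (k, 1) ∈ h.N F) :
    g * k = k * g := ρ_inj (by
  have d : ∀ {g : D.group F}, (g, 1) ∈ h.N F → (ρ D F g).IsDiag := fun hg i j e => by
    by_contra c; exact e (h.H_diag hg i j c)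
  rw [map_mul, map_mul, ← (d hg).diagonal_diag, ← (d hk).diagonal_diag, Matrix.diagonal_mul_diagonal,
    Matrix.diagonal_mul_diagonal]
  simp only [mul_comm])

end Good

def nn' (r s : ℕ) : IW := [(r, 1), (s, -1), (r, 1)]

theorem rt_top {G : Type*} [Group G] {p : ℕ} (h : RT p (⊤ : Subgroup G)) : RT p G :=
  h.map (⊤ : Subgroup G).subtype (subtype_injective _)

theorem rt_F4 : RT 3 (chevF4.group F) :=
  rt_top (goodF4.rt3 (a := [(25, 1)]) (b := [(22, -1)]) (d := [(30, 1)]) (e := [(17, -1)])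
    (f := [(41, 1)]) (g := [(6, -1)]) (s := nn' 24 23 ++ nn' 24 23) trivial trivial trivial trivial
    trivial trivial trivial (i := 26) (j := 3) (k := 34) (l := 3) (m := 10) (n := 3)
    (by decide +kernel) (by decide +kernel) (by decide +kernel))

theorem rt_E6' {Y : Subgroup (chevE6.group F)} (h : ∀ w ∈ [[(39, 1)], [(32, 1)], [(46, 1)], [(25, 1)],
    [(42, 1), (37, 1)], [(29, -1), (34, -1)], [(56, 1), (36, 1)], [(15, -1), (35, -1)]],
      goodE6.iw F w ∈ Y) : RT 3 Y := by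
  simp only [List.forall_mem_cons] at h
  obtain ⟨h1, h2, h3, h4, h5, h6, h7, h8, -⟩ := h
  have g := goodE6
  have z : ((0 : ℕ) : F) = 0 := Nat.cast_zero
  have n1 := g.iw_app (g.iw_app h5 h6) h5
  have n2 := g.iw_app (g.iw_app h7 h8) h7
  have n3 := g.iw_app (g.iw_app h3 (g.iw_inv' h4)) h3
  have a1 := g.iw_conj z n1 h1 (b := [(44, -1)]) (by decide +kernel)
  have a2 := g.iw_conj z n1 h2 (b := [(27, -1)]) (by decide +kernel)
  have a3 := g.iw_conj z n2 a1 (b := [(60, 1)]) (by decide +kernel)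
  have a4 := g.iw_conj z n2 a2 (b := [(11, 1)]) (by decide +kernel)
  exact g.rt3 h1 (g.iw_inv' h2) (g.iw_inv' a1) a2 a3 (g.iw_inv' a4) (g.iw_app n3 n3) (i := 45) (j := 1)
    (k := 33) (l := 0) (m := 17) (n := 0) (by decide +kernel) (by decide +kernel) (by decide +kernel)

theorem rt_E6 : RT 3 (chevE6.group F) := rt_top (rt_E6' fun _ _ => trivial)

theorem rt_2E6 (q : ℕ) (hq : 0 < q) (h1 : (-1 : F) ^ q = -1) : RT 3 (twistedE6 F q) := by
  refine (rt_E6' ?_).map (goodE6.genEquiv (e6Words F q)).toMonoidHom (MulEquiv.injective _)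
  simp only [List.forall_mem_cons, Good.iw_eq']
  refine ⟨subset_closure ⟨_, .inl ⟨1, by simp, e6p4, by simp, rfl⟩, by simp [e6p4]⟩,
    subset_closure ⟨_, .inl ⟨1, by simp, e6m4, by simp, rfl⟩, by simp [e6m4]⟩,
    subset_closure ⟨_, .inl ⟨1, by simp, e6p2, by simp, rfl⟩, by simp [e6p2]⟩,
    subset_closure ⟨_, .inl ⟨1, by simp, e6m2, by simp, rfl⟩, by simp [e6m2]⟩,
    subset_closure ⟨_, .inr ⟨1, (e6p3, e6p5), by simp, rfl⟩, by simp [e6p3, e6p5]⟩,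
    subset_closure ⟨_, .inr ⟨-1, (e6m3, e6m5), by simp, rfl⟩, by simp [e6m3, e6m5, h1]⟩,
    subset_closure ⟨_, .inr ⟨1, (e6p1, e6p6), by simp, rfl⟩, by simp [e6p1, e6p6]⟩,
    subset_closure ⟨_, .inr ⟨-1, (e6m1, e6m6), by simp, rfl⟩, by simp [e6m1, e6m6, h1]⟩, by simp⟩

theorem r2_top {G : Type*} [Group G] {p : ℕ} (h : PRankAtLeast p 2 (⊤ : Subgroup G)) :
    PRankAtLeast p 2 G := rank_map (⊤ : Subgroup G).subtype (subtype_injective _) h

theorem t_of {K : Type*} [Group K] [Finite K] (h3 : PRankAtLeast 3 2 K)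
    (h : Big K ∨ Group.IsSolvable (Out K)) : T K :=
  ⟨.inl (dvd_of_rank Nat.prime_three (by omega) h3), .inr ⟨3, Nat.prime_three, by omega, h3⟩,
    h.imp_right .inl⟩

theorem t_G2 [Fintype F] : T (chevG2.group F) := by
  obtain ⟨p, _⟩ := CharP.exists F
  have : Fact p.Prime := ⟨CharP.char_is_prime F p⟩
  have g := goodG2
  have z : ((0 : ℕ) : F) = 0 := Nat.cast_zero
  have := Finite.of_injective _ (ρ_inj (F := F) (D := chevG2))
  refine t_of (r2_top (r2_braid (g.bp z (Y := ⊤) (a := [(7, 1)]) (b := [(4, -1)]) trivial trivial (i := 9) (j := 1)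
    (by decide +kernel)) (g.bp z (Y := ⊤) (a := [(11, 1)]) (b := [(0, -1)]) trivial trivial (i := 2) (j := 1)
    (by decide +kernel)) (g.cm z _ _ _ _ (by decide +kernel)))) ?_
  by_cases hp : p = 2
  · subst hp
    refine .inr ((g.rgd F 2).out_two ?_ (fun _ _ => g.H_comm) (CfH5.Iv.g2m 0 (by decide))
      (CfH5.Iv.g2m 1 (by decide)) CfH5.Iv.g2s)
    rintro a - _ ⟨t, rfl⟩
    rw [← g.xe_add, CharTwo.add_self_eq_zero, g.xe_zero]
  · exact .inl ⟨p, Fact.out, hp, .inl (rt_top (g.rtp p hp (x := [(10, 1)]) (y := [(11, 1)])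
      (z := [(9, 1)]) (s := nn' 6 5 ++ nn' 6 5) (t := nn' 7 4 ++ nn' 7 4) (Z := [9, 10, 11]) trivial
      trivial trivial trivial trivial (i := 12) (j := 1) (k := 13) (l := 1) (m := 11) (n := 0)
      (by decide +kernel)))⟩

theorem neg_one_q {q m : ℕ} [Fintype F] (hq : IsPrimePow q) (h : Fintype.card F = q ^ (m + 1)) :
    (-1 : F) ^ q = -1 := by
  obtain ⟨p, _⟩ := CharP.exists F
  have : Fact p.Prime := ⟨CharP.char_is_prime F p⟩
  obtain ⟨ψ, hψ⟩ := exists_frob p hq h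
  rw [← hψ, map_neg, map_one]

theorem out_3D4 (K : Type) [Field K] [Fintype K] [CharP K 2] (q : ℕ) (hq : IsPrimePow q)
    (hK : Fintype.card K = q ^ 3) :
    Group.IsSolvable (Out (Subgroup.closure (goodD4.wE '' d4Words K q))) := by
  obtain ⟨ψ, hψ⟩ := exists_frob 2 hq hK
  have ψ2 : ∀ t : K, (t ^ q) ^ q = t ^ q ^ 2 := fun t => by rw [← pow_mul, ← sq]
  have ψ3 : ∀ t : K, (t ^ q ^ 2) ^ q = t := fun t => by
    rw [← pow_mul, ← pow_succ, ← hK, FiniteField.pow_card]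
  have h := goodD4
  obtain ⟨σ, hσ⟩ := h.aut_lin ψ (P := pD4) (Hc := hD4) (k := 2) (fun r hr => by
    simpa using allB_iff.1 d4a r hr) (by decide +kernel) (by decide +kernel)
  obtain ⟨T, hT⟩ := h.twist 2 goodG2.rf.rn d4b hσ
  have P2 : ∀ (b : Fin tG2.n) (r1 r2 r3 : ℕ) (α β : List ℤ), TPc tD4 pD4 r1 r2 r3 α β →
      Cls tD4 fD4 b [r1, r2, r3] → (r1, r2, r3) ∈ [(d4p1, d4p3, d4p4), (d4m1, d4m3, d4m4)] →
      (T.X' b ≤ Subgroup.closure (h.wE '' d4Words K q) ∧ T.X' b ≠ ⊥) ∧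
        (∀ t, h.wE [(r1, t), (r2, t ^ q), (r3, t ^ q ^ 2)] ∈ T.X' b) ∧
        (∀ x ∈ T.X' b, x * x = 1) := by
    intro b r1 r2 r3 α β k1 k2 k3
    have k4 : sg pD4 r1 = 1 ∧ sg pD4 r2 = 1 ∧ sg pD4 r3 = 1 := by
      simp only [List.mem_cons, Prod.mk.injEq, List.not_mem_nil, or_false] at k3
      rcases k3 with ⟨rfl, rfl, rfl⟩ | ⟨rfl, rfl, rfl⟩ <;> decide +kernel
    obtain ⟨d, cm⟩ := h.otriple hσ k1 (fun t => by simp [k4, hψ, ψ2, ψ3])
    simp only [k4, hψ, Int.cast_one, one_mul, ψ2] at d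
    rw [h.X'_eq T hT b k2]
    refine ⟨⟨d.le fun t => subset_closure ⟨_, Or.inr ⟨t, _, k3, rfl⟩, rfl⟩, d.ne⟩, d.mem, fun x hx => ?_⟩
    obtain ⟨t, rfl⟩ := d.sur x hx
    have s : ∀ r (u : K), h.xe r u ^ 2 = 1 := fun r u => by
      rw [sq, ← h.xe_add, CharTwo.add_self_eq_zero, h.xe_zero]
    have c : ∀ r ∈ [r1, r2, r3], ∀ r' ∈ [r1, r2, r3], ∀ u v : K, Commute (h.xe r u) (h.xe r' v) :=
      fun r hr r' hr' u v => cm _ (h.xe_XL hr u) _ (h.xe_XL hr' v)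
    simp only [Good.wE, List.map, List.prod_cons, List.prod_nil, mul_one]
    rw [← sq, ((c r1 (by simp) r2 (by simp) _ _).mul_right (c r1 (by simp) r3 (by simp) _ _)).mul_pow,
      (c r2 (by simp) r3 (by simp) _ _).mul_pow, s, s, s, one_mul, one_mul]
  have P1 : ∀ (b : Fin tG2.n) (r : ℕ), Cls tD4 fD4 b [r] → r ∈ [d4p2, d4m2] →
      (T.X' b ≤ Subgroup.closure (h.wE '' d4Words K q) ∧ T.X' b ≠ ⊥) ∧
        (∀ t, t ^ q = t → h.wE [(r, t)] ∈ T.X' b) ∧ ∀ x ∈ T.X' b, x * x = 1 := by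
    intro b r k2 k3
    have k4 : sg pD4 r = 1 ∧ r < tD4.n ∧ pm pD4 r = r := by clear k2; revert r; decide +kernel
    obtain ⟨d, cm⟩ := h.osingle hσ k4.2
    have e : ∀ t : K, (sg pD4 r : K) * ψ t = t ^ q := fun t => by simp [k4, hψ]
    have : Nontrivial {t : K // (sg pD4 r : K) * ψ t = t} :=
      ⟨⟨⟨0, by simp⟩, ⟨1, by simp [k4]⟩, by simp⟩⟩
    rw [h.X'_eq T hT b k2]
    refine ⟨⟨d.le fun t => subset_closure ⟨_, Or.inl ⟨t, (e t).symm.trans t.2, _, k3, rfl⟩, rfl⟩, d.ne⟩,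
      fun t ht => d.mem ⟨t, (e t).trans ht⟩, fun x hx => ?_⟩
    obtain ⟨t, rfl⟩ := h.XL_le (Y := h.X K r) (by simp) hx.1
    rw [← h.xe_add, CharTwo.add_self_eq_zero, h.xe_zero]
  obtain ⟨c1, c2⟩ := d4c
  obtain ⟨d1, d2, d3, d4⟩ := d4d
  have a1 := P2 ⟨7, by decide⟩ _ _ _ _ _ c1 d1 (by decide)
  have a2 := P2 ⟨4, by decide⟩ _ _ _ _ _ c2 d2 (by decide)
  have a5 := P1 ⟨6, by decide⟩ _ d3 (by decide)
  have a6 := P1 ⟨5, by decide⟩ _ d4 (by decide)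
  obtain ⟨E, hE, hN, -⟩ := h.tw_rgd T (d4Words K q) (fun a ha => by
    rcases CfH5.Iv.g2s a ha with rfl | rfl
    exacts [⟨⟨a1.1.1, a2.1.1⟩, a2.1.2⟩, ⟨⟨a5.1.1, a6.1.1⟩, a6.1.2⟩]) (by
    rintro _ (⟨t, ht, r, hr, rfl⟩ | ⟨t, r, hr, rfl⟩) <;>
      simp only [List.mem_cons, List.not_mem_nil, or_false] at hr <;> rcases hr with rfl | rfl
    exacts [⟨_, CfH5.Iv.g2m 1 (by decide), Or.inl (a5.2.1 t ht)⟩,
      ⟨_, CfH5.Iv.g2m 1 (by decide), Or.inr (a6.2.1 t ht)⟩,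
      ⟨_, CfH5.Iv.g2m 0 (by decide), Or.inl (a1.2.1 t)⟩, ⟨_, CfH5.Iv.g2m 0 (by decide), Or.inr (a2.2.1 t)⟩])
  refine E.out_two (fun a ha x hx => Subtype.ext ?_) (fun _ _ h1 h2 => Subtype.ext
    (h.H_comm (hN _ h1) (hN _ h2))) (CfH5.Iv.g2m 0 (by decide)) (CfH5.Iv.g2m 1 (by decide)) CfH5.Iv.g2s
  rw [hE] at hx
  rcases CfH5.Iv.g2s a ha with rfl | rfl
  exacts [a1.2.2 _ hx, a5.2.2 _ hx]

theorem t_3D4 [Fintype F] (q : ℕ) (hq : IsPrimePow q) (hK : Fintype.card F = q ^ 3) :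
    T (twistedD4 F q) := by
  obtain ⟨p, _⟩ := CharP.exists F
  have : Fact p.Prime := ⟨CharP.char_is_prime F p⟩
  have g := goodD4
  have z : ((0 : ℕ) : F) = 0 := Nat.cast_zero
  have := Finite.of_injective _ (ρ_inj (F := F) (D := chevD4))
  have h1 := neg_one_q hq hK
  have h2 : (-1 : F) ^ q ^ 2 = -1 := by rw [sq, pow_mul, h1, h1]
  refine T.equiv (g.genEquiv (d4Words F q)).symm ?_
  have m : ∀ w ∈ [[(14, 1)], [(9, -1)], [(18, 1), (13, 1), (12, 1)], [(5, -1), (10, -1), (11, -1)]],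
      g.iw F w ∈ Subgroup.closure (g.wE '' d4Words F q) := by
    simp only [List.forall_mem_cons, Good.iw_eq']
    exact ⟨subset_closure ⟨_, .inl ⟨1, by simp, d4p2, by simp, rfl⟩, by simp [d4p2]⟩,
      subset_closure ⟨_, .inl ⟨-1, h1, d4m2, by simp, rfl⟩, by simp [d4m2]⟩,
      subset_closure ⟨_, .inr ⟨1, (d4p1, d4p3, d4p4), by simp, rfl⟩, by simp [d4p1, d4p3, d4p4]⟩,
      subset_closure ⟨_, .inr ⟨-1, (d4m1, d4m3, d4m4), by simp, rfl⟩,
        by simp [d4m1, d4m3, d4m4, h1, h2]⟩, by simp⟩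
  simp only [List.forall_mem_cons] at m
  obtain ⟨m1, m2, m3, m4, -⟩ := m
  have nb := g.iw_app (g.iw_app m1 m2) m1
  have na := g.iw_app (g.iw_app m3 m4) m3
  have a1 := g.iw_conj z na m1 (b := [(22, -1)]) (by decide +kernel)
  have a2 := g.iw_conj z na m2 (b := [(1, 1)]) (by decide +kernel)
  have a3 := g.iw_conj z nb a1 (b := [(23, -1)]) (by decide +kernel)
  have a4 := g.iw_conj z nb a2 (b := [(0, 1)]) (by decide +kernel)
  have a5 := g.iw_conj z nb m3 (b := [(19, 1), (16, -1), (15, -1)]) (by decide +kernel)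
  have a6 := g.iw_conj z na a5 (b := [(17, 1), (20, -1), (21, -1)]) (by decide +kernel)
  refine t_of (r2_braid (g.bp z m3 m4 (i := 9) (j := 1) (by decide +kernel))
    (g.bp z a3 a4 (i := 27) (j := 1) (by decide +kernel)) (g.cm z _ _ _ _ (by decide +kernel))) ?_
  by_cases hp : p = 2
  · subst hp
    exact .inr (out_3D4 F q hq hK)
  · exact .inl ⟨p, Fact.out, hp, .inl (g.rtp p hp a1 a3 a6 (g.iw_app nb nb) (g.iw_app na na)
      (Z := [17, 20, 21, 22, 23]) (i := 26) (j := 0) (k := 27) (l := 1) (m := 21) (n := 0)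
      (by decide +kernel))⟩

end Ce
end CfH2
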