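import Cfsg.Agent.H2.Qk2
import Cfsg.Agent.H2.Tw6
import Cfsg.Agent.H1.Sz
import Cfsg.Agent.OD.Helper2x05727be519
import Cfsg.Agent.OD.Helper2xa36a137120

/-! Rank witnesses for the exceptional groups, II. -/

set_option autoImplicit false
set_option linter.unusedVariables false
set_option linter.unusedSectionVars false
open Cfsg Subgroup CfH9 CfH3.QK CfH2.Qc

namespace CfH2
namespace Ce
open Rg Cfsg.Lie Cert

variable {F : Type} [Field F]

theorem r2_comm {G G' : Type*} [Group G] [Group G'] (e : G ≃* G') {p : ℕ} :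
    PRankAtLeast p 2 (commutator G) → PRankAtLeast p 2 (commutator G') := rank_map
  ((e.subgroupMap _).trans (MulEquiv.subgroupCongr (by
    rw [commutator_def, Subgroup.map_commutator, map_top_of_surjective _ e.surjective]
    rfl))).toMonoidHom (MulEquiv.injective _)

def o1 (L : List ℕ) : IW := L.map fun r => (r, 1)

def nF : IW := o1 [33, 24] ++ o1 [14, 23] ++ o1 [33, 24] ++ (o1 [27, 25, 28] ++ o1 [19, 17] ++
  (o1 [28, 30] ++ o1 [27, 25, 28]))

set_option maxHeartbeats 2000000 in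
theorem r_2F4' [Fintype F] [CharP F 2] {Y : Subgroup (chevF4.group F)}
    (m1 : goodF4.iw F (o1 [33, 24]) ∈ Y) (m2 : goodF4.iw F (o1 [14, 23]) ∈ Y)
    (m3 : goodF4.iw F (o1 [28, 30]) ∈ Y) (m4 : goodF4.iw F (o1 [19, 17]) ∈ Y)
    (m5 : goodF4.iw F (o1 [27, 25, 28]) ∈ Y) :
    PRankAtLeast 3 2 (commutator Y) ∧ PRankAtLeast 5 2 (commutator Y) := by
  have g := goodF4
  have z : ((2 : ℕ) : F) = 0 := CharP.cast_eq_zero F 2
  have n : g.iw F nF ∈ Y :=
    g.iw_app (g.iw_app (g.iw_app m1 m2) m1) (g.iw_app (g.iw_app m5 m4) (g.iw_app m3 m5))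
  have w := g.iw_app n n
  have a1 := g.iw_conj z w m1 (b := o1 [39, 45]) (by decide +kernel)
  have a2 := g.iw_conj z w m2 (b := o1 [8, 2]) (by decide +kernel)
  have a3 := g.iw_conj z w m3 (b := o1 [3, 0]) (by decide +kernel)
  have a4 := g.iw_conj z w m4 (b := o1 [44, 47]) (by decide +kernel)
  exact ⟨g.dih z Nat.prime_three (by decide) m1 m2 a1 a2 (i := 0) (j := 1) (k := 0) (l := 1)
    (by decide +kernel), g.dih z Nat.prime_five (by decide) m3 m4 a3 a4 (i := 1) (j := 0) (k := 48)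
    (l := 0) (by decide +kernel)⟩

theorem r_2F4 [Fintype F] [CharP F 2] {e : ℕ} (he : 0 < e) :
    PRankAtLeast 3 2 (commutator (twistedF4 F e)) ∧ PRankAtLeast 5 2 (commutator (twistedF4 F e)) := by
  have g := goodF4
  refine (r_2F4' (Y := Subgroup.closure (g.wE '' f4Words F e)) ?_ ?_ ?_ ?_ ?_).imp
    (r2_comm (g.genEquiv (f4Words F e))) (r2_comm (g.genEquiv (f4Words F e))) <;>
    rw [Good.iw_eq'] <;> refine subset_closure ?_
  · exact ⟨_, .inl ⟨1, .inl rfl⟩, by simp [f4PairWord, f4p1, f4p4, o1]⟩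
  · exact ⟨_, .inl ⟨1, .inr rfl⟩, by simp [f4PairWord, f4m1, f4m4, o1]⟩
  · exact ⟨_, .inr ⟨0, 1, .inl rfl⟩, by
      simp [b2ClassWord, f4ab, f4aab, Good.wE, he.ne', g.xe_zero, o1]⟩
  · exact ⟨_, .inr ⟨0, 1, .inr rfl⟩, by
      simp [b2ClassWord, f4mab, f4maab, Good.wE, he.ne', g.xe_zero, o1]⟩
  · exact ⟨_, .inr ⟨1, 0, .inl rfl⟩, by
      simp [b2ClassWord, f4a, f4b, f4ab, Good.wE, he.ne', g.xe_zero, o1]⟩

theorem r_tits : PRankAtLeast 3 2 TitsGroup ∧ PRankAtLeast 5 2 TitsGroup :=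
  @r_2F4 (ZMod 2) _ (Fintype.ofFinite _) (ZMod.charP 2) 1 one_pos

theorem rt_E7 : RT 3 (chevE7.group F) :=
  rt_top (goodE7.rt3 (a := [(78, 1)]) (b := [(47, -1)]) (d := [(73, 1)]) (e := [(52, -1)])
    (f := [(66, 1)]) (g := [(59, -1)]) (s := nn' 69 56 ++ nn' 69 56) trivial trivial trivial trivial
    trivial trivial trivial (i := 85) (j := 3) (k := 59) (l := 0) (m := 73) (n := 3)
    (by decide +kernel) (by decide +kernel) (by decide +kernel))

theorem rt_E8 : RT 3 (chevE8.group F) :=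
  rt_top (goodE8.rt3 (a := [(141, 1)]) (b := [(98, -1)]) (d := [(135, 1)]) (e := [(104, -1)])
    (f := [(126, 1)]) (g := [(113, -1)]) (s := nn' 130 109 ++ nn' 130 109) trivial trivial trivial trivial
    trivial trivial trivial (i := 106) (j := 3) (k := 112) (l := 0) (m := 121) (n := 3)
    (by decide +kernel) (by decide +kernel) (by decide +kernel))

theorem big_Ree [Fintype F] {m : ℕ} (hm : 1 ≤ m) (hK : Fintype.card F = 3 ^ (2 * m + 1)) :
    PRankAtLeast 3 4 (twistedG2 F (3 ^ m)) := by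
  have := charP_of_card (p := 3) hK
  have g := goodG2
  refine rank_map (g.genEquiv (g2Words F (3 ^ m))).toMonoidHom (MulEquiv.injective _) ?_
  have c : cCm tG2 3 [8, 9, 10, 11] [8, 9, 10, 11] = true := by decide +kernel
  have z : ((3 : ℕ) : F) = 0 := CharP.cast_eq_zero F 3
  have e : ∀ x ∈ g.XL F [8, 9, 10, 11], x ^ 3 = 1 := by
    rw [Good.XL, iSup_subtype']
    refine CfH5.Iv.exp_sup (p := 3) (by decide) (Z := ⊥) (by
      rintro r _ ⟨t, rfl⟩; exact CfH5.Iv.xe_pow g _ t) (by simp) (by simp) fun r s x hx y hy => ?_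
    rw [mem_bot, commutatorElement_eq_one_iff_mul_comm]
    exact g.comm' z c (g.X_le_XL r.2 hx) (g.X_le_XL s.2 hy)
  refine ⟨(g.XL F [8, 9, 10, 11]).subgroupOf _, ⟨⟨fun x y => Subtype.ext (Subtype.ext
    (g.comm' z c x.2 y.2))⟩⟩, fun a ha => Subtype.ext (e _ ha), ?_⟩
  have w : ∀ u v : F, g.wE (reeWordU (3 ^ m) 0 u v) =
      g.xe 8 (u ^ 3 ^ m) * (g.xe 9 (v ^ 3 ^ m) * (g.xe 10 u * g.xe 11 v)) := fun u v => by
    simp [reeWordU, Good.wE, g.xe_zero, g2ab, g2aab, g2aaab, g2aaabb]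
  refine le_trans ?_ (le_card_of_par (α := F × F) (W := fun x => ⟨g.wE (reeWordU (3 ^ m) 0 x.1 x.2),
    subset_closure ⟨_, ⟨0, x.1, x.2, .inl rfl⟩, rfl⟩⟩) (fun x => ?_) fun x y k => ?_)
  · rw [Nat.card_prod, Nat.card_eq_fintype_card, hK, ← pow_add]
    exact Nat.pow_le_pow_right (by decide) (by omega)
  · rw [mem_subgroupOf, coe_mk, w]
    exact mul_mem (g.xe_XL (by simp) _) (mul_mem (g.xe_XL (by simp) _)
      (mul_mem (g.xe_XL (by simp) _) (g.xe_XL (by simp) _)))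
  have k := congrArg Subtype.val k
  simp only [w] at k
  have i : ∀ u v : F, u ^ 3 ^ m = v ^ 3 ^ m → u = v := fun u v e =>
    (iterateFrobenius F 3 m).injective e
  have d : ∀ (r : ℕ) (L : List ℕ) (α : List ℤ) (t u : F) (a b : chevG2.group F), (r < tG2.n ∧
      wα tG2 (α.getD · 0) r ≤ 0 ∧ ∀ s ∈ L, s < tG2.n ∧ 0 < wα tG2 (α.getD · 0) s) → a ∈ g.XL F L →
      b ∈ g.XL F L → g.xe r t * a = g.xe r u * b → t = u := fun r L α t u a b hc ha hb k => by
    have := g.indep α hc (t := -u + t) (by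
      rw [g.xe_add, g.xe_neg, eq_mul_inv_of_mul_eq k, ← mul_assoc, inv_mul_cancel_left]
      exact mul_mem hb (inv_mem ha))
    linear_combination this
  have m1 : ∀ u v : F, g.xe 10 u * g.xe 11 v ∈ g.XL F [10, 11] := fun u v =>
    mul_mem (g.xe_XL (by simp) _) (g.xe_XL (by simp) _)
  have m2 : ∀ t u v : F, g.xe 9 t * (g.xe 10 u * g.xe 11 v) ∈ g.XL F [9, 10, 11] := fun t u v =>
    mul_mem (g.xe_XL (by simp) _) (g.XL_mono (by simp) (m1 u v))
  have e1 := d 8 [9, 10, 11] [1, -1] _ _ _ _ (by decide +kernel) (m2 _ _ _) (m2 _ _ _) k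
  rw [e1, mul_right_inj, ← mul_assoc, ← mul_assoc,
    g.comm' z c (g.xe_XL (s := 9) (by simp) _) (g.xe_XL (s := 10) (by simp) _),
    g.comm' z c (g.xe_XL (s := 9) (by simp) _) (g.xe_XL (s := 10) (by simp) _), i _ _ e1, mul_assoc,
    mul_assoc, mul_right_inj] at k
  exact Prod.ext (i _ _ e1) (i _ _ (d 9 [11] [-1, 2] _ _ _ _ (by decide +kernel)
    (g.xe_XL (by simp) _) (g.xe_XL (by simp) _) k))

end Ce

namespace Qc
open CfH1

theorem szd_card {L : Type*} [Group L] [Finite L] {F : Type*} [Field F] [CharP F 2] [Finite F]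
    (D : SzD L F) : Nat.card L = Nat.card F ^ 2 * ((Nat.card F ^ 2 + 1) * (Nat.card F - 1)) := by
  let f : ((F × F) × Fˣ) ⊕ ((F × F) × (F × F) × Fˣ) → L := Sum.elim (fun x => D.t x.1.1 x.1.2 * D.h x.2)
    fun x => D.t x.1.1 x.1.2 * D.w * (D.t x.2.1.1 x.2.1.2 * D.h x.2.2)
  have i : ∀ a b c d μ ν, D.t a b * D.h μ = D.t c d * D.h ν → ((a, b), μ) = ((c, d), ν) := by
    intro a b c d μ ν e
    obtain ⟨u, v, k⟩ := mul_mem (inv_mem (D.t_mem c d)) (D.t_mem a b)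
    obtain ⟨rfl, rfl, k2⟩ := D.th_inj u v (μ * ν⁻¹) (by
      rw [← k, map_mul, map_inv, mul_assoc, ← mul_assoc (D.t a b), e]; group)
    rw [D.t_zero, inv_mul_eq_one] at k
    obtain ⟨rfl, rfl⟩ := D.t_inj k
    rw [mul_inv_eq_one.1 k2]
  have B : ∀ a b μ, D.t a b * D.h μ ∈ D.B := fun a b μ => ⟨_, D.t_mem a b, μ, rfl⟩
  have n : ∀ a b μ c d e g ν, D.t a b * D.h μ ≠ D.t c d * D.w * (D.t e g * D.h ν) := by
    intro a b μ c d e g ν k
    refine D.w_not_mem ?_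
    convert mul_mem (mul_mem (inv_mem (D.T_le_B (D.t_mem c d))) (B a b μ)) (inv_mem (B e g ν)) using 1
    rw [k]; group
  rw [← Nat.card_eq_of_bijective f ⟨?_, fun g => ?_⟩]
  · simp only [Nat.card_sum, Nat.card_prod, Nat.card_units]; ring
  · rintro (⟨⟨a, b⟩, μ⟩ | ⟨⟨a, b⟩, ⟨c, d⟩, μ⟩) (⟨⟨a', b'⟩, μ'⟩ | ⟨⟨a', b'⟩, ⟨c', d'⟩, μ'⟩) k
    · exact congrArg _ (i _ _ _ _ _ _ k)
    · exact absurd k (n _ _ _ _ _ _ _ _)
    · exact absurd k.symm (n _ _ _ _ _ _ _ _)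
    · replace k : D.t a b * D.w * (D.t c d * D.h μ) = D.t a' b' * D.w * (D.t c' d' * D.h μ') := k
      have := D.ti' (mul_mem (inv_mem (D.t_mem a' b')) (D.t_mem a b)) (by
        convert mul_mem (B c' d' μ') (inv_mem (B c d μ)) using 1
        rw [eq_mul_inv_iff_mul_eq, mul_assoc, mul_assoc, mul_assoc, ← mul_assoc (D.t a b), k,
          mul_assoc, inv_mul_cancel_left, ← mul_assoc, D.w_w, one_mul])
      rw [inv_mul_eq_one] at this
      obtain ⟨rfl, rfl⟩ := D.t_inj this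
      rw [i _ _ _ _ _ _ (mul_left_cancel k)]
  · rcases D.bruhat g with ⟨a, b, μ, rfl⟩ | ⟨a, b, c, d, μ, rfl⟩
    exacts [⟨.inl ((a, b), μ), rfl⟩, ⟨.inr ((a, b), (c, d), μ), rfl⟩]

variable {K : Type*} [Group K] [Finite K]

theorem sz_card (h : Lie.IsoSuzuki K) :
    ∃ k, Odd k ∧ 3 ≤ k ∧ Nat.card K = 4 ^ k * ((4 ^ k + 1) * (2 ^ k - 1)) := by
  obtain ⟨F, _, _, m, h1, h2, ⟨e⟩⟩ := h
  have := charP_of_card_eq_prime_pow h2
  obtain ⟨D⟩ := Suz.nonempty_szD h2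
  have := Finite.of_equiv _ e.toEquiv
  refine ⟨2 * m + 1, odd_two_mul_add_one m, by omega, ?_⟩
  rw [Nat.card_congr e.toEquiv, szd_card D, Nat.card_eq_fintype_card, h2, ← pow_mul, mul_comm _ 2,
    pow_mul]
  rfl

theorem t_Sz [IsSimpleGroup K] (hK : ¬ IsMulCommutative K) (h : Lie.IsoSuzuki K) : T K := by
  refine ⟨.inr h, .inl (.inr (.inl h)), .inr (.inl ?_)⟩
  obtain ⟨F, _, _, m, h1, h2, ⟨e⟩⟩ := h
  have := charP_of_card_eq_prime_pow h2
  obtain ⟨D⟩ := Suz.nonempty_szD h2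
  have := Finite.of_equiv _ e.toEquiv
  have hS : SylIn 2 (D.T.comap e.toMonoidHom) ⊤ := ⟨le_top, D.isPGroup_T.comap_of_injective _ e.injective,
    fun Q h1 _ h3 => map_le_iff_le_comap.1 (D.sylIn_T.max _ (h1.map _) le_top fun x hx =>
      ⟨e.symm x, h3 (by simpa using hx), by simp⟩)⟩
  have o : ∀ {s : K}, orderOf s = 2 → e s ≠ 1 ∧ e s * e s = 1 := fun h => ⟨fun c => by
    rw [(map_eq_one_iff e e.injective).1 c, orderOf_one] at h; omega, by
    rw [← map_mul, ← sq, orderOf_dvd_iff_pow_eq_one.1 h.dvd, map_one]⟩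
  refine Cfsg.Agent.S3066.result hK hS.toSylowTop (ne_bot_of_mem (a := e.symm (D.t 0 1))
    (by simpa [SylIn.toSylowTop] using D.t_mem 0 1) (by simpa using D.t01_ne))
    (.inr (.inr ⟨fun s hs t ht s2 t2 => e.injective ?_, fun s hs t ht s2 t2 => ?_⟩))
  · obtain ⟨b, hb⟩ := D.exists_t0 hs (o s2).2
    obtain ⟨c, hc⟩ := D.exists_t0 ht (o t2).2
    replace hb : e s = _ := hb
    replace hc : e t = _ := hc
    simp [hb, hc, D.t_mul, add_comm]
  · obtain ⟨g, hg⟩ := D.conj_invol (o s2).1 (o s2).2 (o t2).1 (o t2).2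
    exact ⟨e.symm g, e.injective (by simpa using hg)⟩

open Ce Lie in
theorem t_exc [IsSimpleGroup K] (hK : ¬ IsMulCommutative K) (h : IsExceptionalLieType K) : T K := by
  have r : ∀ {L : Type} [Group L], (K ≃* L) → RT 3 L → T K := fun e h =>
    T.of_rt3 (h.map e.symm.toMonoidHom e.symm.injective)
  have r2 : ∀ {L : Type} [Group L], (K ≃* L) → PRankAtLeast 3 2 L ∧ PRankAtLeast 5 2 L → T K :=
    fun e h => T.of_c (rank_map e.symm.toMonoidHom e.symm.injective h.1)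
      (NS.of_five (.inr (rank_map e.symm.toMonoidHom e.symm.injective h.2)))
  rcases h with ⟨F, _, _, -, ⟨e⟩⟩ | ⟨F, _, _, ⟨e⟩⟩ | ⟨F, _, _, ⟨e⟩⟩ | ⟨F, _, _, ⟨e⟩⟩ | ⟨F, _, _, ⟨e⟩⟩ |
    ⟨F, _, _, q, h1, h2, ⟨e⟩⟩ | ⟨F, _, _, q, h1, h2, ⟨e⟩⟩ | h | ⟨F, _, _, m, h1, h2, ⟨e⟩⟩ |
    ⟨F, _, _, m, h1, h2, ⟨e⟩⟩ | ⟨⟨e⟩⟩
  · exact t_G2.equiv e
  · exact r e rt_F4
  · exact r e rt_E6
  · exact r e rt_E7
  · exact r e rt_E8
  · exact r e (rt_2E6 q h1.pos (neg_one_q h1 h2))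
  · exact (t_3D4 q h1 h2).equiv e
  · exact t_Sz hK h
  · have := rank_map e.symm.toMonoidHom e.symm.injective (big_Ree h1 h2)
    exact T.of_big (dvd_of_rank Nat.prime_three (by omega) this)
      ⟨3, Nat.prime_three, by omega, .inr this⟩
  · have := charP_of_card_eq_prime_pow h2
    exact r2 e ((r_2F4 (by positivity)).imp (rank_map (Subgroup.subtype _) (subtype_injective _))
      (rank_map (Subgroup.subtype _) (subtype_injective _)))
  · have i := e.symm.injective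
    have a := rank_map e.symm.toMonoidHom i r_tits.1
    have b := rank_map e.symm.toMonoidHom i r_tits.2
    exact T.of_c a (NS.of_five (.inr b))

end Qc
end CfH2
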