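import Cfsg.Agent.H2.AutO2
import Cfsg.Agent.H3.QK0

/-! Rank witnesses for the orthogonal groups. -/

set_option autoImplicit false
set_option linter.unusedVariables false
set_option linter.unusedSectionVars false
open Cfsg Subgroup CfH3.QK Module QuadraticMap Matrix

namespace CfH2

variable {F V : Type*} [Field F] [AddCommGroup V] [Module F V] [FiniteDimensional F V]
  {Q : QuadraticForm F V} {G : Type*} [Group G] {ρ : G →* (V ≃ₗ[F] V)} [Finite F]

theorem Rep.rt_orth (hρ : Rep ρ (Orth Q)) (h : QWF Q) (hn : 5 ≤ finrank F V) (v w u t : Fin 3 → V)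
    (hw : ∀ i, Q (v i) ≠ 0 ∧ Q (w i) = Q (v i) ∧ polar Q (v i) (w i) = -Q (v i) ∧ Q (u i) = Q (v i) ∧
      polar Q (u i) (v i) = 0 ∧ polar Q (u i) (w i) = 0 ∧ polar Q (t i) (v i) = 0 ∧ polar Q (t i) (w i) ≠ 0)
    (ho : ∀ i j, i ≠ j → polar Q (v i) (v j) = 0 ∧ polar Q (v i) (w j) = 0 ∧ polar Q (w i) (w j) = 0) :
    RT 3 (commutator G ⧸ center (commutator G)) := by
  choose h0 h1 h2 h3 h4 h5 h6 h7 using hw
  have m : ∀ i a, Q a = Q (v i) → hρ.rG (v i) * hρ.rG a ∈ commutator G := fun i a ha => by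
    obtain ⟨c, hc⟩ := isConj_iff.1 (hρ.isConj_rG h (h0 i) (ha ▸ h0 i) (ha ▸ ⟨_, rfl⟩))
    rw [← hc, ← mul_assoc, ← mul_assoc]
    nth_rewrite 2 [← hρ.rG_inv]
    exact commutator_mem_commutator trivial trivial
  have cm : ∀ {a b}, polar Q a b = 0 → Commute (hρ.rG a) (hρ.rG b) := fun e =>
    hρ.inj (by rw [map_mul, map_mul, hρ.map_rG, hρ.map_rG, rf_comm e])
  have r1 : ∀ i, rf Q (v i) (w i) = v i + w i := fun i => by
    rw [rf_apply, h2, mul_neg, inv_mul_cancel₀ (h0 i), neg_smul, one_smul, sub_neg_eq_add, add_comm]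
  have r2 : ∀ i, rf Q (w i) (v i) = v i + w i := fun i => by
    rw [rf_apply, polar_comm, h2, h1, mul_neg, inv_mul_cancel₀ (h0 i), neg_smul, one_smul, sub_neg_eq_add]
  let X : Fin 3 → commutator G := fun i => ⟨_, m i _ (h1 i)⟩
  let π := QuotientGroup.mk' (center (commutator G))
  have c3 : ∀ i, X i ^ 3 = 1 := fun i => Subtype.ext (by
    have a := hρ.rG_conj (hρ.rG (v i)) (w i)
    have b := hρ.rG_conj (hρ.rG (w i)) (v i)
    rw [hρ.map_rG, hρ.rG_inv] at a b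
    rw [r1] at a; rw [r2] at b
    change (hρ.rG (v i) * hρ.rG (w i)) ^ 3 = 1
    rw [← hρ.rG_mul_self (v i + w i)]
    nth_rw 1 [← a]
    rw [← b, pow_three]; simp only [mul_assoc])
  have cc : ∀ i j, i ≠ j → Commute (X i) (X j) := fun i j e => Subtype.ext
    (((cm (ho i j e).1).mul_right (cm (ho i j e).2.1)).mul_left
      ((cm (ho j i e.symm).2.1).symm.mul_right (cm (ho i j e).2.2))).eq
  have iv : ∀ i, IsConj (π (X i)) (π (X i))⁻¹ := fun i => by
    rw [← map_inv]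
    refine π.map_isConj (isConj_iff.2 ⟨⟨_, m i _ (h3 i)⟩, Subtype.ext ?_⟩)
    change hρ.rG (v i) * hρ.rG (u i) * (hρ.rG (v i) * hρ.rG (w i)) * (hρ.rG (v i) * hρ.rG (u i))⁻¹ =
      (hρ.rG (v i) * hρ.rG (w i))⁻¹
    rw [mul_assoc (hρ.rG (v i)), ((cm (h4 i)).mul_right (cm (h5 i))).eq, ← mul_assoc, ← mul_assoc,
      hρ.rG_mul_self, one_mul, _root_.mul_inv_rev, _root_.mul_inv_rev, ← mul_assoc, mul_inv_cancel_right, hρ.rG_inv (w i)]
  have fx : ∀ i j, i ≠ j → ∀ k : ℕ, omRep ρ (X j ^ k) (v i) = v i := fun i j e k => by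
    induction k with
    | zero => simp
    | succ k ih =>
      rw [pow_succ', map_mul, LinearEquiv.mul_apply, ih]
      change ρ (_ * _) _ = _
      rw [map_mul, LinearEquiv.mul_apply, hρ.map_rG, hρ.map_rG, rf_of_polar (v := w j) (by rw [polar_comm]; exact (ho i j e).2.1),
        rf_of_polar (ho j i e.symm).1]
  have key : ∀ i j k, i ≠ j → i ≠ k → ∀ a b c : ℕ, π (X i) ^ a * π (X j) ^ b * π (X k) ^ c = 1 → 3 ∣ a := by
    intro i j k ij ik a b c e
    rw [← map_pow, ← map_pow, ← map_pow, ← map_mul, ← map_mul] at e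
    obtain ⟨l, hl⟩ := ((hρ.setup_omega h hn).ker _).1 e
    have e := congrArg (polar Q (t i)) (hl (v i))
    rw [map_mul, map_mul, LinearEquiv.mul_apply, LinearEquiv.mul_apply, fx i k ik, fx i j ij, polar_smul_right, h6,
      smul_zero, pow_eq_pow_mod a (c3 i)] at e
    have x1 : omRep ρ (X i) (v i) = w i := by
      change ρ (_ * _) _ = _
      rw [map_mul, LinearEquiv.mul_apply, hρ.map_rG, hρ.map_rG, r2, map_add, r1, rf_self (h0 i), neg_add_cancel_left]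
    have x2 : omRep ρ (X i) (w i) = -(v i + w i) := by
      change ρ (_ * _) _ = _
      rw [map_mul, LinearEquiv.mul_apply, hρ.map_rG, hρ.map_rG, rf_self (h1 i ▸ h0 i), map_neg, r1]
    by_contra n
    rcases (by omega : a % 3 = 1 ∨ a % 3 = 2) with k | k <;> rw [k] at e
    · exact h7 i (by rwa [pow_one, x1] at e)
    · exact h7 i (by rwa [pow_two, map_mul, LinearEquiv.mul_apply, x1, x2, polar_neg_right, polar_add_right, h6, zero_add,
        neg_eq_zero] at e)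
  have p3 : ∀ i, π (X i) ^ 3 = 1 := fun i => by rw [← map_pow, c3, map_one]
  have c01 := (cc 0 1 (by decide)).map π
  have c02 := (cc 0 2 (by decide)).map π
  have c12 := (cc 1 2 (by decide)).map π
  refine ⟨_, _, _, p3 0, p3 1, p3 2, c01, c02, c12, iv 0, iv 1, iv 2, fun a b c e => ⟨key 0 1 2 (by decide)
    (by decide) a b c e, key 1 0 2 (by decide) (by decide) b a c ?_, key 2 0 1 (by decide) (by decide) c a b ?_⟩⟩
  · rwa [← (c01.pow_pow a b).eq]
  · rwa [mul_assoc, ← ((c02.pow_pow a c).mul_left (c12.pow_pow b c)).eq]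

theorem Rep.rt_orth' (hρ : Rep ρ (Orth Q)) (h : QWF Q) (hn : 5 ≤ finrank F V) (d : F) (j : (Fin 8 → F) → V)
    (ha : ∀ c c', j c + j c' = j (c + c'))
    (hQ : ∀ c, Q (j c) = c 0 * c 1 + c 2 * c 3 + c 4 * c 5 + (c 6 ^ 2 - c 6 * c 7 + d * c 7 ^ 2)) :
    RT 3 (commutator G ⧸ center (commutator G)) := by
  refine hρ.rt_orth h hn (fun i => j (![![1, 1, 0, 0, 0, 0, 0, 0], ![0, -0, 1, -1, 0, 0, 0, 0], ![0, 0, 0, 0, 0, 0, 1, 0]] i))
    (fun i => j (![![-1, 0, 1, 1, 0, 0, 0, 0], ![1, -1, -1, 0, 0, 0, 0, 0], ![0, 0, 0, 0, 1, 1 - d, 0, 1]] i))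
    (fun i => j (![![0, 0, 0, 0, 0, 0, 1, 0], ![0, 0, 0, 0, 1, -1, 0, 0], ![1, 1, 0, 0, 0, 0, 0, 0]] i))
    (fun i => j (![![0, 0, 1, 0, 0, 0, 0, 0], ![1, 0, 0, 0, 0, 0, 0, 0], ![0, 0, 0, 0, 0, 1, 0, 0]] i))
    (fun i => ?_) fun i k e => ?_
  · fin_cases i <;> simp [polar, ha, hQ, add_assoc]
  · fin_cases i <;> fin_cases k <;> simp [polar, ha, hQ, add_assoc] at e ⊢

namespace Qc
variable {K : Type*} [Group K] [Finite K]

/-- three hyperbolic planes -/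
def h3 {F : Type*} {k : ℕ} (c : Fin 8 → F) (x y : Fin k → F) : Fin (k + 3) ⊕ Fin (k + 3) → F :=
  Sum.elim (vecCons (c 0) (vecCons (c 2) (vecCons (c 4) x))) (vecCons (c 1) (vecCons (c 3) (vecCons (c 5) y)))

theorem h3_add {F : Type*} [Add F] {k : ℕ} (c c' : Fin 8 → F) (x y x' y' : Fin k → F) :
    h3 c x y + h3 c' x' y' = h3 (c + c') (x + x') (y + y') := by
  rw [h3, h3, ← Sum.elim_add_add]; simp [h3]

theorem t_odd (h : IsPOmegaOdd K) : T K := by
  obtain ⟨F, _, _, m, hm, ho, ⟨e⟩⟩ := h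
  have h2 : (2 : F) ≠ 0 := two_ne_zero_of_odd_card ho
  obtain ⟨k, rfl⟩ : ∃ k, m = k + 3 := ⟨m - 3, by omega⟩
  refine T.of_rt3 (RT.map e.symm.toMonoidHom e.symm.injective ?_)
  rw [← coe_qOdd]
  refine (rep_O _).rt_orth' (qwf_qOdd h2 _) (by simp; omega) (2⁻¹ ^ 2)
    (fun c => Sum.elim (fun _ => c 6 - 2⁻¹ * c 7) (h3 c 0 0)) (fun c c' => ?_) fun c => ?_
  · rw [← Sum.elim_add_add, h3_add, add_zero]
    congr; ext; simp; ring
  · simp [qOdd_apply, quadFormOdd, h3, Fin.sum_univ_succ]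
    field_simp; ring

theorem t_plus (h : IsPOmegaPlus K) : T K := by
  obtain ⟨F, _, _, m, hm, ⟨e⟩⟩ := h
  obtain ⟨k, rfl⟩ : ∃ k, m = k + 1 + 3 := ⟨m - 4, by omega⟩
  refine T.of_rt3 (RT.map e.symm.toMonoidHom e.symm.injective ?_)
  rw [← coe_qPlus]
  refine (rep_O _).rt_orth' (qwf_of_nondeg (nondeg_qPlus _)) (by simp; omega) 0
    (fun c => h3 c (vecCons (c 6) 0) (vecCons (c 6 - c 7) 0)) (fun c c' => ?_) fun c => ?_
  · rw [h3_add]; simp [add_sub_add_comm]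
  · simp [qPlus_apply, quadFormPlus, h3, Fin.sum_univ_succ]
    ring

theorem t_minus (h : IsPOmegaMinus K) : T K := by
  obtain ⟨F, _, _, m, a, b, hm, hab, ⟨e⟩⟩ := h
  obtain ⟨k, hk⟩ : ∃ k, m - 1 = k + 3 := ⟨m - 4, by omega⟩
  refine T.of_rt3 (RT.map e.symm.toMonoidHom e.symm.injective ?_)
  rw [hk, ← coe_qMinus]
  obtain ⟨s, t, st⟩ : ∃ s t : F, 2 * s + a * t = -1 := by
    by_cases h2 : (2 : F) = 0
    · obtain ⟨c, rfl⟩ := FiniteField.isSquare_of_char_two (ringChar.eq_iff.2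
        (CharTwo.of_one_ne_zero_of_two_eq_zero one_ne_zero h2)) b
      have : a ≠ 0 := by
        rintro rfl
        exact one_ne_zero (hab c 1 (by linear_combination c * c * h2)).2
      exact ⟨0, -a⁻¹, by field_simp; simp⟩
    · exact ⟨-2⁻¹, 0, by field_simp; simp⟩
  refine (rep_O _).rt_orth' (qwf_of_nondeg (nondeg_qMinus hab _)) (by simp; omega)
    (s ^ 2 + a * s * t + b * t ^ 2) (fun c => Sum.elim (h3 c 0 0) ![c 6 + s * c 7, t * c 7]) (fun c c' => ?_)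
      fun c => ?_
  · rw [← Sum.elim_add_add, h3_add, add_zero]
    simp [mul_add, add_add_add_comm]
  · simp [qMinus_apply, quadFormMinus, h3, Fin.sum_univ_succ]
    linear_combination c 6 * c 7 * st

end Qc
end CfH2
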