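import Cfsg.Agent.H3.QK0
import Cfsg.Agent.L.Ico7

/-! Rank witnesses for the Hall–Janko group. -/

set_option autoImplicit false
open Cfsg Subgroup CfH3.QK CfH6

namespace CfH2.Qc

theorem t_j2 {K : Type*} [Group K] [Finite K] (h : Spor.IsoJ2 K) : T K := by
  have := J2P.fin
  refine T.equiv (h.some.trans CfL.Ico.isoJ2.some.symm) (T.of_c ?_ (NS.of_primes fun r hr hd => ?_))
  · have hr := J2B.hrel
    have i1 : J2B.el 2 = (J2B.el 1)⁻¹ := J2B.hinv 1 (by decide)
    have i5 : J2B.el 6 = (J2B.el 5)⁻¹ := J2B.hinv 5 (by decide)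
    have i7 : J2B.el 7 = (J2B.el 7)⁻¹ := J2B.hinv 7 (by decide)
    have i3 : J2B.el 3 = (J2B.el 3)⁻¹ := J2B.hinv 3 (by decide)
    simp only [J2B.rels, List.forall_mem_cons, evw_cons, evw_nil, mul_one, i1, i5] at hr
    obtain ⟨x3, -, sx, -, y3, -, -, -, -, -, yx, ys, -, -, dx, -⟩ := hr
    have y1 : J2B.el 5 ≠ 1 := fun e => by
      let := J2A.act
      exact one_ne_zero (J2P.y_fix (p := 1) (by decide) (by rw [show J2P.el 5 = 1 from e, one_smul]))
    generalize J2B.el 1 = x, J2B.el 5 = y, J2B.el 3 = s, J2B.el 7 = d at *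
    refine rank2_of Nat.prime_three (x := y) (y := x) (by rw [pow_three, y3]) (by rw [pow_three, x3]) y1
      (by rw [← mul_inv_eq_one, ← conj_eq_one_iff (a := (x * y)⁻¹), ← yx]; group) fun ⟨k, hk⟩ => y1 ?_
    have c : Commute s y := by
      rw [inv_mul_eq_one, ← mul_assoc, eq_comm, ← eq_mul_inv_iff_mul_eq, ← i3] at ys
      exact ys
    have c2 : s * x = x * s := hk ▸ (c.zpow_right k).eq
    rw [← mul_assoc x, ← c2, ← mul_assoc, ← mul_assoc, mul_eq_one_iff_eq_inv.2 i3, one_mul] at sx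
    rw [sx, mul_one] at x3
    rwa [x3, one_mul, one_mul, ← mul_assoc, mul_eq_one_iff_eq_inv.2 i7, one_mul, inv_eq_one] at dx
  · rw [J2P.card, show 604800 = 2 ^ 7 * 3 ^ 3 * 5 ^ 2 * 7 ^ 1 by norm_num] at hd
    have q : ∀ {s t : ℕ}, s.Prime → r ∣ s ^ t → r = s := fun hs h =>
      (Nat.prime_dvd_prime_iff_eq hr hs).1 (hr.dvd_of_dvd_pow h)
    simp only [hr.dvd_mul] at hd
    rcases hd with ((h | h) | h) | h <;> (rw [q (by norm_num) h]; decide)

end CfH2.Qc
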