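import Cfsg.Agent.H3.QK5
import Cfsg.Agent.H7.CharP
import Cfsg.Agent.H7.PRed

/-! Nonsolvable uniqueness subgroups from the structure of `𝒞`-components. -/

set_option autoImplicit false
set_option linter.unusedVariables false
open Subgroup Cfsg Function CfH9 CfH7 CfH8 CfH1 CfFT CfH3.QK
open scoped commutatorElement

namespace CfH2.Uq
universe u
variable {G : Type u} [Group G] [Finite G]

/-- the structure of the `𝒞`-components -/
def W (H : Type u) [Group H] : Prop := perfectCore H ≤ sSup (calC H) ∧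
  (∀ K ∈ calC H, ∀ K' ∈ calC H, K ≠ K' → ⁅K, K'⁆ ≤ pCore 2 H) ∧ ∀ K ∈ calC H, K.Normal ∨ (Nm(K)).index = 2

theorem sol_of_syl {S E V A : Subgroup G} (hS : SylIn 2 S V) (SE : S ≤ E) (hE : Sol E) (AV : A ≤ V) (EV : E ≤ V)
    (hn : A ≤ Nm(E)) : Sol A := by
  have n : A ⊔ E ≤ Nm(E) := sup_le hn le_normalizer
  have := sylIn_qb n (hS.mono (SE.trans le_sup_right) (sup_le AV EV))
  exact CfH1.isSolvable_of_le le_sup_left (sol_of_qb n hE (solvable_of_odd (Nat.coprime_two_right.1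
    (Nat.coprime_comm.1 ((Nat.Prime.coprime_iff_not_dvd Nat.prime_two).2 (this.eq_bot_iff.1
      ((qb_eq_bot_iff (SE.trans le_normalizer)).2 SE)))))))

omit [Finite G] in
theorem comm_sSup {S : Set (Subgroup G)} {A Q : Subgroup G} [Q.Normal] (h : ∀ K ∈ S, ⁅K, A⁆ ≤ Q) : ⁅sSup S, A⁆ ≤ Q := by
  have k : ∀ K : Subgroup G, ⁅K, A⁆ ≤ Q ↔ K ≤ (Cz(A.map (QuotientGroup.mk' Q))).comap (QuotientGroup.mk' Q) := fun K => by
    rw [← map_le_iff_le_comap, ← commutator_eq_bot_iff_le_centralizer, ← Subgroup.map_commutator,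
      Subgroup.map_eq_bot_iff, QuotientGroup.ker_mk']
  exact (k _).2 (sSup_le fun K hK => (k K).1 (h K hK))

omit [Finite G] in
theorem Nm_sSup [Finite G] {S : Set (Subgroup G)} {X : Subgroup G} (h : ∀ D ∈ S, X ≤ Nm(D)) : X ≤ Nm(sSup S) := by
  intro g hg
  apply mem_normalizer_of_cj_le
  rw [cj_le_iff]
  refine sSup_le fun D hD => ?_
  rw [← cj_le_iff, cj_eq_of_mem_normalizer (h D hD hg)]
  exact le_sSup hD

theorem key (hW : W G) {T : Subgroup G} (hT : SylIn 2 T ⊤) {B : Type u} [Group B] [Finite B] {f : B →* G}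
    (hf : Injective f) (hTf : T ≤ f.range) {L0 : Subgroup B} (h0 : L0 ∈ calC B) : ∃ K ∈ calC G, L0.map f ≤ K := by
  obtain ⟨w1, w2, -⟩ := hW
  set L := L0.map f with eL
  have pL : ⁅L, L⁆ = L := by rw [← Subgroup.map_commutator, h0.2.1]
  have LX : L ≤ sSup (calC G) := ((le_PC le_top pL).trans PC_top.le).trans w1
  have XN : ∀ K ∈ calC G, sSup (calC G) ≤ Nm(K) := fun K hK => sSup_le fun K' hK' => by
    by_cases e : K' = K
    exacts [e ▸ le_normalizer, (cc_comm_sol hK' hK e).1]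
  by_contra! n
  have s2 : Sol (pCore 2 G) := sol_of_isPGroup (isPGroup_pCore 2 G)
  refine h0.1 ((map_eq_bot_iff_of_injective _ hf).1 (eq_bot_of_perfect_of_isSolvable pL (CfH1.isSolvable_of_le
    (pL.ge.trans ((commutator_mono LX le_rfl).trans (comm_sSup fun K hK => ?_))) s2)))
  have LK := LX.trans (XN K hK)
  set Y := sSup (calC G \ {K})
  have YX : Y ≤ sSup (calC G) := sSup_le_sSup Set.sdiff_subset
  have XY : sSup (calC G) ≤ Nm(Y) := Nm_sSup fun D hD => XN D hD.1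
  have KX : K ≤ sSup (calC G) := le_sSup hK
  have cY : ⁅Y, K⁆ ≤ pCore 2 G := comm_sSup fun D hD => w2 D hD.1 K hK hD.2
  have sD : Sol (L ⊓ K) := by
    have := isSolvable_map f (cc_sol h0 (N := L0 ⊓ K.comap f) ((subnIn_of_normal inf_le_left
      (le_Nm_inf_comap LK)).isSubnormal h0.2.2.1) (lt_of_le_of_ne inf_le_left fun e =>
        n K hK (map_le_iff_le_comap.2 (inf_eq_left.1 e))))
    rwa [map_inf_comap'] at this
  have TL : T ⊓ K ≤ Nm(L) := fun t ht => by
    obtain ⟨b, rfl⟩ := hTf ht.1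
    by_contra c
    obtain ⟨c1, c2⟩ := cc_comm_sol (cc_cj h0 b) h0 fun e => c (mem_normalizer_iff_cj.2 (by rw [eL, ← map_cj, e]))
    replace c1 := (map_mono c1).trans (le_normalizer_map f)
    replace c2 := isSolvable_map f c2
    rw [Subgroup.map_commutator, map_cj] at c2
    rw [map_cj] at c1
    set M := cj (f b) L
    have MK : M ≤ Nm(K) := (cj_mono _ LK).trans (cj_eq_of_mem (le_normalizer ht.2)).le
    have ML := (comm_le_right c1).trans LK
    refine n K hK (le_of_perfect_sup pL LK ML (pL.ge.trans ((commutator_mono (fun l hl => ?_ : L ≤ M ⊔ K)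
      le_rfl).trans (commutator_sup_left_le (CfH7.le_normalizer_sup (left_le_Nm_comm _ _) MK) (le_sup_right.trans
        le_normalizer) le_sup_left ((comm_le_left LK).trans le_sup_right)))) c2)
    have : l = f b * l * (f b)⁻¹ * (f b * (l⁻¹ * (f b)⁻¹ * l⁻¹⁻¹)) := by group
    rw [this]
    exact mul_mem_sup (mem_cj.2 (by simpa [mul_assoc] using hl))
      (mul_mem ht.2 ((mem_normalizer_iff.1 (LK (inv_mem hl)) _).1 (inv_mem ht.2)))
  set E := T ⊓ K ⊔ L ⊓ K ⊔ pCore 2 G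
  have EK : T ⊓ K ⊔ L ⊓ K ≤ K := sup_le inf_le_right inf_le_right
  have sE : Sol E := sol_sup (sol_sup (sol_of_isPGroup (hT.pgrp.to_le inf_le_left)) sD
    (CfH7.le_normalizer_inf TL (inf_le_right.trans le_normalizer))) s2 le_normalizer_of_normal
  have LE : L ≤ Nm(E) := CfH7.le_normalizer_sup (le_Nm_sup_of_comm_le (CfH7.le_normalizer_inf le_normalizer LK)
    ((le_inf (comm_le_right TL) ((commutator_mono inf_le_right le_rfl).trans (comm_le_left LK))).trans
      le_sup_right)) le_normalizer_of_normal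
  have YE : Y ≤ Nm(E) := le_Nm_sup_of_comm_le le_normalizer_of_normal
    ((commutator_mono EK le_rfl).trans ((commutator_comm K Y ▸ cY).trans le_sup_right))
  have sP : Sol (K ⊓ (L ⊔ Y)) := sol_of_syl ((subnIn_top_iff.2 hK.2.2.1).sylIn_inf hT) (E := E ⊓ K)
    (le_inf (le_sup_left.trans le_sup_left) inf_le_right) (CfH1.isSolvable_of_le inf_le_left sE) inf_le_left
    inf_le_right (CfH7.le_normalizer_inf (inf_le_right.trans (sup_le LE YE)) (inf_le_left.trans le_normalizer))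
  rw [commutator_comm]
  refine (commutator_mono (le_of_perfect_sup pL (LX.trans XY) ((inf_le_left.trans KX).trans XY) (fun l hl => ?_) sP)
    le_rfl).trans cY
  obtain ⟨k, hk, y, hy, rfl⟩ := (mem_sup_of_le_Nm (KX.trans XY)).1 ((sSup_le fun D hD => by
    by_cases e : D = K
    exacts [e ▸ le_sup_left, (le_sSup (Set.mem_sdiff_singleton.2 ⟨hD, e⟩)).trans le_sup_right] : sSup (calC G) ≤ K ⊔ Y) (LX hl))
  exact mul_mem_sup ⟨hk, by simpa using mul_mem_sup hl (inv_mem hy)⟩ hy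

omit [Finite G] in
theorem cc_sub {H B : Subgroup G} {K : Subgroup H} (hK : K ∈ calC H) (h1 : K.map H.subtype ≤ B) (h2 : B ≤ H) :
    (K.map H.subtype).subgroupOf B ∈ calC B := by
  have s := (subnIn_map_subtype_iff.2 hK.2.2.1)
  have e : ((K.map H.subtype).subgroupOf B).map (inclusion h2) = K := by
    ext x
    constructor
    · rintro ⟨y, ⟨z, hz, e⟩, rfl⟩
      exact (Subtype.ext e : z = inclusion h2 y) ▸ hz
    · exact fun hx => ⟨⟨x, h1 ⟨x, hx, rfl⟩⟩, ⟨x, hx, rfl⟩, rfl⟩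
  have i := inclusion_injective h2
  have s' := (s.mono_right h1 h2).2
  refine ⟨fun c => hK.1 (by rw [← e, c, Subgroup.map_bot]), map_injective i (by rw [Subgroup.map_commutator, e, hK.2.1]),
    s', fun J hJ ⟨a, b, c⟩ => hK.2.2.2 (J.map (inclusion h2)) (e ▸ (map_lt_map_iff_of_injective i).2 hJ)
    ⟨fun d => a ((map_eq_bot_iff_of_injective _ i).1 d), by rw [← Subgroup.map_commutator, b],
      (e ▸ (subnIn_of_isSubnormal c hJ.le).map (inclusion h2)).isSubnormal hK.2.2.1⟩⟩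

theorem main (hE : IsOfEvenCharacteristic G) (hW : ∀ H ∈ calH G, W H) {T : Subgroup G} (hT : SylIn 2 T ⊤)
    {L : Subgroup G} (hL : L ∈ calLMax T) :
    (∀ H ∈ calHOver (L ⊔ T), L.subgroupOf H ∈ calC H) ∧ generalizedFittingSubgroup L = pCore 2 L ∧
    maxTwoLocalsContaining (L ⊔ T) = {Nm(conjClosure L T)} := by
  obtain ⟨⟨h0, -, h2⟩, hm⟩ := hL
  have p1 : ∀ H ∈ calHOver (L ⊔ T), L.subgroupOf H ∈ calC H := fun H ⟨a, b⟩ => by
    have TH := le_sup_right.trans b
    have sH := hT.mono TH le_top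
    obtain ⟨K, hK, l⟩ := key (hW H a) sH.subgroupOf_top (inclusion_injective b)
      (fun x hx => ⟨⟨x, (le_sup_right : T ≤ _) hx⟩, rfl⟩) h0
    have KH : K.map H.subtype ⊔ T ≤ H := sup_le (map_subtype_le K) TH
    have := hm _ ⟨cc_sub hK le_sup_left KH, ⟨(hT.mono le_sup_right le_top).toSylow, rfl⟩, fun e => a
      (pCoreOf_eq_bot_iff.1 (eq_bot_iff.2 ((pCoreOf_le_pCoreOf_of_le KH ((sylIn_pCoreOf_le sH).trans
        le_sup_right)).trans (pCoreOf_eq_bot_iff.2 e).le)))⟩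
      fun x hx => ⟨_, l ⟨⟨x, (le_sup_left : L ≤ _) hx⟩, hx, rfl⟩, rfl⟩
    rwa [← this, subgroupOf_map_subtype_self]
  have s : SubnIn L (L ⊔ T) := ⟨le_sup_left, h0.2.2.1⟩
  have c := s.charP (chP_iff.2 (inf_le_right.trans (parabolicChar_Cz_pCoreOf_le
    (fun R hR hR1 hS => hE _ ⟨R, hR, hR1, rfl⟩ hS) hT le_sup_right fun e => h2 (pCoreOf_eq_bot_iff.1 e))))
  have TN : T ≤ Nm(conjClosure L T) := fun t ht => mem_normalizer_of_cj_le (cj_le_iff.2 (iSup_le fun x => by
    rw [← cj_le_iff, ← cj_def, ← cj_mul]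
    exact le_iSup (fun y : T => L.map (MulAut.conj (y : G)).toMonoidHom) ⟨_, mul_mem ht x.2⟩))
  have p3 : ∀ H ∈ calHOver (L ⊔ T), H ≤ Nm(conjClosure L T) := fun H hH => by
    have LH := le_sup_left.trans hH.2
    have TH := le_sup_right.trans hH.2
    have i : (Nm(L.subgroupOf H)).index = 1 ∨ (Nm(L.subgroupOf H)).index = 2 :=
      ((hW H hH.1).2.2 _ (p1 H hH)).imp_left fun e => index_eq_one.2 (normalizer_eq_top_iff.2 e)
    set N := Nm(L.subgroupOf H) with eN
    have : N.Normal := i.elim (fun e => index_eq_one.1 e ▸ inferInstance) normal_of_index_eq_two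
    have t : N ⊔ T.subgroupOf H = ⊤ := by
      rw [← index_eq_one]
      refine ((Nat.dvd_prime Nat.prime_two).1 ((index_dvd_of_le le_sup_left).trans (i.elim (fun e => e ▸ one_dvd _)
        Eq.dvd))).resolve_right fun e => ?_
      exact (sylIn_top_iff.1 (hT.mono TH le_top).subgroupOf_top).2 (e.symm.dvd.trans (index_dvd_of_le le_sup_right))
    have := congrArg (Subgroup.map H.subtype) t
    rw [Subgroup.map_sup, map_subgroupOf_eq_of_le TH, ← MonoidHom.range_eq_map, range_subtype] at this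
    refine this.ge.trans (sup_le (Nm_sSup ?_) TN)
    rintro _ ⟨x, rfl⟩ _ ⟨g, hg, rfl⟩
    have := le_normalizer_map H.subtype ⟨_, ‹N.Normal›.conj_mem' g hg ⟨x, TH x.2⟩, rfl⟩
    rw [map_subgroupOf_eq_of_le LH] at this
    change _ ∈ Nm(cj (x : G) L)
    rwa [← cj_normalizer, mem_cj]
  have LL : L ≤ conjClosure L T := le_iSup_of_le 1 (cj_eq_of_mem (one_mem L)).ge
  have lT : L ⊔ T ≤ Nm(conjClosure L T) := sup_le (LL.trans le_normalizer) TN
  have n0 : pCoreOf 2 (conjClosure L T) ≠ ⊥ := ne_bot_of_le (s.mono_right LL (iSup_le fun x =>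
      (cj_mono _ le_sup_left).trans (cj_eq_of_mem ((le_sup_right : T ≤ _) x.2)).le)).pCoreOf_le fun e => h0.1 (by
    have := chP_iff.1 c
    rw [e, Cz_bot, inf_top_eq, le_bot_iff] at this
    simp [this])
  have tl : ∀ M, IsTwoLocal M → L ⊔ T ≤ M → M ≤ Nm(conjClosure L T) := by
    rintro _ ⟨R, a, b, rfl⟩ h
    exact p3 _ ⟨fun e => ne_bot_of_le (le_pCoreOf le_normalizer le_rfl a) b (pCoreOf_eq_bot_iff.2 e), h⟩
  have nY := normalizer_le_normalizer_pCoreOf (p := 2) (conjClosure L T)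
  have t0 : IsTwoLocal Nm(pCoreOf 2 (conjClosure L T)) := ⟨_, isPGroup_pCoreOf _, n0, rfl⟩
  rw [← le_antisymm nY (tl _ t0 (lT.trans nY))] at t0
  refine ⟨p1, chP_iff_fstar.1 c, Set.eq_singleton_iff_unique_mem.2 ⟨⟨⟨t0, fun M a b =>
    le_antisymm (tl M a (lT.trans b)) b⟩, lT⟩, fun M ⟨a, b⟩ => (a.2 _ t0 (tl M a.1 b)).symm⟩⟩

end CfH2.Uq
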